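import Cfsg.Agent.PermGroups.DegreeSeven
import Cfsg.Agent.PermGroups.JordanCycle
import Cfsg.Agent.Core.BurnsidePQ
import Cfsg.Agent.Core.Cores
import Cfsg.Agent.Linear.IsoA8
import Cfsg.Agent.Linear.Card
import Cfsg.Agent.S0678
import Cfsg.Agent.S0493
import Cfsg.Agent.S0494
import Cfsg.Agent.S0495
import Cfsg.Agent.S2551

/-!
# Subgroups of `A₈ ≅ GL₄(2)` with trivial solvable radical.
-/

set_option autoImplicit false
set_option linter.style.haveILetI false
set_option linter.unusedSectionVars false

namespace Cfsg.Agent.Screen.GLFourTwo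

open MulAction Equiv
open scoped Pointwise

/-- The possible isomorphism types. -/
def Good (H : Type*) [Group H] : Prop :=
  (∃ n : ℕ, 5 ≤ n ∧ n ≤ 8 ∧ Nonempty (H ≃* alternatingGroup (Fin n))) ∨
    Nonempty (H ≃* Perm (Fin 5)) ∨ Nonempty (H ≃* Perm (Fin 6)) ∨
    Nonempty (H ≃* GL (Fin 3) (ZMod 2))

lemma Good.of_equiv {H K : Type*} [Group H] [Group K] (e : H ≃* K) (h : Good K) : Good H := by
  rcases h with ⟨n, h1, h2, ⟨f⟩⟩ | ⟨⟨f⟩⟩ | ⟨⟨f⟩⟩ | ⟨⟨f⟩⟩
  · exact Or.inl ⟨n, h1, h2, ⟨e.trans f⟩⟩
  · exact Or.inr (Or.inl ⟨e.trans f⟩)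
  · exact Or.inr (Or.inr (Or.inl ⟨e.trans f⟩))
  · exact Or.inr (Or.inr (Or.inr ⟨e.trans f⟩))

/-- No non-trivial solvable normal subgroup. -/
def RadFree (H : Type*) [Group H] : Prop :=
  ∀ N : Subgroup H, N.Normal → Group.IsSolvable ↥N → N = ⊥

lemma RadFree.of_equiv {H K : Type*} [Group H] [Group K] (e : K ≃* H) (h : RadFree H) :
    RadFree K := by
  intro N hN hs
  have h1 : (N.map e.toMonoidHom).Normal := hN.map _ e.surjective
  haveI := hs
  have h2 : Group.IsSolvable ↥(N.map e.toMonoidHom) :=
    Group.isSolvable_of_surjective (f := ((N.equivMapOfInjective e.toMonoidHom e.injective).toMonoidHom))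
      (N.equivMapOfInjective e.toMonoidHom e.injective).surjective
  exact (Subgroup.map_eq_bot_iff_of_injective _ e.injective).1 (h _ h1 h2)

lemma RadFree.injective {H K : Type*} [Group H] [Group K] (h : RadFree H) (f : H →* K)
    (hk : Group.IsSolvable f.ker) : Function.Injective f :=
  (MonoidHom.ker_eq_bot_iff f).1 (h _ inferInstance hk)

/-- A nontrivial solvable group has a nontrivial commutative normal subgroup. -/
lemma exists_abelian_normal {H : Type*} [Group H] [Nontrivial H] (hs : Group.IsSolvable H) :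
    ∃ A : Subgroup H, A.Normal ∧ A ≠ ⊥ ∧ ∀ a ∈ A, ∀ b ∈ A, a * b = b * a := by
  classical
  obtain ⟨hn⟩ := (Group.isSolvable_def H).1 hs |> fun h => (⟨h⟩ : Nonempty _)
  have hne : Nat.find hn ≠ 0 := by
    intro h0
    have := Nat.find_spec hn
    rw [h0, derivedSeries_zero] at this
    exact top_ne_bot this
  obtain ⟨m, hm⟩ := Nat.exists_eq_succ_of_ne_zero hne
  refine ⟨derivedSeries H m, derivedSeries_normal _ _, fun e => ?_, fun a ha b hb => ?_⟩
  · exact Nat.find_min hn (show m < Nat.find hn by omega) e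
  · have h := Nat.find_spec hn
    rw [hm, derivedSeries_succ] at h
    exact Subgroup.mem_centralizer_iff.1 (Subgroup.commutator_eq_bot_iff_le_centralizer.1 h hb) a ha

/-- Trivial cores give a trivial solvable radical. -/
lemma radFree_of_cores {H : Type*} [Group H] [Finite H] (h2 : Cfsg.pCore 2 H = ⊥)
    (h2' : Cfsg.pPrimeCore 2 H = ⊥) : RadFree H := by
  intro N hN hs
  by_contra hne
  haveI := N.nontrivial_iff_ne_bot.2 hne
  -- a normal commutative subgroup of `H` inside `N`
  classical
  obtain ⟨hn⟩ := (Group.isSolvable_def N).1 hs |> fun h => (⟨h⟩ : Nonempty _)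
  have hne' : Nat.find hn ≠ 0 := by
    intro h0
    have := Nat.find_spec hn
    rw [h0, derivedSeries_zero] at this
    exact top_ne_bot this
  obtain ⟨m, hm⟩ := Nat.exists_eq_succ_of_ne_zero hne'
  set A := derivedSeries N m with hAdef
  haveI := hN
  haveI : A.Characteristic := derivedSeries_characteristic _ _
  have hA1 : A ≠ ⊥ := Nat.find_min hn (show m < Nat.find hn by omega)
  have hAc : ∀ a ∈ A, ∀ b ∈ A, a * b = b * a := fun a ha b hb => by
    have h := Nat.find_spec hn
    rw [hm, derivedSeries_succ] at h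
    exact Subgroup.mem_centralizer_iff.1 (Subgroup.commutator_eq_bot_iff_le_centralizer.1 h hb) a ha
  set B := A.map N.subtype
  have hBn : B.Normal := ConjAct.normal_of_characteristic_of_normal
  have hB1 : B ≠ ⊥ := fun e => hA1 ((Subgroup.map_eq_bot_iff_of_injective _ N.subtype_injective).1 e)
  have hBc : ∀ a ∈ B, ∀ b ∈ B, a * b = b * a := by
    rintro _ ⟨a, ha, rfl⟩ _ ⟨b, hb, rfl⟩
    rw [← map_mul, ← map_mul, hAc a ha b hb]
  obtain ⟨q, hq, hqd⟩ := Nat.exists_prime_and_dvd (n := Nat.card B)
    (fun e => hB1 (Subgroup.card_eq_one.1 e))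
  haveI : Fact q.Prime := ⟨hq⟩
  obtain ⟨x, hx⟩ := exists_prime_orderOf_dvd_card' (G := B) q hqd
  let W : Subgroup H :=
    { carrier := {g | g ∈ B ∧ g ^ q = 1}
      mul_mem' := fun {a b} ha hb => ⟨mul_mem ha.1 hb.1, by
        rw [(show Commute a b from hBc a ha.1 b hb.1).mul_pow, ha.2, hb.2, one_mul]⟩
      one_mem' := ⟨one_mem _, one_pow _⟩
      inv_mem' := fun {a} ha => ⟨inv_mem ha.1, by rw [inv_pow, ha.2, inv_one]⟩ }
  have hWn : W.Normal := ⟨fun g hg k => ⟨hBn.conj_mem g hg.1 k, by
    rw [conj_pow, hg.2, mul_one, mul_inv_cancel]⟩⟩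
  have hxW : (x : H) ∈ W :=
    ⟨x.2, by rw [← SubgroupClass.coe_pow, ← hx, pow_orderOf_eq_one]; rfl⟩
  have hWq : IsPGroup q W := fun g => ⟨1, Subtype.ext (by simpa using g.2.2)⟩
  have hbot : W = ⊥ := by
    by_cases hq2 : q = 2
    · subst hq2
      exact le_bot_iff.1 (h2 ▸ Core.le_pCore hWn hWq)
    · refine le_bot_iff.1 (h2' ▸ le_sSup ⟨hWn, ?_⟩)
      obtain ⟨k, hk⟩ := hWq.exists_card_eq
      rw [hk]
      exact ((Nat.coprime_primes hq Nat.prime_two).2 hq2).pow_left k
  rw [hbot, Subgroup.mem_bot] at hxW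
  rw [show x = 1 from Subtype.ext hxW, orderOf_one] at hx
  exact hq.ne_one hx.symm

lemma isSolvable_perm_small {β : Type*} [Finite β] (h : Nat.card β ≤ 4) : Group.IsSolvable (Perm β) := by
  have hd : Nat.card (Perm β) ∣ 2 ^ 3 * 3 ^ 1 := by
    rw [Nat.card_perm]
    exact (Nat.factorial_dvd_factorial h).trans (by decide)
  exact Core.isSolvable_of_card_dvd_two_primes Nat.prime_two Nat.prime_three hd

/-- A non-solvable group has order at least 60, and is simple below 120. -/
theorem sixty_le : ∀ (n : ℕ) {G : Type*} [Group G] [Finite G], Nat.card G = n → ¬ Group.IsSolvable G →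
    60 ≤ n ∧ (n < 120 → IsSimpleGroup G) := by
  intro n
  induction n using Nat.strong_induction_on with
  | _ n ih =>
    intro G _ _ hn hs
    haveI : Nontrivial G := by
      by_contra h
      rw [not_nontrivial_iff_subsingleton] at h
      exact hs inferInstance
    by_cases hsimp : IsSimpleGroup G
    · refine ⟨?_, fun _ => hsimp⟩
      by_contra h
      have hc : ¬ IsCyclic G := fun hc => hs (by
        haveI := hc
        letI : CommGroup G := IsCyclic.commGroup
        infer_instance)
      have := S0493.result (G := G) hc (by omega)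
      omega
    · obtain ⟨N, hN, hN1, hN2⟩ : ∃ N : Subgroup G, N.Normal ∧ N ≠ ⊥ ∧ N ≠ ⊤ := by
        by_contra hcon
        push Not at hcon
        exact hsimp ⟨fun N hN => (em (N = ⊥)).imp_right (hcon N hN)⟩
      have hmul := Subgroup.card_eq_card_quotient_mul_card_subgroup N
      have h2N : 2 ≤ Nat.card N := by
        have : Nat.card N ≠ 1 := fun e => hN1 (Subgroup.card_eq_one.1 e)
        have : 0 < Nat.card N := Nat.card_pos
        omega
      have h2Q : 2 ≤ Nat.card (G ⧸ N) := by
        have : Nat.card (G ⧸ N) ≠ 1 := fun e => hN2 (Subgroup.index_eq_one.1 e)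
        have : 0 < Nat.card (G ⧸ N) := Nat.card_pos
        omega
      rw [hn] at hmul
      by_cases hNs : Group.IsSolvable N
      · have hQs : ¬ Group.IsSolvable (G ⧸ N) := fun hQ => hs (by
          haveI := hNs
          haveI := hQ
          exact Group.isSolvable_of_ker_le_range N.subtype (QuotientGroup.mk' N) (by simp))
        have h60 := (ih _ (by nlinarith) rfl hQs).1
        constructor
        · nlinarith
        · intro hlt; nlinarith
      · have h60 := (ih _ (by nlinarith) rfl hNs).1
        constructor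
        · nlinarith
        · intro hlt; nlinarith

lemma simple_168_iso {G : Type*} [Group G] [Finite G] [IsSimpleGroup G] (h : Nat.card G = 168) :
    Nonempty (G ≃* GL (Fin 3) (ZMod 2)) := by
  classical
  have hF : Fintype.card (ZMod 2) = 2 := ZMod.card 2
  let f : Matrix.SpecialLinearGroup (Fin 3) (ZMod 2) →* GL (Fin 3) (ZMod 2) :=
    Matrix.SpecialLinearGroup.toGL
  have hinj : Function.Injective f := fun a b h => Subtype.ext (congrArg Units.val h :)
  have hsur : Function.Surjective f := fun g => by
    refine ⟨⟨g.1, ?_⟩, Units.ext rfl⟩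
    have hu := (Matrix.isUnit_iff_isUnit_det _).1 g.isUnit
    revert hu
    generalize g.1.det = d
    revert d
    decide
  have hc : Subgroup.center (Matrix.SpecialLinearGroup (Fin 3) (ZMod 2)) = ⊥ := by
    rw [← Subgroup.card_eq_one, Linear.card_center_SL, hF]
    rfl
  let e : Matrix.ProjectiveSpecialLinearGroup (Fin 3) (ZMod 2) ≃* GL (Fin 3) (ZMod 2) :=
    ((QuotientGroup.quotientMulEquivOfEq hc).trans QuotientGroup.quotientBot).trans
      (MulEquiv.ofBijective f ⟨hinj, hsur⟩)
  haveI : IsSimpleGroup (Matrix.ProjectiveSpecialLinearGroup (Fin 3) (ZMod 2)) :=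
    Linear.isSimpleGroup_PSL (by simp)
  haveI : Nontrivial (GL (Fin 3) (ZMod 2)) := e.symm.toEquiv.nontrivial
  haveI : IsSimpleGroup (GL (Fin 3) (ZMod 2)) :=
    IsSimpleGroup.isSimpleGroup_of_surjective e.toMonoidHom e.surjective
  have hcard : Nat.card (GL (Fin 3) (ZMod 2)) = 168 := by
    rw [Matrix.card_GL_field, Fin.prod_univ_three]
    simp
  haveI : Fact (Nat.Prime 7) := ⟨by norm_num⟩
  obtain ⟨e1⟩ := S0495.result (G := G) h (F := ZMod 7) (ZMod.card 7)
  obtain ⟨e2⟩ := S0495.result (G := GL (Fin 3) (ZMod 2)) hcard (F := ZMod 7) (ZMod.card 7)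
  exact ⟨e1.trans e2.symm⟩

lemma even_of_dvd_1344 : ∀ n ≤ 15, n ≠ 1 → n ∣ 1344 → 1344 ∣ n.factorial → 2 ∣ n := by
  decide +kernel

lemma zmod_two_cases : ∀ c : ZMod 2, c = 0 ∨ c = 1 := by decide

lemma exists_map {a b : Fin 4 → ZMod 2} (ha : a ≠ 0) (hb : b ≠ 0) :
    ∃ g : GL (Fin 4) (ZMod 2), (g : Matrix (Fin 4) (Fin 4) (ZMod 2)).mulVec a = b := by
  have hex : ∀ v : Fin 4 → ZMod 2, ∃ w, w ≠ 0 ∧ v ≠ w := by decide +kernel
  obtain ⟨w, hw, hvw⟩ := hex a
  obtain ⟨w', hw', hvw'⟩ := hex b
  obtain ⟨g, hg, -⟩ := S2551.exists_pair_map (ZMod.card 2) ha hw hvw hb hw' hvw'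
  exact ⟨g, hg⟩

/-- There is no simple subgroup of order 1344 in `GL₄(2)`. -/
lemma no_1344 (K : Subgroup (GL (Fin 4) (ZMod 2))) (hK : Nat.card K = 1344)
    (hs : IsSimpleGroup K) : False := by
  classical
  let V := {v : Fin 4 → ZMod 2 // v ≠ 0}
  letI : MulAction K V :=
    { smul := fun g v => ⟨(g.1 : Matrix (Fin 4) (Fin 4) (ZMod 2)).mulVec v.1, fun e => v.2 (by
          have := congrArg ((g.1⁻¹ : GL (Fin 4) (ZMod 2)) : Matrix (Fin 4) (Fin 4) (ZMod 2)).mulVec e
          rwa [Matrix.mulVec_mulVec, ← Units.val_mul, inv_mul_cancel, Units.val_one,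
            Matrix.one_mulVec, Matrix.mulVec_zero] at this)⟩
      one_smul := fun v => Subtype.ext (by
        change Matrix.mulVec ((1 : K).1.1) v.1 = v.1
        rw [Subgroup.coe_one, Units.val_one, Matrix.one_mulVec])
      mul_smul := fun g h v => Subtype.ext (by
        change Matrix.mulVec ((g * h).1.1) v.1 = Matrix.mulVec g.1.1 (Matrix.mulVec h.1.1 v.1)
        rw [Subgroup.coe_mul, Units.val_mul, Matrix.mulVec_mulVec]) }
  have hV : Nat.card V = 15 := by rw [Nat.card_eq_fintype_card]; decide
  have horb : ∀ v : V, Nat.card (orbit K v) = 1 ∨ 2 ∣ Nat.card (orbit K v) := by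
    intro v
    have hdvd : Nat.card (orbit K v) ∣ 1344 := by
      rw [← hK, Nat.card_coe_set_eq, ← MulAction.index_stabilizer]
      exact Subgroup.index_dvd_card _
    have hle : Nat.card (orbit K v) ≤ 15 := hV ▸ Nat.card_le_card_of_injective _ Subtype.val_injective
    by_cases h1 : Nat.card (orbit K v) = 1
    · exact Or.inl h1
    have hinj : Function.Injective (toPermHom K (orbit K v)) := by
      rw [← MonoidHom.ker_eq_bot_iff]
      refine (hs.eq_bot_or_eq_top_of_normal _ inferInstance).resolve_right fun htop => h1 ?_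
      rw [Nat.card_eq_one_iff_exists]
      refine ⟨⟨v, mem_orbit_self v⟩, fun w => Subtype.ext ?_⟩
      obtain ⟨g, hg⟩ := w.2
      have hg1 : g ∈ (toPermHom K (orbit K v)).ker := htop ▸ Subgroup.mem_top g
      have h2 : g • v = v := by
        simpa using congrArg Subtype.val
          (DFunLike.congr_fun (MonoidHom.mem_ker.1 hg1) (⟨v, mem_orbit_self v⟩ : orbit K v))
      rw [← hg]; exact h2
    have hd := Subgroup.card_dvd_of_injective _ hinj
    rw [hK, Nat.card_perm] at hd
    exact Or.inr (even_of_dvd_1344 _ hle h1 hdvd hd)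
  obtain ⟨v, hv⟩ : ∃ v : V, Nat.card (orbit K v) = 1 := by
    by_contra hno
    push Not at hno
    have h2 : ∀ v, 2 ∣ Nat.card (orbit K v) := fun v => (horb v).resolve_left (hno v)
    have hsum := Nat.card_congr (MulAction.selfEquivSigmaOrbits K V)
    rw [Nat.card_sigma, hV] at hsum
    have : 2 ∣ 15 := hsum ▸ Finset.dvd_sum fun ω _ => h2 _
    omega
  -- `K` is the stabiliser of `v`
  have hfix : ∀ g ∈ K, (g : Matrix (Fin 4) (Fin 4) (ZMod 2)).mulVec v.1 = v.1 := by
    intro g hg
    rw [Nat.card_eq_one_iff_unique] at hv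
    haveI := hv.1
    exact congrArg (fun w : V => w.1) (congrArg Subtype.val (Subsingleton.elim
      (⟨(⟨g, hg⟩ : K) • v, mem_orbit v _⟩ : orbit K v) ⟨v, mem_orbit_self v⟩))
  let S : Subgroup (GL (Fin 4) (ZMod 2)) :=
    { carrier := {g | (g : Matrix (Fin 4) (Fin 4) (ZMod 2)).mulVec v.1 = v.1}
      mul_mem' := fun {a b} ha hb => by
        rw [Set.mem_ofPred_eq] at ha hb ⊢
        rw [Units.val_mul, ← Matrix.mulVec_mulVec, hb, ha]
      one_mem' := by simp
      inv_mem' := fun {a} ha => by
        rw [Set.mem_ofPred_eq] at ha ⊢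
        conv_lhs => rw [← ha]
        rw [Matrix.mulVec_mulVec, ← Units.val_mul, inv_mul_cancel, Units.val_one, Matrix.one_mulVec] }
  have hKS : K = S := by
    refine Subgroup.eq_of_le_of_card_ge hfix ?_
    -- the index of `S` is the length of the orbit of `v`, all 15 vectors
    letI : MulAction (GL (Fin 4) (ZMod 2)) V :=
      { smul := fun g w => ⟨(g : Matrix (Fin 4) (Fin 4) (ZMod 2)).mulVec w.1, fun e => w.2 (by
            have := congrArg ((g⁻¹ : GL (Fin 4) (ZMod 2)) : Matrix (Fin 4) (Fin 4) (ZMod 2)).mulVec e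
            rwa [Matrix.mulVec_mulVec, ← Units.val_mul, inv_mul_cancel, Units.val_one,
              Matrix.one_mulVec, Matrix.mulVec_zero] at this)⟩
        one_smul := fun w => Subtype.ext (by
          change Matrix.mulVec ((1 : GL (Fin 4) (ZMod 2)).1) w.1 = w.1
          rw [Units.val_one, Matrix.one_mulVec])
        mul_smul := fun g h w => Subtype.ext (by
          change Matrix.mulVec ((g * h).1) w.1 = Matrix.mulVec g.1 (Matrix.mulVec h.1 w.1)
          rw [Units.val_mul, Matrix.mulVec_mulVec]) }
    haveI : IsPretransitive (GL (Fin 4) (ZMod 2)) V := by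
      refine ⟨fun a b => ?_⟩
      obtain ⟨g, hg⟩ := exists_map a.2 b.2
      exact ⟨g, Subtype.ext hg⟩
    have hSstab : S = stabilizer (GL (Fin 4) (ZMod 2)) v := by
      ext g
      exact ⟨fun h => Subtype.ext h, fun h => congrArg Subtype.val h⟩
    have hi := (stabilizer (GL (Fin 4) (ZMod 2)) v).card_mul_index
    rw [index_stabilizer_of_transitive, hV, ← hSstab, Matrix.card_GL_field] at hi
    simp [Fin.prod_univ_four] at hi
    rw [hK]
    rw [Nat.card_eq_fintype_card]; omega
  -- the elements acting trivially modulo `⟨v⟩`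
  let N : Subgroup K :=
    { carrier := {g | ∀ x : Fin 4 → ZMod 2, (g.1 : Matrix (Fin 4) (Fin 4) (ZMod 2)).mulVec x = x ∨
        (g.1 : Matrix (Fin 4) (Fin 4) (ZMod 2)).mulVec x = x + v.1}
      mul_mem' := fun {a b} ha hb x => by
        rw [Subgroup.coe_mul, Units.val_mul, ← Matrix.mulVec_mulVec]
        rcases hb x with e | e <;> rw [e]
        · exact ha x
        · rw [Matrix.mulVec_add, hfix _ a.2]
          rcases ha x with e' | e' <;> rw [e']
          · exact Or.inr rfl
          · exact Or.inl (by rw [add_assoc, CharTwo.add_self_eq_zero, add_zero])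
      one_mem' := fun x => Or.inl (Matrix.one_mulVec _)
      inv_mem' := fun {a} ha x => by
        have e0 : (a.1 : Matrix (Fin 4) (Fin 4) (ZMod 2)).mulVec ((a⁻¹ : K).1.1.mulVec x) = x := by
          rw [Subgroup.coe_inv, Matrix.mulVec_mulVec, ← Units.val_mul, mul_inv_cancel, Units.val_one,
            Matrix.one_mulVec]
        rcases ha ((a⁻¹ : K).1.1.mulVec x) with e | e <;> rw [e0] at e
        · exact Or.inl e.symm
        · refine Or.inr ?_
          show _ = x + v.1
          conv_rhs => rw [e]
          rw [add_assoc, CharTwo.add_self_eq_zero, add_zero] }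
  haveI : N.Normal := ⟨fun g hg k x => by
    have e0 : (k.1 : Matrix (Fin 4) (Fin 4) (ZMod 2)).mulVec ((k⁻¹ : K).1.1.mulVec x) = x := by
      rw [Subgroup.coe_inv, Matrix.mulVec_mulVec, ← Units.val_mul, mul_inv_cancel, Units.val_one,
        Matrix.one_mulVec]
    rcases hg ((k⁻¹ : K).1.1.mulVec x) with e | e <;>
      simp only [Subgroup.coe_mul, Units.val_mul, ← Matrix.mulVec_mulVec, e, Matrix.mulVec_add, e0,
        hfix _ k.2, true_or, or_true]⟩
  rcases hs.eq_bot_or_eq_top_of_normal N inferInstance with h | h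
  · -- a transvection with centre `v`
    obtain ⟨φ, hφ0, hφv⟩ : ∃ φ : Fin 4 → ZMod 2, φ ≠ 0 ∧ dotProduct φ v.1 = 0 := by
      have : ∀ w : Fin 4 → ZMod 2, ∃ φ : Fin 4 → ZMod 2, φ ≠ 0 ∧ dotProduct φ w = 0 := by
        decide +kernel
      exact this v.1
    let T : Matrix (Fin 4) (Fin 4) (ZMod 2) := 1 + Matrix.vecMulVec v.1 φ
    have hT : ∀ x, T.mulVec x = x + dotProduct φ x • v.1 := fun x => by
      rw [Matrix.add_mulVec, Matrix.one_mulVec, Matrix.vecMulVec_mulVec]
      congr 1
      funext i
      simp [mul_comm]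
    have hTT : T * T = 1 := by
      refine Matrix.toLin'.injective (LinearMap.ext fun x => ?_)
      simp only [Matrix.toLin'_apply]
      rw [← Matrix.mulVec_mulVec, hT, hT x, dotProduct_add, dotProduct_smul, hφv, smul_zero,
        add_zero, add_assoc, ← add_smul, CharTwo.add_self_eq_zero, zero_smul, add_zero,
        Matrix.one_mulVec]
    let g : GL (Fin 4) (ZMod 2) := ⟨T, T, hTT, hTT⟩
    have hg : g ∈ K := by
      rw [hKS]
      show T.mulVec v.1 = v.1
      rw [hT, hφv, zero_smul, add_zero]
    have hgN : (⟨g, hg⟩ : K) ∈ N := fun x => by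
      show T.mulVec x = x ∨ T.mulVec x = x + v.1
      rw [hT]
      rcases zmod_two_cases (dotProduct φ x) with hc | hc <;> simp [hc]
    rw [h, Subgroup.mem_bot] at hgN
    obtain ⟨i, hi⟩ : ∃ i, φ i ≠ 0 := Function.ne_iff.1 hφ0
    have := hT (Pi.single i 1)
    rw [show T = 1 from congrArg (fun k : K => (k.1.1)) hgN, Matrix.one_mulVec, left_eq_add,
      dotProduct_single, mul_one, smul_eq_zero] at this
    exact this.elim hi v.2
  · -- at most `2 ^ 4` elements act trivially modulo `⟨v⟩`
    have hinj : Function.Injective (fun g : K => fun i : Fin 4 =>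
        decide ((g.1 : Matrix (Fin 4) (Fin 4) (ZMod 2)).mulVec (Pi.single i 1) = Pi.single i 1)) := by
      intro a b hab
      refine Subtype.ext (Units.ext (Matrix.ext fun r i => ?_))
      have ha : a ∈ N := h ▸ Subgroup.mem_top a
      have hb : b ∈ N := h ▸ Subgroup.mem_top b
      have he := congrFun hab i
      simp only [decide_eq_decide] at he
      have key : (a.1 : Matrix (Fin 4) (Fin 4) (ZMod 2)).mulVec (Pi.single i 1) =
          (b.1 : Matrix (Fin 4) (Fin 4) (ZMod 2)).mulVec (Pi.single i 1) := by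
        rcases ha (Pi.single i 1) with e | e
        · rw [e, he.1 e]
        · rcases hb (Pi.single i 1) with e' | e'
          · rw [e', he.2 e']
          · rw [e, e']
      simpa using congrFun key r
    have := Nat.card_le_card_of_injective _ hinj
    rw [hK, Nat.card_eq_fintype_card] at this
    simp at this

section Degree

variable {β : Type} [Fintype β] [DecidableEq β]

/-- Restriction of the permutations fixing `a` to the other points. -/
def restrHom (a : β) : stabilizer (Perm β) a →* Perm {x // x ≠ a} :=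
  MonoidHom.mk' (fun g => (g.1).subtypePerm (fun x => by
    have hg : g.1 a = a := g.2
    constructor
    · intro h e; exact h (by rw [e, hg])
    · intro h e; exact h (g.1.injective (e.trans hg.symm))))
    (fun _ _ => Equiv.ext fun _ => rfl)

lemma restrHom_injective (a : β) : Function.Injective (restrHom a) := by
  intro g h e
  refine Subtype.ext (Equiv.ext fun x => ?_)
  by_cases hx : x = a
  · subst hx; exact (g.2 : g.1 x = x).trans (h.2 : h.1 x = x).symm
  · exact congrArg Subtype.val (DFunLike.congr_fun e ⟨x, hx⟩)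

lemma sign_restrHom (a : β) (g : stabilizer (Perm β) a) :
    Perm.sign (restrHom a g) = Perm.sign g.1 := by
  simp only [restrHom, MonoidHom.mk'_apply]
  apply Perm.sign_subtypePerm
  intro x hx e
  subst e
  exact hx g.2

lemma card_ne (a : β) {k : ℕ} (hk : Fintype.card β = k + 1) :
    Fintype.card {x // x ≠ a} = k := by
  rw [Fintype.card_subtype_compl, Fintype.card_subtype_eq, hk]
  omega

lemma sixty_or : ∀ n ≤ 120, 60 ≤ n → n ∣ 120 → n = 60 ∨ n = 120 := by decide +kernel

lemma good_sixty {G : Type*} [Group G] [Finite G] (h : Nat.card G = 60)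
    (hs : ¬ Group.IsSolvable G) : Good G := by
  haveI := (sixty_le _ h hs).2 (by norm_num)
  exact Or.inl ⟨5, le_rfl, by norm_num, S0494.result h⟩

lemma good_alt {k : ℕ} (hk : Fintype.card β = k) (h5 : 5 ≤ k) (h8 : k ≤ 8)
    {X : Subgroup (Perm β)} (h : X = alternatingGroup β) : Good X := by
  subst h
  exact Or.inl ⟨k, h5, h8, ⟨(Fintype.equivFinOfCardEq hk).altCongrHom⟩⟩

lemma card_subgroup_dvd {k : ℕ} (hk : Fintype.card β = k) (X : Subgroup (Perm β)) :
    Nat.card X ∣ k.factorial := by
  have := Subgroup.card_subgroup_dvd_card X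
  rwa [Nat.card_perm, Nat.card_eq_fintype_card (α := β), hk] at this

lemma degree_five (hk : Fintype.card β = 5) (X : Subgroup (Perm β))
    (hs : ¬ Group.IsSolvable X) : Good X := by
  have hd : Nat.card X ∣ 120 := card_subgroup_dvd hk X
  rcases sixty_or _ (Nat.le_of_dvd (by norm_num) hd) (sixty_le _ rfl hs).1 hd with h | h
  · exact good_sixty h hs
  · have : X = ⊤ := Subgroup.eq_top_of_card_eq X (by
      rw [h, Nat.card_perm, Nat.card_eq_fintype_card, hk]; rfl)
    subst this
    exact Or.inr (Or.inl ⟨Subgroup.topEquiv.trans (Fintype.equivFinOfCardEq hk).permCongrHom⟩)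

lemma degree_six (hk : Fintype.card β = 6) (X : Subgroup (Perm β))
    (hr : RadFree X) (hs : ¬ Group.IsSolvable X) : Good X := by
  classical
  haveI : IsSimpleGroup (alternatingGroup β) :=
    alternatingGroup.isSimpleGroup (by rw [Nat.card_eq_fintype_card, hk]; norm_num)
  set Y : Subgroup (Perm β) := X ⊓ alternatingGroup β with hY
  have hYs := PermGroups.SmallDegree.not_isSolvable_inf_alternating X hs
  have hA : Nat.card (alternatingGroup β) = 360 := by
    have := PermGroups.DegreeSeven.natCard_alternating hk (by norm_num)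
    simp only [Nat.factorial] at this
    omega
  have h60 : 60 ≤ Nat.card Y := (sixty_le _ rfl hYs).1
  set Y' : Subgroup (alternatingGroup β) := Y.subgroupOf (alternatingGroup β) with hY'
  have hcY : Nat.card Y' = Nat.card Y :=
    Nat.card_congr (Subgroup.subgroupOfEquivOfLe inf_le_right).toEquiv
  have hmul := Y'.card_mul_index
  rw [hA, hcY] at hmul
  have hcases : Nat.card Y = 360 ∨ Nat.card Y = 60 := by
    by_cases h1 : Y'.index = 1
    · left; rw [h1, mul_one] at hmul; exact hmul
    right
    have h6 : 6 ≤ Y'.index := by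
      by_contra h6
      rcases (‹IsSimpleGroup (alternatingGroup β)›).eq_bot_or_eq_top_of_normal Y'.normalCore
        inferInstance with hb | ht
      · rw [Subgroup.normalCore_eq_ker] at hb
        have hd := Subgroup.card_dvd_of_injective _ ((MonoidHom.ker_eq_bot_iff _).1 hb)
        rw [hA, Nat.card_perm] at hd
        have h' : Nat.card (alternatingGroup β ⧸ Y') = Y'.index := rfl
        rw [h'] at hd
        have := Nat.le_of_dvd (Nat.factorial_pos _) hd
        have := Nat.factorial_le (show Y'.index ≤ 5 by omega)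
        simp only [Nat.factorial] at this
        omega
      · exact h1 (Subgroup.index_eq_one.2 (top_unique (ht ▸ Y'.normalCore_le)))
    nlinarith
  rcases hcases with h | h
  · have hle : alternatingGroup β ≤ X := by
      have := Subgroup.eq_of_le_of_card_ge (inf_le_right : Y ≤ alternatingGroup β) (by rw [hA, h])
      exact this ▸ inf_le_left
    have hi : X.index ∣ 2 := by
      haveI : Nontrivial β := Fintype.one_lt_card_iff_nontrivial.1 (by omega)
      exact alternatingGroup.index_eq_two (α := β) ▸ Subgroup.index_dvd_of_le hle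
    rcases (Nat.dvd_prime Nat.prime_two).1 hi with e | e
    · rw [Subgroup.index_eq_one] at e
      subst e
      exact Or.inr (Or.inr (Or.inl
        ⟨Subgroup.topEquiv.trans (Fintype.equivFinOfCardEq hk).permCongrHom⟩))
    · exact good_alt hk (by norm_num) (by norm_num) (Perm.eq_alternatingGroup_of_index_eq_two e)
  · rcases PermGroups.SmallDegree.natCard_eq_or_twice X with e | e <;> rw [← hY, h] at e
    · exact good_sixty e hs
    -- order 120: the action on the six cosets is faithful
    set f := toPermHom (Perm β) (Perm β ⧸ X) with hf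
    have hker : f.ker = ⊥ := by
      rw [hf, ← Subgroup.normalCore_eq_ker]
      have hle : X.normalCore ≤ X := X.normalCore_le
      rcases (‹IsSimpleGroup (alternatingGroup β)›).eq_bot_or_eq_top_of_normal
        (X.normalCore.subgroupOf (alternatingGroup β)) inferInstance with hb | ht
      · rw [Subgroup.subgroupOf_eq_bot, disjoint_iff] at hb
        haveI : Group.IsSolvable X.normalCore := by
          let g : X.normalCore →* ℤˣ := Perm.sign.comp X.normalCore.subtype
          refine Group.isSolvable_of_isSolvable_injective (f := g) ?_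
          rw [← MonoidHom.ker_eq_bot_iff, Subgroup.eq_bot_iff_forall]
          intro x hx
          have : (x : Perm β) ∈ X.normalCore ⊓ alternatingGroup β :=
            ⟨x.2, Perm.mem_alternatingGroup.2 hx⟩
          rw [hb, Subgroup.mem_bot] at this
          exact Subtype.ext this
        have hb' := hr (X.normalCore.subgroupOf X) inferInstance
          (Group.isSolvable_of_isSolvable_injective
            (f := (Subgroup.subgroupOfEquivOfLe hle).toMonoidHom)
            (Subgroup.subgroupOfEquivOfLe hle).injective)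
        rw [Subgroup.subgroupOf_eq_bot, disjoint_iff, inf_eq_left.2 hle] at hb'
        exact hb'
      · exfalso
        have := Subgroup.card_le_of_le ((Subgroup.subgroupOf_eq_top.1 ht).trans hle)
        omega
    have hi : Nat.card (Perm β ⧸ X) = 6 := by
      have := X.card_mul_index
      rw [e, Nat.card_perm, Nat.card_eq_fintype_card (α := β), hk] at this
      simp only [Nat.factorial] at this
      have h' : Nat.card (Perm β ⧸ X) = X.index := rfl
      omega
    haveI : Fintype (Perm β ⧸ X) := Fintype.ofFinite _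
    rw [Nat.card_eq_fintype_card] at hi
    let g : X →* stabilizer (Perm (Perm β ⧸ X)) ((1 : Perm β) : Perm β ⧸ X) :=
      (f.comp X.subtype).codRestrict _ fun x => by
        show ((x : Perm β) • ((1 : Perm β) : Perm β ⧸ X)) = _
        rw [MulAction.Quotient.smul_coe, smul_eq_mul, mul_one, QuotientGroup.eq, mul_one]
        exact inv_mem x.2
    have hginj : Function.Injective g := fun x y hxy =>
      Subtype.ext ((MonoidHom.ker_eq_bot_iff f).1 hker (congrArg Subtype.val hxy))
    have hinj : Function.Injective ((restrHom _).comp g) := (restrHom_injective _).comp hginj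
    have hc5 := card_ne ((1 : Perm β) : Perm β ⧸ X) (k := 5) hi
    have hbij : Function.Bijective ((restrHom _).comp g) :=
      (Nat.bijective_iff_injective_and_card _).2 ⟨hinj, by
        rw [e, Nat.card_perm, Nat.card_eq_fintype_card, hc5]; rfl⟩
    exact Or.inr (Or.inl
      ⟨(MulEquiv.ofBijective _ hbij).trans (Fintype.equivFinOfCardEq hc5).permCongrHom⟩)

lemma degree_seven (hk : Fintype.card β = 7) (X : Subgroup (Perm β)) [IsPretransitive X β]
    (hev : X ≤ alternatingGroup β) (hs : ¬ Group.IsSolvable X) : Good X := by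
  by_cases hA : alternatingGroup β ≤ X
  · exact good_alt hk (by norm_num) (by norm_num) (le_antisymm hev hA)
  · obtain ⟨hc, hsi⟩ := S0678.result hk X hs hA
    exact Or.inr (Or.inr (Or.inr (simple_168_iso hc)))

/-- A solvable transitive group of degree seven of even permutations has order dividing 21. -/
lemma solvable_seven (hk : Fintype.card β = 7) (X : Subgroup (Perm β)) [IsPretransitive X β]
    (hev : X ≤ alternatingGroup β) (hs : Group.IsSolvable X) : Nat.card X ∣ 21 := by
  classical
  haveI : Fact (Nat.Prime 7) := ⟨by norm_num⟩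
  obtain ⟨P⟩ : Nonempty (Sylow 7 X) := inferInstance
  have hP := PermGroups.natCard_sylow_prime_degree hk X P
  haveI : Nontrivial X := by
    refine Finite.one_lt_card_iff_nontrivial.1 ?_
    have := Subgroup.card_le_card_group (P : Subgroup X)
    omega
  obtain ⟨A, hA, hA1, hAc⟩ := exists_abelian_normal hs
  haveI := hA
  haveI hAt := PermGroups.SmallDegree.transitive_of_normal hk X A hA1
  obtain ⟨b⟩ : Nonempty β := Fintype.card_pos_iff.1 (by omega)
  have hsur : Function.Surjective (fun g : A => (g.1.1 : Perm β) b) := fun y => by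
    obtain ⟨⟨_, g, hg, rfl⟩, hgy⟩ := exists_smul_eq (A.map X.subtype) b y
    exact ⟨⟨g, hg⟩, hgy⟩
  have hinj : Function.Injective (fun g : A => (g.1.1 : Perm β) b) := fun g h e => by
    refine Subtype.ext (Subtype.ext (Equiv.ext fun y => ?_))
    obtain ⟨k, rfl⟩ := hsur y
    have e1 := congrArg (fun z : X => z.1 b) (hAc _ g.2 _ k.2)
    have e2 := congrArg (fun z : X => z.1 b) (hAc _ h.2 _ k.2)
    simp only [Subgroup.coe_mul, Perm.mul_apply] at e1 e2
    show g.1.1 (k.1.1 b) = h.1.1 (k.1.1 b)
    rw [e1, e2, show g.1.1 b = h.1.1 b from e]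
  have hA7 : Nat.card A = 7 := by
    rw [Nat.card_eq_of_bijective _ ⟨hinj, hsur⟩, Nat.card_eq_fintype_card, hk]
  obtain ⟨Q, hQ⟩ := (IsPGroup.of_card (p := 7) (n := 1) (G := A) (by rw [hA7, pow_one])).exists_le_sylow
  have hAQ : A = Q := Subgroup.eq_of_le_of_card_ge hQ (by
    rw [hA7, PermGroups.natCard_sylow_prime_degree hk X Q])
  have hN : Subgroup.normalizer ((Q : Subgroup X) : Set X) = ⊤ :=
    Subgroup.normalizer_eq_top_iff.2 (hAQ ▸ hA)
  obtain ⟨m, hm, hc⟩ := PermGroups.exists_natCard_normalizer hk X Q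
  have hodd := PermGroups.SmallDegree.odd_normalizer (by norm_num) hk X hev Q
  rw [hN, Subgroup.card_top] at hc hodd
  rw [hc] at hodd ⊢
  have hm6 : m ≤ 6 := Nat.le_of_dvd (by norm_num) hm
  rw [Nat.odd_mul] at hodd
  obtain ⟨-, r, hr⟩ := hodd
  rcases (show m = 1 ∨ m = 3 ∨ m = 5 by omega) with rfl | rfl | rfl
  · norm_num
  · norm_num
  · norm_num at hm

lemma simple_168 {G : Type*} [Group G] [Finite G] (h : Nat.card G = 168)
    (hr : RadFree G) : IsSimpleGroup G := by
  haveI : Nontrivial G := Finite.one_lt_card_iff_nontrivial.1 (by omega)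
  refine ⟨fun N hN => ?_⟩
  by_cases hb : N = ⊥
  · exact Or.inl hb
  right
  by_contra hne
  have hs : ¬ Group.IsSolvable N := fun hs => hb (hr N hN hs)
  obtain ⟨h60, hsimp⟩ := sixty_le _ rfl hs
  have hmul := N.card_mul_index
  rw [h] at hmul
  have hi : 2 ≤ N.index := by
    have : N.index ≠ 1 := fun e => hne (Subgroup.index_eq_one.1 e)
    have : N.index ≠ 0 := Subgroup.index_ne_zero_of_finite
    omega
  have hi' : N.index ≤ 2 := by nlinarith
  rw [show N.index = 2 by omega] at hmul
  haveI := hsimp (by omega)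
  have h84 := S0493.result (G := N) (fun hc => hs (by
    haveI := hc
    letI : CommGroup N := IsCyclic.commGroup
    infer_instance)) (by omega)
  omega

lemma degree_eight_five (hk : Fintype.card β = 8) (X : Subgroup (Perm β)) [IsPretransitive X β]
    (hev : X ≤ alternatingGroup β) (h5 : 5 ∣ Nat.card X) : Good X := by
  classical
  haveI : Fact (Nat.Prime 5) := ⟨by norm_num⟩
  obtain ⟨g, hg⟩ := exists_prime_orderOf_dvd_card' (G := X) 5 h5
  have hgo : orderOf (g : Perm β) = 5 := by rw [Subgroup.orderOf_coe, hg]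
  have hpow : (g : Perm β) ^ 5 = 1 := PermGroups.SmallDegree.pow_eq_one_of_orderOf hgo
  have hd := PermGroups.SmallDegree.prime_dvd_support_card Nat.prime_five hpow
  have hpos := PermGroups.SmallDegree.support_card_pos Nat.prime_five hgo
  have hle := (g : Perm β).support.card_le_univ
  have hsc : (g : Perm β).support.card = 5 := by omega
  have hcyc := PermGroups.SmallDegree.isCycle_of_support_card Nat.prime_five hgo hsc
  have hprim : IsPreprimitive X β := by
    refine ⟨fun {B} hB => ?_⟩
    by_contra hnt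
    simp only [IsTrivialBlock, not_or, Set.not_subsingleton_iff] at hnt
    obtain ⟨hB2, hBu⟩ := hnt
    have hne : B.Nonempty := hB2.nonempty
    have hmul := hB.ncard_block_mul_ncard_orbit_eq hne
    rw [Nat.card_eq_fintype_card, hk] at hmul
    have h2 : 2 ≤ B.ncard := (Set.one_lt_ncard B.toFinite).2 hB2
    have h8 : B.ncard < 8 := by
      rw [← hk, ← Nat.card_eq_fintype_card, ← Set.ncard_univ]
      exact Set.ncard_lt_ncard (Set.ssubset_univ_iff.2 hBu)
    have hBd : B.ncard ≤ 4 ∧ (orbit X B).ncard ≤ 4 := by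
      have : (orbit X B).ncard ≤ 4 := by nlinarith
      refine ⟨?_, this⟩
      by_contra h
      have : (orbit X B).ncard ≤ 1 := by nlinarith
      interval_cases (orbit X B).ncard <;> omega
    -- `g` fixes every translate of `B`
    have hσ : toPermHom X (orbit X B) g = 1 := by
      haveI : Fintype (orbit X B) := Fintype.ofFinite _
      rw [← orderOf_eq_one_iff]
      refine (Nat.coprime_self _).1 (Nat.Coprime.coprime_dvd_left ?_
        (Nat.Coprime.coprime_dvd_right ?_ (show Nat.Coprime 5 24 by norm_num)))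
      · exact hg ▸ orderOf_map_dvd _ g
      · refine (orderOf_dvd_natCard _).trans ?_
        rw [Nat.card_perm, Nat.card_coe_set_eq]
        exact (Nat.factorial_dvd_factorial hBd.2).trans (by decide)
    obtain ⟨x, hx⟩ : ∃ x, x ∈ (g : Perm β).support := Finset.card_pos.1 (by omega)
    obtain ⟨y, hy⟩ := hne
    obtain ⟨h, hh⟩ := exists_smul_eq X y x
    have hfix : g • (h • B) = h • B :=
      congrArg Subtype.val (DFunLike.congr_fun hσ (⟨h • B, mem_orbit B h⟩ : orbit X B))
    have hxB : x ∈ h • B := hh ▸ Set.smul_mem_smul_set hy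
    have hall : ∀ i : ℕ, ((g : Perm β) ^ i) x ∈ h • B := by
      intro i
      induction i with
      | zero => simpa using hxB
      | succ i ih =>
        rw [pow_succ', Perm.mul_apply]
        rw [← hfix]
        exact Set.smul_mem_smul_set (a := g) ih
    have hsub : ((g : Perm β).support : Set β) ⊆ h • B := fun z hz => by
      obtain ⟨i, -, rfl⟩ := (hcyc.sameCycle (Perm.mem_support.1 hx)
        (Perm.mem_support.1 hz)).exists_pow_eq'
      exact hall i
    have := Set.ncard_le_ncard hsub
    rw [Set.ncard_coe_finset, hsc, Set.ncard_smul_set] at this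
    omega
  exact good_alt hk (by norm_num) le_rfl (le_antisymm hev
    (PermGroups.alternating_le_of_prime_cycle X hprim Nat.prime_five (by omega) hcyc hsc g.2))

lemma degree_eight (hk : Fintype.card β = 8) (X : Subgroup (Perm β)) [IsPretransitive X β]
    (hev : X ≤ alternatingGroup β) (hr : RadFree X) (hs : ¬ Group.IsSolvable X)
    (no : Nat.card X = 1344 → IsSimpleGroup X → False) : Good X := by
  classical
  by_cases h5 : 5 ∣ Nat.card X
  · exact degree_eight_five hk X hev h5
  have hA : Nat.card (alternatingGroup β) = 20160 := by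
    have := PermGroups.DegreeSeven.natCard_alternating hk (by norm_num)
    simp only [Nat.factorial] at this
    omega
  have hd : Nat.card X ∣ 4032 :=
    (Nat.Coprime.dvd_of_dvd_mul_left ((Nat.prime_five.coprime_iff_not_dvd.2 h5).symm)
      (show Nat.card X ∣ 5 * 4032 by have := Subgroup.card_dvd_of_le hev; rwa [hA] at this))
  haveI : Fact (Nat.Prime 7) := ⟨by norm_num⟩
  have h7 : 7 ∣ Nat.card X := by
    by_contra h7
    exact hs (Core.isSolvable_of_card_dvd_two_primes Nat.prime_two Nat.prime_three
      (a := 6) (b := 2) ((Nat.Coprime.dvd_of_dvd_mul_left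
        ((Fact.out : Nat.Prime 7).coprime_iff_not_dvd.2 h7).symm
        (show Nat.card X ∣ 7 * 576 from hd))))
  obtain ⟨a⟩ : Nonempty β := Fintype.card_pos_iff.1 (by omega)
  set Xa := stabilizer X a with hXa
  have hmul : Nat.card Xa * 8 = Nat.card X := by
    rw [← Xa.card_mul_index, hXa, index_stabilizer_of_transitive, Nat.card_eq_fintype_card (α := β),
      hk]
  have h7a : 7 ∣ Nat.card Xa :=
    (Nat.Coprime.dvd_of_dvd_mul_right (show Nat.Coprime 7 8 by norm_num) (hmul ▸ h7))
  let j : Xa →* stabilizer (Perm β) a :=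
    (X.subtype.comp Xa.subtype).codRestrict _ fun x => x.2
  let ρ : Xa →* Perm {x // x ≠ a} := (restrHom a).comp j
  have hρ : Function.Injective ρ := (restrHom_injective a).comp
    (fun x y h => Subtype.ext (Subtype.ext (congrArg (fun z : stabilizer (Perm β) a => z.1) h :)))
  have hk7 := card_ne a (k := 7) hk
  have hevG : ρ.range ≤ alternatingGroup {x // x ≠ a} := by
    rintro _ ⟨x, rfl⟩
    rw [Perm.mem_alternatingGroup]
    exact (sign_restrHom a (j x)).trans (Perm.mem_alternatingGroup.1 (hev x.1.2))
  haveI htG : IsPretransitive ρ.range {x // x ≠ a} := by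
    obtain ⟨g, hg⟩ := exists_prime_orderOf_dvd_card' (G := Xa) 7 h7a
    have hgo : orderOf (ρ g) = 7 := by rw [orderOf_injective ρ hρ, hg]
    have hd := PermGroups.SmallDegree.prime_dvd_support_card (by norm_num : (7:ℕ).Prime)
      (PermGroups.SmallDegree.pow_eq_one_of_orderOf hgo)
    have hpos := PermGroups.SmallDegree.support_card_pos (by norm_num : (7:ℕ).Prime) hgo
    have hle := (ρ g).support.card_le_univ
    rw [hk7] at hle
    have hsc : (ρ g).support.card = 7 := by omega
    have hcyc := PermGroups.SmallDegree.isCycle_of_support_card (by norm_num : (7:ℕ).Prime) hgo hsc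
    have huniv : (ρ g).support = Finset.univ :=
      Finset.eq_univ_of_card _ (by rw [hsc, hk7])
    refine ⟨fun x y => ?_⟩
    obtain ⟨i, -, hi⟩ := (hcyc.sameCycle (Perm.mem_support.1 (huniv ▸ Finset.mem_univ x))
      (Perm.mem_support.1 (huniv ▸ Finset.mem_univ y))).exists_pow_eq'
    exact ⟨⟨(ρ g) ^ i, g ^ i, map_pow ρ g i⟩, hi⟩
  have hcG : Nat.card ρ.range = Nat.card Xa :=
    (Nat.card_congr (MonoidHom.ofInjective hρ).toEquiv).symm
  by_cases hsG : Group.IsSolvable ρ.range
  · have := solvable_seven hk7 ρ.range hevG hsG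
    rw [hcG] at this
    have h60 := (sixty_le _ rfl hs).1
    have hle21 := Nat.le_of_dvd (by norm_num) this
    have hc : Nat.card X = 168 := by
      obtain ⟨r, hr⟩ := h7a
      rw [hr] at this hle21 hmul
      have h3 : r ∣ 3 := Nat.dvd_of_mul_dvd_mul_left (by norm_num : 0 < 7) this
      rcases (Nat.dvd_prime Nat.prime_three).1 h3 with rfl | rfl <;> omega
    haveI := simple_168 hc hr
    exact Or.inr (Or.inr (Or.inr (simple_168_iso hc)))
  · have hnA : ¬ alternatingGroup {x // x ≠ a} ≤ ρ.range := by
      intro hle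
      have h1 : Nat.card (alternatingGroup {x // x ≠ a}) = 2520 := by
        have := PermGroups.DegreeSeven.natCard_alternating hk7 (by norm_num)
        simp only [Nat.factorial] at this
        omega
      have h2 := Subgroup.card_dvd_of_le hle
      rw [h1, hcG] at h2
      exact h5 (hmul ▸ (Dvd.dvd.mul_right ((show 5 ∣ 2520 by norm_num).trans h2) 8))
    obtain ⟨hc, hsimp⟩ := S0678.result hk7 ρ.range hsG hnA
    rw [hcG] at hc
    haveI : Nontrivial Xa := Finite.one_lt_card_iff_nontrivial.1 (by omega)
    haveI : IsSimpleGroup Xa :=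
      IsSimpleGroup.isSimpleGroup_of_surjective (MonoidHom.ofInjective hρ).symm.toMonoidHom
        (MonoidHom.ofInjective hρ).symm.surjective
    refine (no (by omega) ?_).elim
    haveI : Nontrivial X := Finite.one_lt_card_iff_nontrivial.1 (by omega)
    refine ⟨fun N hN => ?_⟩
    by_cases hb : N = ⊥
    · exact Or.inl hb
    right
    haveI := hN
    rcases (‹IsSimpleGroup Xa›).eq_bot_or_eq_top_of_normal (N.subgroupOf Xa) inferInstance with
      h | h
    · exfalso
      rw [Subgroup.subgroupOf_eq_bot, disjoint_iff] at h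
      refine hb (hr N hN (by_contra fun hns => ?_))
      have h60 := (sixty_le _ rfl hns).1
      have := Nat.card_le_card_of_injective (fun n : N => (n.1.1 : Perm β) a) fun n m e => by
        have he : (n.1.1 : Perm β) a = m.1.1 a := e
        have hmem : m.1⁻¹ * n.1 ∈ N ⊓ Xa := Subgroup.mem_inf.2 ⟨N.mul_mem (N.inv_mem m.2) n.2, by
          show ((m.1.1)⁻¹ * n.1.1) a = a
          rw [Perm.mul_apply, Perm.inv_eq_iff_eq, he]⟩
        rw [h, Subgroup.mem_bot, inv_mul_eq_one] at hmem
        exact Subtype.ext hmem.symm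
      rw [Nat.card_eq_fintype_card (α := β), hk] at this
      omega
    · rw [Subgroup.subgroupOf_eq_top] at h
      have hmove : ∃ n ∈ N, (n : Perm β) a ≠ a := by
        by_contra hcon
        push Not at hcon
        apply hb
        rw [Subgroup.eq_bot_iff_forall]
        intro n hn
        refine Subtype.ext (Equiv.ext fun y => ?_)
        obtain ⟨x, rfl⟩ := exists_smul_eq X a y
        have := hcon _ (hN.conj_mem n hn x⁻¹)
        simp only [inv_inv, Subgroup.coe_mul, InvMemClass.coe_inv, Perm.mul_apply] at this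
        rw [Perm.inv_eq_iff_eq] at this
        exact this
      obtain ⟨n, hn, hna⟩ := hmove
      rw [eq_top_iff]
      intro x _
      by_cases hxa : (x : Perm β) a = a
      · exact h hxa
      obtain ⟨⟨_, u, rfl⟩, hu⟩ := exists_smul_eq ρ.range
        (⟨n.1 a, hna⟩ : {x // x ≠ a}) ⟨x.1 a, hxa⟩
      have hu' : u.1.1 (n.1 a) = x.1 a := congrArg Subtype.val hu
      have hmem : (u.1 * n)⁻¹ * x ∈ Xa := by
        show ((u.1.1 * n.1)⁻¹ * x.1) a = a
        rw [Perm.mul_apply, Perm.inv_eq_iff_eq, Perm.mul_apply, hu']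
      have := mul_mem (mul_mem (h u.2) hn) (h hmem)
      rwa [mul_inv_cancel_left] at this

end Degree

/-- A subgroup of `GL₄(2)` with trivial cores. -/
theorem main (H : Subgroup (GL (Fin 4) (ZMod 2))) (hH : H ≠ ⊥)
    (hO : Cfsg.pPrimeCore 2 H = ⊥) (hO2 : Cfsg.pCore 2 H = ⊥) : Good H := by
  classical
  obtain ⟨i1⟩ := S2551.gl_equiv_psl (F := ZMod 2) (ZMod.card 2)
  obtain ⟨i2⟩ := Linear.PSL4_two_iso (F := ZMod 2) (ZMod.card 2)
  set φ : H →* Perm (Fin 8) :=
    (alternatingGroup (Fin 8)).subtype.comp ((i1.trans i2).toMonoidHom.comp H.subtype) with hφ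
  have hφi : Function.Injective φ :=
    Subtype.val_injective.comp ((i1.trans i2).injective.comp H.subtype_injective)
  set K := φ.range with hK
  let eK : H ≃* K := MonoidHom.ofInjective hφi
  have hev : K ≤ alternatingGroup (Fin 8) := by
    rintro _ ⟨x, rfl⟩
    exact ((i1.trans i2) x.1).2
  have hr : RadFree K := (radFree_of_cores hO2 hO).of_equiv eK.symm
  haveI : Nontrivial H := H.nontrivial_iff_ne_bot.2 hH
  haveI : Nontrivial K := eK.symm.toEquiv.nontrivial
  have hns : ¬ Group.IsSolvable K := fun hs => by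
    haveI := hs
    exact top_ne_bot (hr ⊤ inferInstance inferInstance)
  -- some orbit has at least five points
  obtain ⟨x, hx⟩ : ∃ x : Fin 8, 5 ≤ Nat.card (orbit K x) := by
    by_contra hcon
    push Not at hcon
    apply hns
    have hn : ∀ x : Fin 8, ∃ n, derivedSeries (Perm (orbit K x)) n = ⊥ := fun x =>
      (Group.isSolvable_def _).1 (isSolvable_perm_small (by have := hcon x; omega))
    choose n hn using hn
    refine (Group.isSolvable_def _).2 ⟨Finset.univ.sup n, ?_⟩
    rw [Subgroup.eq_bot_iff_forall]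
    intro g hg
    refine Subtype.ext (Equiv.ext fun x => ?_)
    have h1 : toPermHom K (orbit K x) g ∈ derivedSeries (Perm (orbit K x)) (n x) :=
      derivedSeries_antitone _ (Finset.le_sup (Finset.mem_univ x))
        (map_derivedSeries_le_derivedSeries _ _ ⟨g, hg, rfl⟩)
    rw [hn x, Subgroup.mem_bot] at h1
    exact congrArg Subtype.val (DFunLike.congr_fun h1 (⟨x, mem_orbit_self x⟩ : orbit K x))
  set f := toPermHom K (orbit K x) with hf
  have hfy : ∀ (g : K) (y : orbit K x), ((f g y : orbit K x) : Fin 8) = g.1 y.1 := fun _ _ => rfl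
  have hle8 : Nat.card (orbit K x) ≤ 8 :=
    (Nat.card_le_card_of_injective _ Subtype.val_injective).trans (by simp)
  have hcompl : Nat.card {y : Fin 8 // y ∉ orbit K x} = 8 - Nat.card (orbit K x) := by
    rw [Nat.card_eq_fintype_card, Nat.card_eq_fintype_card, Fintype.card_subtype_compl,
      Fintype.card_fin]
  have hinv : ∀ (g : K) (y : Fin 8), g.1 y ∈ orbit K x ↔ y ∈ orbit K x := fun g y =>
    by rw [← orbit_eq_iff, ← orbit_eq_iff, show g.1 y = g • y from rfl, orbit_smul]
  -- the kernel lives on at most three points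
  have hinj : Function.Injective f := by
    refine hr.injective f ?_
    let r : f.ker →* Perm {y : Fin 8 // y ∉ orbit K x} :=
      MonoidHom.mk' (fun g => g.1.1.subtypePerm fun y => not_congr (hinv g.1 y))
        (fun _ _ => Equiv.ext fun _ => rfl)
    haveI := isSolvable_perm_small (β := {y : Fin 8 // y ∉ orbit K x}) (by omega)
    refine Group.isSolvable_of_isSolvable_injective (f := r) fun g h e => ?_
    refine Subtype.ext (Subtype.ext (Equiv.ext fun y => ?_))
    by_cases hy : y ∈ orbit K x
    · have hg := congrArg Subtype.val (DFunLike.congr_fun (MonoidHom.mem_ker.1 g.2) (⟨y, hy⟩ : orbit K x))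
      have hh := congrArg Subtype.val (DFunLike.congr_fun (MonoidHom.mem_ker.1 h.2) (⟨y, hy⟩ : orbit K x))
      exact hg.trans hh.symm
    · exact congrArg Subtype.val (DFunLike.congr_fun e ⟨y, hy⟩)
  set X := f.range with hX
  let eX : K ≃* X := MonoidHom.ofInjective hinj
  refine Good.of_equiv (eK.trans eX) ?_
  have hrX : RadFree X := hr.of_equiv eX.symm
  have hsX : ¬ Group.IsSolvable X := fun h => hns (by
    haveI := h
    exact Group.isSolvable_of_isSolvable_injective (f := eX.toMonoidHom) eX.injective)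
  haveI : IsPretransitive X (orbit K x) := ⟨fun a b => by
    obtain ⟨g, hg⟩ := exists_smul_eq K a b
    exact ⟨⟨f g, g, rfl⟩, hg⟩⟩
  have heven : 7 ≤ Fintype.card (orbit K x) → X ≤ alternatingGroup (orbit K x) := by
    intro h7
    rintro _ ⟨g, rfl⟩
    rw [Perm.mem_alternatingGroup]
    have hsub : Subsingleton {y : Fin 8 // y ∉ orbit K x} := by
      rw [← Finite.card_le_one_iff_subsingleton, hcompl, Nat.card_eq_fintype_card]
      omega
    have : f g = g.1.subtypePerm (hinv g) := Equiv.ext fun y => rfl
    rw [this]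
    refine (Perm.sign_subtypePerm g.1 (hinv g) fun y hy => ?_).trans
      (Perm.mem_alternatingGroup.1 (hev g.2))
    by_contra hy'
    exact hy (congrArg Subtype.val (hsub.elim
      (⟨g.1 y, fun hm => hy' ((hinv g y).1 hm)⟩ : {y : Fin 8 // y ∉ orbit K x}) ⟨y, hy'⟩))
  rw [Nat.card_eq_fintype_card] at hx hle8
  rcases (show Fintype.card (orbit K x) = 5 ∨ Fintype.card (orbit K x) = 6 ∨
    Fintype.card (orbit K x) = 7 ∨ Fintype.card (orbit K x) = 8 by omega) with h | h | h | h
  · exact degree_five h X hsX
  · exact degree_six h X hrX hsX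
  · exact degree_seven h X (heven (by omega)) hsX
  · refine degree_eight h X (heven (by omega)) hrX hsX fun hc hs => no_1344 H ?_ ?_
    · rw [Nat.card_congr (eK.trans eX).toEquiv, hc]
    · exact IsSimpleGroup.isSimpleGroup_of_surjective (eK.trans eX).symm.toMonoidHom
        (eK.trans eX).symm.surjective

end Cfsg.Agent.Screen.GLFourTwo
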