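import Cfsg.Agent.Linear.GL2SylowFacts
import Cfsg.Agent.Linear.SL2Facts
import Cfsg.Agent.Linear.Card
import Mathlib.FieldTheory.Finite.Basic
import Mathlib.Tactic.LinearCombination
import Mathlib.Tactic.Group
import Mathlib.Tactic.FieldSimp

/-!
# `SL₂` in odd characteristic: elements of square `-1`, abelian normal subgroups
-/

set_option autoImplicit false

namespace Cfsg.Agent.Screen.SL2Pair

open Matrix

variable {F : Type*} [Field F]

local notation "SL2" => SpecialLinearGroup (Fin 2) F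

theorem commute_iff (x y : SL2) : x * y = y * x ↔
    x.1 0 1 * y.1 1 0 = y.1 0 1 * x.1 1 0 ∧
    x.1 0 1 * (y.1 1 1 - y.1 0 0) = y.1 0 1 * (x.1 1 1 - x.1 0 0) ∧
    x.1 1 0 * (y.1 1 1 - y.1 0 0) = y.1 1 0 * (x.1 1 1 - x.1 0 0) := by
  constructor
  · intro h
    have e := fun i j => congr_fun (congr_fun (congrArg Subtype.val h) i) j
    have e00 := e 0 0
    have e01 := e 0 1
    have e10 := e 1 0
    simp [Matrix.mul_apply, Fin.sum_univ_two] at e00 e01 e10
    exact ⟨by linear_combination e00, by linear_combination e01, by linear_combination -e10⟩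
  · rintro ⟨h1, h2, h3⟩
    apply Subtype.ext
    change x.1 * y.1 = y.1 * x.1
    ext i j
    fin_cases i <;> fin_cases j <;> simp [Matrix.mul_apply, Fin.sum_univ_two]
    · linear_combination h1
    · linear_combination h2
    · linear_combination -h3
    · linear_combination -h1

/-- Elements commuting with a noncentral element commute. -/
theorem comm_of_commute {n x y : SL2} (hn : ¬ (n.1 0 1 = 0 ∧ n.1 1 0 = 0 ∧ n.1 1 1 = n.1 0 0))
    (hx : x * n = n * x) (hy : y * n = n * y) : x * y = y * x := by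
  rw [commute_iff] at hx hy ⊢
  obtain ⟨a1, a2, a3⟩ := hx
  obtain ⟨b1, b2, b3⟩ := hy
  by_cases hb : n.1 0 1 = 0
  · by_cases he : n.1 1 0 = 0
    · have hd : n.1 1 1 - n.1 0 0 ≠ 0 := fun h => hn ⟨hb, he, sub_eq_zero.1 h⟩
      rw [hb, zero_mul, mul_eq_zero] at a2 b2
      rw [he, zero_mul, mul_eq_zero] at a3 b3
      rw [a2.resolve_right hd, b2.resolve_right hd, a3.resolve_right hd, b3.resolve_right hd]
      simp
    · refine ⟨mul_left_cancel₀ he ?_, mul_left_cancel₀ he ?_, mul_left_cancel₀ he ?_⟩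
      · linear_combination y.1 1 0 * a1 - x.1 1 0 * b1
      · rw [hb, zero_mul] at a1 b1
        rw [(mul_eq_zero.1 a1).resolve_right he, (mul_eq_zero.1 b1).resolve_right he]
        simp
      · linear_combination y.1 1 0 * a3 - x.1 1 0 * b3
  · have h2' : x.1 0 1 * (y.1 1 1 - y.1 0 0) = y.1 0 1 * (x.1 1 1 - x.1 0 0) :=
      mul_left_cancel₀ hb (by linear_combination y.1 0 1 * a2 - x.1 0 1 * b2)
    refine ⟨mul_left_cancel₀ hb ?_, h2', mul_left_cancel₀ hb ?_⟩
    · linear_combination y.1 0 1 * a1 - x.1 0 1 * b1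
    · linear_combination -(y.1 1 1 - y.1 0 0) * a1 + (x.1 1 1 - x.1 0 0) * b1 + n.1 1 0 * h2'

/-- The upper and lower unipotent elements. -/
def upper (t : F) : SL2 := ⟨!![1, t; 0, 1], by simp [Matrix.det_fin_two]⟩

/-- Lower unipotent element. -/
def lower (t : F) : SL2 := ⟨!![1, 0; t, 1], by simp [Matrix.det_fin_two]⟩

theorem upper_coe (t : F) : (upper t : SL2).1 = !![1, t; 0, 1] := rfl

theorem lower_coe (t : F) : (lower t : SL2).1 = !![1, 0; t, 1] := rfl

theorem upper_inv (t : F) : (upper t : SL2)⁻¹ = upper (-t) := by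
  apply inv_eq_of_mul_eq_one_right
  apply Subtype.ext
  rw [Matrix.SpecialLinearGroup.coe_mul, Matrix.SpecialLinearGroup.coe_one, upper_coe, upper_coe]
  ext i j
  fin_cases i <;> fin_cases j <;> simp [Matrix.mul_apply, Fin.sum_univ_two]

theorem lower_inv (t : F) : (lower t : SL2)⁻¹ = lower (-t) := by
  apply inv_eq_of_mul_eq_one_right
  apply Subtype.ext
  rw [Matrix.SpecialLinearGroup.coe_mul, Matrix.SpecialLinearGroup.coe_one, lower_coe, lower_coe]
  ext i j
  fin_cases i <;> fin_cases j <;> simp [Matrix.mul_apply, Fin.sum_univ_two]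

theorem mem_center_of_scalar {n : SL2} (h : n.1 0 1 = 0 ∧ n.1 1 0 = 0 ∧ n.1 1 1 = n.1 0 0) :
    n ∈ Subgroup.center SL2 := by
  obtain ⟨h1, h2, h3⟩ := h
  rw [Subgroup.mem_center_iff]
  intro g
  rw [commute_iff]
  rw [h1, h2, h3]
  simp

/-- A normal subgroup whose elements commute is central. -/
theorem abelian_normal_central (h2 : (2 : F) ≠ 0) (C : Subgroup SL2) [C.Normal]
    (hC : ∀ a ∈ C, ∀ b ∈ C, a * b = b * a) : C ≤ Subgroup.center SL2 := by
  intro c hc
  have hU : c * (upper 1 * c * (upper 1)⁻¹) = (upper 1 * c * (upper 1)⁻¹) * c :=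
    hC c hc _ ((inferInstance : C.Normal).conj_mem c hc _)
  have hL : c * (lower 1 * c * (lower 1)⁻¹) = (lower 1 * c * (lower 1)⁻¹) * c :=
    hC c hc _ ((inferInstance : C.Normal).conj_mem c hc _)
  rw [upper_inv, commute_iff] at hU
  rw [lower_inv, commute_iff] at hL
  simp only [Matrix.SpecialLinearGroup.coe_mul, upper_coe, lower_coe] at hU hL
  simp [Matrix.mul_apply, Matrix.vecMul, dotProduct, Fin.sum_univ_two] at hU hL
  obtain ⟨u1, u2, u3⟩ := hU
  obtain ⟨l1, l2, l3⟩ := hL
  have he : c.1 1 0 = 0 := by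
    rcases u3 with u3 | u3
    · exact (mul_eq_zero.1 (by linear_combination -u3 : (2 : F) * c.1 1 0 = 0)).resolve_left h2
    · exact u3
  have hb : c.1 0 1 = 0 := by
    rcases l2 with l2 | l2
    · exact (mul_eq_zero.1 (by linear_combination l2 : (2 : F) * c.1 0 1 = 0)).resolve_left h2
    · exact l2
  have hd : c.1 1 1 = c.1 0 0 := by
    have : (c.1 1 1 - c.1 0 0) * (c.1 1 1 - c.1 0 0) = 0 := by
      rw [he, hb] at u2
      linear_combination -u2
    exact sub_eq_zero.1 (mul_self_eq_zero.1 this)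
  exact mem_center_of_scalar ⟨hb, he, hd⟩

/-- A normal subgroup commuting with a noncentral normal subgroup is central. -/
theorem centralizer_central (h2 : (2 : F) ≠ 0) (N : Subgroup SL2) [N.Normal]
    (hN : ¬ N ≤ Subgroup.center SL2) :
    Subgroup.centralizer (N : Set SL2) ≤ Subgroup.center SL2 := by
  obtain ⟨n, hn, hnZ⟩ := SetLike.not_le_iff_exists.1 hN
  refine abelian_normal_central h2 _ fun a ha b hb => comm_of_commute (fun h => hnZ (mem_center_of_scalar h))
    (Subgroup.mem_centralizer_iff.1 ha n hn).symm (Subgroup.mem_centralizer_iff.1 hb n hn).symm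

variable [Fintype F]

theorem two_ne_zero_of_odd (h : Odd (Fintype.card F)) : (2 : F) ≠ 0 := by
  refine Ring.two_ne_zero fun hc => ?_
  have := FiniteField.even_card_iff_char_two.1 hc
  rw [Nat.odd_iff] at h
  omega

/-- The standard element of square `-1`. -/
def jmat : SL2 := ⟨!![0, -1; 1, 0], by simp [Matrix.det_fin_two]⟩

theorem exists_sum_sq (h : Odd (Fintype.card F)) (c : F) : ∃ x y : F, x ^ 2 + y ^ 2 = c := by
  obtain ⟨a, b, hab⟩ := FiniteField.exists_root_sum_quadratic (f := (Polynomial.X : Polynomial F) ^ 2)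
    (g := Polynomial.X ^ 2 - Polynomial.C c) (Polynomial.degree_X_pow 2)
    (Polynomial.degree_X_pow_sub_C (by decide) _) (Nat.odd_iff.1 h)
  refine ⟨a, b, ?_⟩
  simp only [Polynomial.eval_pow, Polynomial.eval_X, Polynomial.eval_sub, Polynomial.eval_C] at hab
  linear_combination hab

/-- All elements of square `-1` are conjugate. -/
theorem exists_conj_jmat (h : Odd (Fintype.card F)) {g : SL2}
    (hg : (g.1 * g.1 : Matrix (Fin 2) (Fin 2) F) = -1) : ∃ P : SL2, P * jmat * P⁻¹ = g := by
  have h2 := two_ne_zero_of_odd h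
  have e := fun i j => congr_fun (congr_fun hg i) j
  have e00 := e 0 0
  have e01 := e 0 1
  have e10 := e 1 0
  have e11 := e 1 1
  simp [Matrix.mul_apply, Fin.sum_univ_two] at e00 e01 e10 e11
  have hd := g.2
  rw [Matrix.det_fin_two] at hd
  set a := g.1 0 0
  set b := g.1 0 1
  set c := g.1 1 0
  set d := g.1 1 1
  have hb' : b * (a + d) = 0 := by linear_combination e01
  have hc' : c * (a + d) = 0 := by linear_combination e10
  have had : d = -a := by
    by_contra hne
    have hs : a + d ≠ 0 := fun hz => hne (by linear_combination hz)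
    have hb0 := (mul_eq_zero.1 hb').resolve_right hs
    have hc0 := (mul_eq_zero.1 hc').resolve_right hs
    rw [hb0, hc0] at hd
    rw [hb0] at e00
    have : a * (a + d) = 0 := by linear_combination e00 + hd
    rcases mul_eq_zero.1 this with h' | h'
    · rw [h'] at hd; simp at hd
    · exact hs h'
  obtain ⟨v1, v2, hv⟩ : ∃ v1 v2 : F, c * v1 ^ 2 + (d - a) * v1 * v2 - b * v2 ^ 2 = 1 := by
    by_cases hc0 : c = 0
    · have ha : a ≠ 0 := fun ha => by rw [had, ha, hc0] at hd; simp at hd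
      refine ⟨(1 + b) / (-2 * a), 1, ?_⟩
      rw [hc0, had]
      field_simp
      ring
    · obtain ⟨x, y, hxy⟩ := exists_sum_sq h c
      refine ⟨(x + a * y) / c, y, ?_⟩
      rw [had] at hd ⊢
      field_simp
      linear_combination hxy + y ^ 2 * hd
  have hdet : (!![v1, a * v1 + b * v2; v2, c * v1 + d * v2]).det = 1 := by
    rw [Matrix.det_fin_two]
    simp
    linear_combination hv
  obtain ⟨P, hP⟩ : ∃ P : SL2, P.1 = !![v1, a * v1 + b * v2; v2, c * v1 + d * v2] := ⟨⟨_, hdet⟩, rfl⟩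
  refine ⟨P, ?_⟩
  rw [mul_inv_eq_iff_eq_mul]
  apply Subtype.ext
  rw [Matrix.SpecialLinearGroup.coe_mul, Matrix.SpecialLinearGroup.coe_mul]
  ext i j
  fin_cases i <;> fin_cases j <;> simp [hP, jmat, Matrix.mul_apply, Fin.sum_univ_two] <;>
    first
      | rfl
      | linear_combination v1 * e00 + v2 * e01
      | linear_combination (-1 : F) * v1 * e00 - v2 * e01
      | linear_combination v1 * e10 + v2 * e11
      | linear_combination (-1 : F) * v1 * e10 - v2 * e11

section InGroup

variable {G : Type*} [Group G] {L : Subgroup G} (e : L ≃* Matrix.SpecialLinearGroup (Fin 2) F) (hF : Odd (Fintype.card F))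
  {j : G} (hj : orderOf j = 2) (hjL : j ∈ L)

include hF hj in
theorem image_involution : (e ⟨j, hjL⟩).1 = -1 := by
  refine Linear.SL2_involution_eq_neg_one (two_ne_zero_of_odd hF) (fun h => ?_) ?_
  · have hj1 : j = 1 := congrArg Subtype.val ((map_eq_one_iff e e.injective).1 h)
    rw [hj1, orderOf_one] at hj
    omega
  · rw [← map_mul, map_eq_one_iff e e.injective]
    exact Subtype.ext (by show j * j = 1; rw [← pow_two, ← hj]; exact pow_orderOf_eq_one j)

include e hF hj hjL in
theorem exists_sq : ∃ a ∈ L, a * a = j := by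
  refine ⟨(e.symm jmat : G), (e.symm jmat).2, ?_⟩
  have h : e.symm jmat * e.symm jmat = ⟨j, hjL⟩ := e.injective (by
    rw [map_mul, MulEquiv.apply_symm_apply]
    apply Subtype.ext
    rw [Matrix.SpecialLinearGroup.coe_mul, image_involution e hF hj hjL]
    ext i k
    fin_cases i <;> fin_cases k <;> simp [jmat, Matrix.mul_apply, Fin.sum_univ_two])
  exact congrArg Subtype.val h

include e hF hj hjL in
theorem sq_conj {a b : G} (ha : a ∈ L) (hb : b ∈ L) (ha2 : a * a = j) (hb2 : b * b = j) :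
    ∃ l ∈ L, l * a * l⁻¹ = b := by
  have key : ∀ (c : G) (hc : c ∈ L), c * c = j → ((e ⟨c, hc⟩).1 * (e ⟨c, hc⟩).1 : Matrix (Fin 2) (Fin 2) F) = -1 := by
    intro c hc hc2
    rw [← Matrix.SpecialLinearGroup.coe_mul, ← map_mul, show (⟨c, hc⟩ : L) * ⟨c, hc⟩ = ⟨j, hjL⟩ from Subtype.ext hc2,
      image_involution e hF hj hjL]
  obtain ⟨P, hP⟩ := exists_conj_jmat hF (key a ha ha2)
  obtain ⟨Q, hQ⟩ := exists_conj_jmat hF (key b hb hb2)
  refine ⟨(e.symm (Q * P⁻¹) : G), (e.symm _).2, ?_⟩
  have h : e.symm (Q * P⁻¹) * ⟨a, ha⟩ * (e.symm (Q * P⁻¹))⁻¹ = ⟨b, hb⟩ := e.injective (by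
    rw [map_mul, map_mul, map_inv, MulEquiv.apply_symm_apply, ← hP, ← hQ]
    group)
  exact congrArg Subtype.val h

include e hF hj hjL in
theorem center_le {l : L} (hl : l ∈ Subgroup.center L) : (l : G) ∈ Subgroup.zpowers j := by
  by_cases h1 : l = 1
  · rw [h1]; exact one_mem _
  obtain ⟨r, hr, hr'⟩ := Matrix.SpecialLinearGroup.mem_center_iff.1
    (show e l ∈ Subgroup.center SL2 from Subgroup.mem_center_iff.2 fun g => by
      have := congrArg e (Subgroup.mem_center_iff.1 hl (e.symm g))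
      rwa [map_mul, map_mul, MulEquiv.apply_symm_apply] at this)
  rw [Fintype.card_fin] at hr
  have hsq : e l * e l = 1 := by
    apply Subtype.ext
    rw [Matrix.SpecialLinearGroup.coe_mul, ← hr', ← map_mul, ← pow_two, hr, map_one]
    rfl
  have hne : e l ≠ 1 := fun h => h1 (e.injective (h.trans (map_one e).symm))
  have h := (Linear.SL2_involution_eq_neg_one (two_ne_zero_of_odd hF) hne hsq).trans
    (image_involution e hF hj hjL).symm
  have : l = ⟨j, hjL⟩ := e.injective (Subtype.ext h)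
  rw [this]
  exact Subgroup.mem_zpowers j

include e hF hj hjL in
theorem centralizer_normal {N : Subgroup G} (hNL : N ≤ L) (hn : ∀ l ∈ L, ∀ x ∈ N, l * x * l⁻¹ ∈ N)
    (hnc : ¬ N ≤ Subgroup.zpowers j) {a : G} (ha : a ∈ L) (hc : ∀ x ∈ N, a * x = x * a) :
    a ∈ Subgroup.zpowers j := by
  haveI hNn : (N.subgroupOf L).Normal := ⟨fun x hx l => hn l l.2 x hx⟩
  haveI : ((N.subgroupOf L).map e.toMonoidHom).Normal := Subgroup.Normal.map hNn e.toMonoidHom e.surjective
  have hback : ∀ l : L, e l ∈ Subgroup.center SL2 → l ∈ Subgroup.center L := fun l hl =>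
    Subgroup.mem_center_iff.2 fun g => e.injective (by rw [map_mul, map_mul, Subgroup.mem_center_iff.1 hl (e g)])
  refine center_le e hF hj hjL (l := ⟨a, ha⟩) (hback _ (centralizer_central (two_ne_zero_of_odd hF)
    ((N.subgroupOf L).map e.toMonoidHom) (fun hle => hnc fun x hx => ?_) ?_))
  · exact center_le e hF hj hjL (l := ⟨x, hNL hx⟩) (hback _ (hle ⟨⟨x, hNL hx⟩, hx, rfl⟩))
  · refine Subgroup.mem_centralizer_iff.2 ?_
    rintro _ ⟨x, hx, rfl⟩
    show e x * e ⟨a, ha⟩ = e ⟨a, ha⟩ * e x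
    rw [← map_mul, ← map_mul]
    exact congrArg e (Subtype.ext (hc x hx).symm)

end InGroup

end Cfsg.Agent.Screen.SL2Pair
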