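import Cfsg.Prelude
import Cfsg.Agent.Screen.SL2Pair
import Cfsg.Agent.S3209
import Cfsg.Agent.S3210
import Cfsg.Agent.Blocks.ZStarFinal

/-!
# Two copies of `SL₂` swapped by an element of square `j`: the involution `j` is isolated
-/

set_option autoImplicit false
open Cfsg

namespace Cfsg.Agent.Screen.SL2Swap

/-- An isolated involution is central modulo the odd core. -/
theorem sup_oddCore_eq_top {G : Type*} [Group G] [Finite G] {z : G} (hz : IsIsolatedInvolution z) :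
    Subgroup.centralizer ({z} : Set G) ⊔ oddCore G = ⊤ := by
  refine eq_top_iff.2 fun g _ => ?_
  have hzz : z * z = 1 := by rw [← pow_two, ← hz.1]; exact pow_orderOf_eq_one z
  have hzi : z⁻¹ = z := inv_eq_of_mul_eq_one_right hzz
  have hu : z * (g * z * g⁻¹) ∈ oddCore G := by
    have h := Blocks.glauberman_zstar hz g
    rwa [hzi, show z * g * z * g⁻¹ = z * (g * z * g⁻¹) by group] at h
  set u := z * (g * z * g⁻¹) with hudef
  have hodd : Odd (orderOf u) :=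
    Odd.of_dvd_nat (Blocks.odd_card_oddCore G) (Subgroup.orderOf_dvd_natCard _ hu)
  obtain ⟨m, hm⟩ := hodd
  have hg2 : g * z * g⁻¹ * (g * z * g⁻¹) = 1 := by
    rw [show g * z * g⁻¹ * (g * z * g⁻¹) = g * (z * z) * g⁻¹ by group, hzz, mul_one, mul_inv_cancel]
  have huinv : z * u * z⁻¹ = u⁻¹ := by
    rw [hudef, mul_inv_rev, hzi, inv_eq_of_mul_eq_one_right hg2, ← mul_assoc z z, hzz, one_mul]
  have hpow : z * u ^ m * z⁻¹ = (u ^ m)⁻¹ := by
    rw [← MulAut.conj_apply, map_pow, MulAut.conj_apply, huinv, inv_pow]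
  have h2 : u ^ m * u ^ m * u = 1 := by
    rw [← pow_add, ← pow_succ, show m + m + 1 = 2 * m + 1 by ring, ← hm, pow_orderOf_eq_one]
  have h1 : u ^ m * z * (u ^ m)⁻¹ = g * z * g⁻¹ := by
    rw [show g * z * g⁻¹ = z * u by rw [hudef, ← mul_assoc, hzz, one_mul],
      show u = (u ^ m * u ^ m)⁻¹ from eq_inv_of_mul_eq_one_right h2]
    have hz' : u ^ m * z = z * (u ^ m)⁻¹ := by
      rw [← hpow, hzi, ← mul_assoc, ← mul_assoc, hzz, one_mul]
    rw [← show u = (u ^ m * u ^ m)⁻¹ from eq_inv_of_mul_eq_one_right h2, hz', mul_assoc, ← mul_inv_rev,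
      ← eq_inv_of_mul_eq_one_right h2]
  have hg : (u ^ m)⁻¹ * g ∈ Subgroup.centralizer ({z} : Set G) := by
    rw [Subgroup.mem_centralizer_singleton_iff]
    calc (u ^ m)⁻¹ * g * z = (u ^ m)⁻¹ * (g * z * g⁻¹) * g := by group
      _ = z * ((u ^ m)⁻¹ * g) := by rw [← h1]; group
  have := Subgroup.mul_mem (Subgroup.centralizer ({z} : Set G) ⊔ oddCore G)
    (Subgroup.mem_sup_right ((oddCore G).pow_mem hu m)) (Subgroup.mem_sup_left hg)
  rwa [mul_inv_cancel_left] at this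

variable {G : Type*} [Group G] [Finite G] {F : Type*} [Field F] [Fintype F]

/-- Elements of `L ≅ SL₂` commuting with a square root of `j` commute. -/
theorem comm_of_commute {L : Subgroup G} (e : ↥L ≃* Matrix.SpecialLinearGroup (Fin 2) F)
    (hF : Odd (Fintype.card F)) {j : G} (hj : orderOf j = 2) (hjL : j ∈ L) {a x y : G}
    (ha : a ∈ L) (ha2 : a * a = j) (hx : x ∈ L) (hy : y ∈ L) (hxa : x * a = a * x) (hya : y * a = a * y) :
    x * y = y * x := by
  have hmap : ∀ s t : L, (s : G) * t = t * s → e s * e t = e t * e s := fun s t h => by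
    rw [← map_mul, ← map_mul, show s * t = t * s from Subtype.ext h]
  have h := SL2Pair.comm_of_commute (n := e ⟨a, ha⟩) (x := e ⟨x, hx⟩) (y := e ⟨y, hy⟩) ?_
    (hmap ⟨x, hx⟩ ⟨a, ha⟩ hxa) (hmap ⟨y, hy⟩ ⟨a, ha⟩ hya)
  · rw [← map_mul, ← map_mul] at h
    exact congrArg Subtype.val (e.injective h)
  · intro hs
    have hz := SL2Pair.center_le e hF hj hjL (l := ⟨a, ha⟩)
      ((MulEquivClass.apply_mem_center_iff e).1 (SL2Pair.mem_center_of_scalar hs))
    obtain ⟨k, hk⟩ := Subgroup.mem_zpowers_iff.1 hz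
    have hk' : j ^ k = a := hk
    have hj1 : j ≠ 1 := fun h1 => by rw [h1, orderOf_one] at hj; omega
    refine hj1 (ha2.symm.trans ?_)
    have hjj : j * j = 1 := by rw [← pow_two, ← hj]; exact pow_orderOf_eq_one j
    rw [← hk', ← zpow_add, ← two_mul, zpow_mul, zpow_two, hjj, one_zpow]

variable {F' : Type*} [Field F'] [Fintype F']

theorem isolated (hF : Odd (Fintype.card F)) (hF' : Odd (Fintype.card F'))
    (L₁ L₂ : Subgroup G) (e₁ : ↥L₁ ≃* Matrix.SpecialLinearGroup (Fin 2) F)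
    (e₂ : ↥L₂ ≃* Matrix.SpecialLinearGroup (Fin 2) F')
    (hc : ∀ x ∈ L₁, ∀ y ∈ L₂, x * y = y * x) (j : G) (hj : orderOf j = 2)
    (hm : L₁ ⊓ L₂ = Subgroup.zpowers j)
    (hle : L₁ ⊔ L₂ ≤ Subgroup.centralizer ({j} : Set G))
    (hi : (L₁ ⊔ L₂).relIndex (Subgroup.centralizer ({j} : Set G)) = 2)
    (n : G) (hn : n ∈ Subgroup.centralizer ({j} : Set G)) (hn2 : n ^ 2 = j)
    (hswap : L₁.map (MulAut.conj n).toMonoidHom = L₂) : IsIsolatedInvolution j := by
  classical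
  haveI : Fact (Nat.Prime 2) := ⟨Nat.prime_two⟩
  have hjm : j ∈ L₁ ⊓ L₂ := hm ▸ Subgroup.mem_zpowers j
  have hj1 : j ≠ 1 := fun h1 => by rw [h1, orderOf_one] at hj; omega
  have hjj : j * j = 1 := by rw [← pow_two, ← hj]; exact pow_orderOf_eq_one j
  have hji : j⁻¹ = j := inv_eq_of_mul_eq_one_right hjj
  have hnn : n * n = j := by rw [← pow_two]; exact hn2
  have hjc : ∀ y ∈ L₁ ⊔ L₂, y * j = j * y := fun y hy => Subgroup.mem_centralizer_singleton_iff.1 (hle hy)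
  have hjc1 : ∀ y ∈ L₁, y * j = j * y := fun y hy => hjc y (Subgroup.mem_sup_left hy)
  have hjc2 : ∀ y ∈ L₂, y * j = j * y := fun y hy => hjc y (Subgroup.mem_sup_right hy)
  have hz : ∀ x ∈ L₁, x ∈ L₂ → x = 1 ∨ x = j := by
    intro x h1 h2
    have hx : x ∈ Subgroup.zpowers j := hm ▸ ⟨h1, h2⟩
    obtain ⟨k, rfl⟩ := Subgroup.mem_zpowers_iff.1 hx
    rcases Int.even_or_odd k with ⟨l, rfl⟩ | ⟨l, rfl⟩
    · left; rw [← two_mul, zpow_mul, zpow_two, hjj, one_zpow]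
    · right; rw [zpow_add, zpow_mul, zpow_two, hjj, one_zpow, one_mul, zpow_one]
  have hni : n⁻¹ = n * j := inv_eq_of_mul_eq_one_right (by rw [← mul_assoc, hnn, hjj])
  -- conjugation by `n` exchanges the factors
  have h12 : ∀ p ∈ L₁, n * p * n⁻¹ ∈ L₂ := fun p hp => hswap ▸ ⟨p, hp, rfl⟩
  have hnn1 : ∀ p ∈ L₁, n * (n * p * n⁻¹) * n⁻¹ = p := by
    intro p hp
    rw [show n * (n * p * n⁻¹) * n⁻¹ = (n * n) * p * (n * n)⁻¹ by group, hnn, ← hjc1 p hp, mul_inv_cancel_right]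
  have h21 : ∀ q ∈ L₂, n * q * n⁻¹ ∈ L₁ := by
    intro q hq
    rw [← hswap] at hq
    obtain ⟨p, hp, rfl⟩ := hq
    show n * (n * p * n⁻¹) * n⁻¹ ∈ L₁
    rwa [hnn1 p hp]
  have hnn2 : ∀ q ∈ L₂, n * (n * q * n⁻¹) * n⁻¹ = q := by
    intro q hq
    rw [show n * (n * q * n⁻¹) * n⁻¹ = (n * n) * q * (n * n)⁻¹ by group, hnn, ← hjc2 q hq, mul_inv_cancel_right]
  have hcj : ∀ y : G, n⁻¹ * y * n = n * (j * y * j⁻¹) * n⁻¹ := by
    intro y
    calc n⁻¹ * y * n = n⁻¹ * y * (n⁻¹)⁻¹ := by rw [inv_inv]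
      _ = (n * j) * y * (n * j)⁻¹ := by rw [hni]
      _ = n * (j * y * j⁻¹) * n⁻¹ := by group
  have h12' : ∀ p ∈ L₁, n⁻¹ * p * n = n * p * n⁻¹ := fun p hp => by
    rw [hcj, ← hjc1 p hp, mul_inv_cancel_right]
  have h21' : ∀ q ∈ L₂, n⁻¹ * q * n = n * q * n⁻¹ := fun q hq => by
    rw [hcj, ← hjc2 q hq, mul_inv_cancel_right]
  have hnX : n ∉ L₁ ⊔ L₂ := by
    intro h
    obtain ⟨p, hp, q, hq, rfl⟩ := S3210.sup_mem hc h
    refine S3210.not_le_zpowers hF e₁ hj fun x hx => ?_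
    rw [← hm]
    refine ⟨hx, ?_⟩
    have h' := h12 (p⁻¹ * x * p) (L₁.mul_mem (L₁.mul_mem (L₁.inv_mem hp) hx) hp)
    rwa [show p * q * (p⁻¹ * x * p) * (p * q)⁻¹ = p * (q * (p⁻¹ * x * p) * q⁻¹) * p⁻¹ by group,
      ← hc _ (L₁.mul_mem (L₁.mul_mem (L₁.inv_mem hp) hx) hp) q hq, mul_inv_cancel_right,
      show p * (p⁻¹ * x * p) * p⁻¹ = x by group] at h'
  -- elements of `C` outside `X`
  have hcoset : ∀ y ∈ Subgroup.centralizer ({j} : Set G), y ∉ L₁ ⊔ L₂ →
      ∃ p ∈ L₁, ∃ q ∈ L₂, y = n * (p * q) := by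
    intro y hy hyX
    have h : n⁻¹ * y ∈ L₁ ⊔ L₂ := by
      refine Subgroup.mem_subgroupOf.1 ((Subgroup.mul_mem_iff_of_index_two
        (H := (L₁ ⊔ L₂).subgroupOf (Subgroup.centralizer ({j} : Set G))) hi
        (a := (⟨n, hn⟩⁻¹ : Subgroup.centralizer ({j} : Set G))) (b := ⟨y, hy⟩)).2 ?_)
      simp only [Subgroup.inv_mem_iff, Subgroup.mem_subgroupOf]
      exact ⟨fun h' => absurd h' hnX, fun h' => absurd h' hyX⟩
    obtain ⟨p, hp, q, hq, hpq⟩ := S3210.sup_mem hc h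
    exact ⟨p, hp, q, hq, by rw [← hpq, mul_inv_cancel_left]⟩
  -- squares outside `X`
  have hsq : ∀ p ∈ L₁, ∀ q ∈ L₂, ∃ t ∈ L₁, ∃ u ∈ L₂,
      n * (p * q) * (n * (p * q)) = j * (t * u) ∧ u = q⁻¹ * (n * t * n⁻¹) * q := by
    intro p hp q hq
    refine ⟨(n * q * n⁻¹) * p, L₁.mul_mem (h21 q hq) hp, (n * p * n⁻¹) * q, L₂.mul_mem (h12 p hp) hq, ?_, ?_⟩
    · have e1 : n * (p * q) * (n * (p * q)) = n * n * ((n⁻¹ * p * n) * (n⁻¹ * q * n)) * (p * q) := by group
      rw [e1, h12' p hp, h21' q hq, hnn, ← hc _ (h21 q hq) _ (h12 p hp), mul_assoc j]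
      congr 1
      calc n * q * n⁻¹ * (n * p * n⁻¹) * (p * q) = n * q * n⁻¹ * ((n * p * n⁻¹) * p) * q := by group
        _ = n * q * n⁻¹ * p * (n * p * n⁻¹ * q) := by rw [← hc p hp _ (h12 p hp)]; group
    · calc n * p * n⁻¹ * q = q⁻¹ * (q * (n * p * n⁻¹)) * q := by group
        _ = q⁻¹ * (n * (n * q * n⁻¹ * p) * n⁻¹) * q := by
            rw [show n * (n * q * n⁻¹ * p) * n⁻¹ = n * (n * q * n⁻¹) * n⁻¹ * (n * p * n⁻¹) by group, hnn2 q hq]
  have hinvX : ∀ y : G, y * j = j * y → y * y = 1 → y ∈ L₁ ⊔ L₂ := by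
    intro y hy hyy
    by_contra hyX
    obtain ⟨p, hp, q, hq, rfl⟩ := hcoset y (Subgroup.mem_centralizer_singleton_iff.2 hy) hyX
    obtain ⟨t, ht, u, hu, he, hut⟩ := hsq p hp q hq
    rw [hyy] at he
    have htu : t * u = j := by rw [← hji]; exact eq_inv_of_mul_eq_one_right he.symm
    have ht2 : t ∈ L₂ := by
      rw [eq_mul_inv_of_mul_eq htu]
      exact L₂.mul_mem hjm.2 (L₂.inv_mem hu)
    have hnt : n * t * n⁻¹ = t ∧ t * t = 1 ∧ q⁻¹ * t * q = t := by
      rcases hz t ht ht2 with rfl | rfl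
      · simp
      · exact ⟨by rw [Subgroup.mem_centralizer_singleton_iff.1 hn, mul_inv_cancel_right], hjj,
          by rw [mul_assoc, ← hjc2 q hq, inv_mul_cancel_left]⟩
    rw [hut, hnt.1, hnt.2.2, hnt.2.1] at htu
    exact hj1 htu.symm
  -- the second involution
  obtain ⟨a, ha, ha2⟩ := SL2Pair.exists_sq e₁ hF hj hjm.1
  set b := n * a * n⁻¹ with hbdef
  have hb : b ∈ L₂ := h12 a ha
  have hb2 : b * b = j := by
    rw [hbdef, show n * a * n⁻¹ * (n * a * n⁻¹) = n * (a * a) * n⁻¹ by group, ha2,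
      Subgroup.mem_centralizer_singleton_iff.1 hn, mul_inv_cancel_right]
  have hab : a * b = b * a := hc a ha b hb
  set x := a * b with hxdef
  have hxX : x ∈ L₁ ⊔ L₂ := Subgroup.mul_mem_sup ha hb
  have hx2 : x * x = 1 := by
    rw [hxdef, show a * b * (a * b) = a * (b * a) * b by group, ← hab,
      show a * (a * b) * b = (a * a) * (b * b) by group, ha2, hb2, hjj]
  have hax : a ∉ L₂ := by
    intro h
    rcases hz a ha h with h' | h' <;> rw [h'] at ha2
    · exact hj1 (by rw [← ha2, one_mul])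
    · exact hj1 (ha2.symm.trans hjj)
  have hxj : x ≠ j := by
    intro h
    exact hax (by rw [eq_mul_inv_of_mul_eq h]; exact L₂.mul_mem hjm.2 (L₂.inv_mem hb))
  have hx1 : x ≠ 1 := by
    intro h
    exact hax (by rw [eq_inv_of_mul_eq_one_left h]; exact L₂.inv_mem hb)
  have hxo : orderOf x = 2 := orderOf_eq_prime (by rw [pow_two]; exact hx2) hx1
  have hxc : x * j = j * x := hjc x hxX
  have hnx : n * x * n⁻¹ = x := by
    rw [hxdef, show n * (a * b) * n⁻¹ = n * a * n⁻¹ * (n * b * n⁻¹) by group, hbdef, hnn1 a ha, ← hbdef,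
      ← hab]
  have hone : ∀ v : G, v * j = j * v → orderOf v = 2 → v ≠ j → ∃ c : G, c * j = j * c ∧ c * v * c⁻¹ = x := by
    intro v hv hvo hvj
    obtain ⟨x₀, hx₀, -, -, hall⟩ := S3209.result hF hF' L₁ L₂ e₁ e₂ hc j hj hm
    obtain ⟨g, hg, hgx⟩ := (hall x hxX hxo).resolve_left hxj
    have hvv : v * v = 1 := by rw [← pow_two, ← hvo]; exact pow_orderOf_eq_one v
    obtain ⟨g', hg', hgv⟩ := (hall v (hinvX v hv hvv) hvo).resolve_left hvj
    exact ⟨g * g'⁻¹, hjc _ (Subgroup.mul_mem _ hg (Subgroup.inv_mem _ hg')), by rw [← hgx, ← hgv]; group⟩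
  refine ⟨hj, fun g hg => ?_⟩
  by_contra hne
  obtain ⟨c, hcj', hcx⟩ := hone _ hg.eq.symm (by rw [← hj]; exact MulEquiv.orderOf_eq (MulAut.conj g) j) hne
  set f := (c * g)⁻¹ with hfdef
  have hfx : f * x * f⁻¹ = j := by rw [hfdef, ← hcx]; group
  obtain ⟨d, hdj, hdx⟩ := hone (f * j * f⁻¹)
    (by
      conv_lhs => arg 2; rw [← hfx]
      rw [show f * j * f⁻¹ * (f * x * f⁻¹) = f * (j * x) * f⁻¹ by group, ← hxc]
      conv_rhs => arg 1; rw [← hfx]
      group)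
    (by rw [← hj]; exact MulEquiv.orderOf_eq (MulAut.conj f) j)
    (fun h => hxj (by
      have : f * x * f⁻¹ = f * j * f⁻¹ := hfx.trans h.symm
      exact mul_left_cancel (mul_right_cancel this)))
  set k := d * f with hkdef
  have hkx : k * x * k⁻¹ = j := by
    rw [hkdef, show d * f * x * (d * f)⁻¹ = d * (f * x * f⁻¹) * d⁻¹ by group, hfx, hdj, mul_inv_cancel_right]
  have hkj : k * j * k⁻¹ = x := by
    rw [hkdef, show d * f * j * (d * f)⁻¹ = d * (f * j * f⁻¹) * d⁻¹ by group, hdx]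
  -- square roots of `j` and of `x` in the common centralizer
  let R : G → Set G := fun v => {y | y * j = j * y ∧ y * x = x * y ∧ y * y = v}
  have hcard : Nat.card (R x) ≥ Nat.card (R j) := by
    refine Nat.card_le_card_of_injective (fun y => ⟨k⁻¹ * y.1 * k, ?_, ?_, ?_⟩) fun y z h => ?_
    · obtain ⟨w, hw1, hw2, hw3⟩ := y
      calc k⁻¹ * w * k * j = k⁻¹ * (w * (k * j * k⁻¹)) * k := by group
        _ = k⁻¹ * (k * j * k⁻¹ * w) * k := by rw [hkj, hw2]
        _ = j * (k⁻¹ * w * k) := by group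
    · obtain ⟨w, hw1, hw2, hw3⟩ := y
      calc k⁻¹ * w * k * x = k⁻¹ * (w * (k * x * k⁻¹)) * k := by group
        _ = k⁻¹ * (k * x * k⁻¹ * w) * k := by rw [hkx, hw1]
        _ = x * (k⁻¹ * w * k) := by group
    · obtain ⟨w, hw1, hw2, hw3⟩ := y
      calc k⁻¹ * w * k * (k⁻¹ * w * k) = k⁻¹ * (w * w) * k := by group
        _ = k⁻¹ * (k * x * k⁻¹) * k := by rw [hw3, hkx]
        _ = x := by group
    · have := congrArg Subtype.val h
      exact Subtype.ext (mul_left_cancel (mul_right_cancel this))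
  have hax' : a * x = x * a := by rw [hxdef, mul_assoc a b a, ← hab]
  have hout : ∀ y, y ∈ R x → y ∉ L₁ ⊔ L₂ → y * a * (y * a) = j ∧ y * a ≠ n := by
    rintro y ⟨hyj, hyx, hyy⟩ hyX
    obtain ⟨p, hp, q, hq, rfl⟩ := hcoset y (Subgroup.mem_centralizer_singleton_iff.2 hyj) hyX
    obtain ⟨t, ht, u, hu, he, hut⟩ := hsq p hp q hq
    rw [hyy] at he
    have htu : t * u = j * (a * b) := by rw [← hxdef, he, ← mul_assoc j j, hjj, one_mul]
    have hja : j * a ∈ L₁ := L₁.mul_mem hjm.1 ha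
    have e2 : (j * a)⁻¹ * t = b * u⁻¹ := by
      rw [eq_mul_inv_iff_mul_eq, mul_assoc, htu, ← mul_assoc j, inv_mul_cancel_left]
    have hqb : q⁻¹ * b * q = j * b := by
      rcases hz _ (L₁.mul_mem (L₁.inv_mem hja) ht) (by rw [e2]; exact L₂.mul_mem hb (L₂.inv_mem hu)) with h | h
      · have ht' : t = j * a := (inv_mul_eq_one.1 h).symm
        rw [h, eq_comm, mul_inv_eq_one] at e2
        rw [← e2, ht', show n * (j * a) * n⁻¹ = (n * j * n⁻¹) * (n * a * n⁻¹) by group,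
          Subgroup.mem_centralizer_singleton_iff.1 hn, mul_inv_cancel_right, ← hbdef] at hut
        conv_rhs => arg 2; rw [hut]
        rw [← mul_assoc j, ← mul_assoc j, ← hjc2 _ (L₂.inv_mem hq), mul_assoc (q⁻¹) j, ← mul_assoc j j,
          hjj, one_mul]
      · have ht' : t = a := by
          rw [inv_mul_eq_iff_eq_mul] at h
          rw [h, mul_assoc, hjc1 a ha, ← mul_assoc, hjj, one_mul]
        rw [h, eq_comm, mul_inv_eq_iff_eq_mul] at e2
        rw [ht', ← hbdef] at hut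
        rw [← hut, e2, ← mul_assoc, hjj, one_mul]
    have hqb' : q * b * q⁻¹ = j * b := by
      calc q * b * q⁻¹ = q * (j * (j * b)) * q⁻¹ := by rw [← mul_assoc j, hjj, one_mul]
        _ = (q * j) * (q⁻¹ * b * q) * q⁻¹ := by rw [hqb]; group
        _ = j * b := by rw [hjc2 q hq]; group
    have hbi : b⁻¹ = j * b := inv_eq_of_mul_eq_one_right (by
      rw [← mul_assoc, hjc2 b hb, mul_assoc, hb2, hjj])
    have hai : a⁻¹ = j * a := inv_eq_of_mul_eq_one_right (by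
      rw [← mul_assoc, hjc1 a ha, mul_assoc, ha2, hjj])
    have hpa : p * a * p⁻¹ = a⁻¹ := by
      have h1 : n * (p * q) * x * (n * (p * q))⁻¹ = x := by rw [hyx, mul_inv_cancel_right]
      have h2 : p * q * x * (p * q)⁻¹ = x := by
        conv_rhs at h1 => rw [← hnx]
        rw [show n * (p * q) * x * (n * (p * q))⁻¹ = n * (p * q * x * (p * q)⁻¹) * n⁻¹ by group] at h1
        exact mul_left_cancel (mul_right_cancel h1)
      have h3 : p * a * p⁻¹ * b⁻¹ = a * b := by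
        rw [hbi, ← hqb', ← hxdef, ← h2, hxdef]
        calc p * a * p⁻¹ * (q * b * q⁻¹) = p * a * ((p⁻¹ * (q * b * q⁻¹))) := by group
          _ = p * a * ((q * b * q⁻¹) * p⁻¹) := by
              rw [hc _ (L₁.inv_mem hp) _ (L₂.mul_mem (L₂.mul_mem hq hb) (L₂.inv_mem hq))]
          _ = p * (a * q) * b * q⁻¹ * p⁻¹ := by group
          _ = p * q * (a * b) * (p * q)⁻¹ := by rw [hc a ha q hq]; group
      rw [mul_inv_eq_iff_eq_mul, mul_assoc a b b, hb2] at h3
      rw [h3, hai, hjc1 a ha]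
    have hya : n * (p * q) * a * (n * (p * q))⁻¹ = b⁻¹ := by
      rw [show n * (p * q) * a * (n * (p * q))⁻¹ = n * (p * (q * a * q⁻¹) * p⁻¹) * n⁻¹ by group,
        ← hc a ha q hq, mul_inv_cancel_right, hpa, hbdef]
      group
    refine ⟨?_, fun h => ?_⟩
    · rw [show n * (p * q) * a * (n * (p * q) * a) =
        (n * (p * q) * a * (n * (p * q))⁻¹) * ((n * (p * q)) * (n * (p * q))) * a by group, hya, hyy,
        hab, inv_mul_cancel_left, ha2]
    · -- then `q = 1`, which does not invert `b`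
      have h' : p * q * a = 1 := by
        rw [mul_assoc] at h
        exact mul_eq_left.1 h
      have hq2 : q ∈ L₁ := by
        rw [show q = p⁻¹ * a⁻¹ by
          rw [eq_inv_mul_iff_mul_eq]; exact eq_inv_of_mul_eq_one_left h']
        exact L₁.mul_mem (L₁.inv_mem hp) (L₁.inv_mem ha)
      have hqb'' : q * b * q⁻¹ = b := by rw [hc q hq2 b hb, mul_inv_cancel_right]
      rw [hqb''] at hqb'
      exact hj1 (mul_eq_right.1 hqb'.symm)
  have hin : ∀ y, y ∈ R x → y ∈ L₁ ⊔ L₂ → ∃ p ∈ L₁, ∃ q ∈ L₂, y = p * q ∧ p * a = a * p ∧ q * b = b * q := by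
    rintro y ⟨hyj, hyx, hyy⟩ hyX
    obtain ⟨p, hp, q, hq, rfl⟩ := S3210.sup_mem hc hyX
    have hpp : (p * p) * (q * q) = a * b := by
      rw [← hxdef, ← hyy, show p * q * (p * q) = p * (q * p) * q by group, ← hc p hp q hq]
      group
    have e : a⁻¹ * (p * p) = b * (q * q)⁻¹ := by
      rw [eq_mul_inv_iff_mul_eq, mul_assoc, hpp, inv_mul_cancel_left]
    refine ⟨p, hp, q, hq, rfl, ?_, ?_⟩ <;>
    rcases hz _ (L₁.mul_mem (L₁.inv_mem ha) (L₁.mul_mem hp hp))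
      (by rw [e]; exact L₂.mul_mem hb (L₂.inv_mem (L₂.mul_mem hq hq))) with h | h
    · rw [inv_mul_eq_one.1 h]; group
    · rw [show a = p * p * j by rw [inv_mul_eq_iff_eq_mul.1 h, mul_assoc, hjj, mul_one]]
      rw [mul_assoc (p * p) j p, ← hjc1 p hp]; group
    · rw [h, eq_comm, mul_inv_eq_one] at e; rw [e]; group
    · rw [h, eq_comm, mul_inv_eq_iff_eq_mul] at e
      rw [e, ← mul_assoc q j, hjc2 q hq]; group
  -- the injection
  have hlt : Nat.card (R x) < Nat.card (R j) := by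
    obtain ⟨z₀, hz₀⟩ : ∃ z₀ : G, (∃ y ∈ R x, y ∈ L₁ ⊔ L₂) → (z₀ ∈ R x ∧ z₀ ∈ L₁ ⊔ L₂) := by
      by_cases hex : ∃ y ∈ R x, y ∈ L₁ ⊔ L₂
      · obtain ⟨y, hy⟩ := hex
        exact ⟨y, fun _ => hy⟩
      · exact ⟨1, fun h => absurd h hex⟩
    let φ : R x → G := fun y => if y.1 ∈ L₁ ⊔ L₂ then y.1 * z₀⁻¹ * a else y.1 * a
    have haX : a ∈ L₁ ⊔ L₂ := Subgroup.mem_sup_left ha
    have hφmem : ∀ y : R x, φ y ∈ R j ∧ φ y ≠ n ∧ (φ y ∈ L₁ ⊔ L₂ ↔ y.1 ∈ L₁ ⊔ L₂) := by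
      rintro ⟨y, hy⟩
      by_cases hyX : y ∈ L₁ ⊔ L₂
      · obtain ⟨hzR, hzX⟩ := hz₀ ⟨y, hy, hyX⟩
        have hmemX : y * z₀⁻¹ * a ∈ L₁ ⊔ L₂ :=
          Subgroup.mul_mem _ (Subgroup.mul_mem _ hyX (Subgroup.inv_mem _ hzX)) haX
        have hφ : φ ⟨y, hy⟩ = y * z₀⁻¹ * a := if_pos hyX
        rw [hφ]
        obtain ⟨p, hp, q, hq, rfl, hpa, hqb⟩ := hin y hy hyX
        obtain ⟨p₀, hp₀, q₀, hq₀, hz₀', hpa₀, hqb₀⟩ := hin z₀ hzR hzX
        have hya : p * q * a = a * (p * q) := by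
          rw [mul_assoc, ← hc a ha q hq, ← mul_assoc, hpa, mul_assoc]
        have hza : z₀ * a = a * z₀ := by
          rw [hz₀', mul_assoc, ← hc a ha q₀ hq₀, ← mul_assoc, hpa₀, mul_assoc]
        have hpp₀ := comm_of_commute e₁ hF hj hjm.1 ha ha2 hp hp₀ hpa hpa₀
        have hqq₀ := comm_of_commute e₂ hF' hj hjm.2 hb hb2 hq hq₀ hqb hqb₀
        have hyz : Commute (p * q) z₀ := by
          rw [hz₀']
          exact (Commute.mul_right hpp₀ (hc p hp q₀ hq₀)).mul_left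
            (Commute.mul_right (hc p₀ hp₀ q hq).symm hqq₀)
        have hyz' := hyz.inv_right
        refine ⟨⟨hjc _ hmemX, ?_, ?_⟩, fun h => hnX (h ▸ hmemX), ⟨fun _ => hyX, fun _ => hmemX⟩⟩
        · exact (((show Commute (p * q) x from hy.2.1).mul_left
            (show Commute z₀ x from hzR.2.1).inv_left).mul_left hax').eq
        · have hwa : Commute (p * q * z₀⁻¹) a :=
            (show Commute (p * q) a from hya).mul_left (show Commute z₀ a from hza).inv_left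
          rw [← pow_two, hwa.mul_pow, hyz'.mul_pow, inv_pow, pow_two, pow_two, pow_two, hy.2.2, hzR.2.2,
            mul_inv_cancel, one_mul, ha2]
      · have hmemX : y * a ∉ L₁ ⊔ L₂ := fun h => hyX (by
          have := Subgroup.mul_mem _ h (Subgroup.inv_mem _ haX)
          rwa [mul_inv_cancel_right] at this)
        have hφ : φ ⟨y, hy⟩ = y * a := if_neg hyX
        rw [hφ]
        refine ⟨⟨?_, ?_, (hout y hy hyX).1⟩, (hout y hy hyX).2, ⟨fun h => absurd h hmemX, fun h => absurd h hyX⟩⟩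
        · exact ((show Commute y j from hy.1).mul_left (hjc1 a ha)).eq
        · exact ((show Commute y x from hy.2.1).mul_left hax').eq
    let ψ : R x → R j := fun y => ⟨φ y, (hφmem y).1⟩
    have hnR : n ∈ R j := ⟨Subgroup.mem_centralizer_singleton_iff.1 hn, by
      conv_rhs => rw [← hnx]
      group, hnn⟩
    haveI := Fintype.ofFinite (R x)
    haveI := Fintype.ofFinite (R j)
    rw [Nat.card_eq_fintype_card, Nat.card_eq_fintype_card]
    refine Fintype.card_lt_of_injective_of_notMem ψ ?_ (b := ⟨n, hnR⟩) ?_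
    · intro y z h
      have h' : φ y = φ z := congrArg Subtype.val h
      have hiff : y.1 ∈ L₁ ⊔ L₂ ↔ z.1 ∈ L₁ ⊔ L₂ := by rw [← (hφmem y).2.2, h', (hφmem z).2.2]
      by_cases hyX : y.1 ∈ L₁ ⊔ L₂
      · rw [show φ y = _ from if_pos hyX, show φ z = _ from if_pos (hiff.1 hyX)] at h'
        exact Subtype.ext (mul_right_cancel (mul_right_cancel h'))
      · rw [show φ y = _ from if_neg hyX, show φ z = _ from if_neg (mt hiff.2 hyX)] at h'
        exact Subtype.ext (mul_right_cancel h')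
    · rintro ⟨y, hy⟩
      exact (hφmem y).2.1 (congrArg Subtype.val hy)
  omega

end Cfsg.Agent.Screen.SL2Swap
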