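import Mathlib.GroupTheory.SpecificGroups.Alternating
import Mathlib.GroupTheory.SpecificGroups.Dihedral
import Mathlib.GroupTheory.Perm.Cycle.Type
import Mathlib.GroupTheory.Subgroup.Centralizer

/-!
The centralizer of a double transposition in the alternating group of degree six.
-/

set_option autoImplicit false

namespace Cfsg.Agent.Screen.AltSixInvol

open Equiv

/-- `(0 1)(2 3)`. -/
def t₀ : Perm (Fin 6) := swap 0 1 * swap 2 3

/-- `(0 2 1 3)(4 5)`. -/
def r₀ : Perm (Fin 6) := swap 0 2 * swap 2 1 * swap 1 3 * swap 4 5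

/-- `(0 1)(4 5)`. -/
def s₀ : Perm (Fin 6) := swap 0 1 * swap 4 5

/-- The dihedral group of order eight centralizing `t₀`. -/
def g₀ : DihedralGroup 4 → Perm (Fin 6)
  | .r i => r₀ ^ i.val
  | .sr i => s₀ * r₀ ^ i.val

theorem g₀_mul : ∀ x y, g₀ (x * y) = g₀ x * g₀ y := by decide +kernel

theorem g₀_inj : ∀ x, g₀ x = 1 → x = 1 := by decide +kernel

theorem g₀_even : ∀ x, Perm.sign (g₀ x) = 1 := by decide +kernel

theorem g₀_comm : ∀ x, g₀ x * t₀ = t₀ * g₀ x := by decide +kernel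

theorem g₀_surj : ∀ p : Perm (Fin 6), p * t₀ = t₀ * p → Perm.sign p = 1 → ∃ x, g₀ x = p := by
  decide +kernel

theorem t₀_ord : t₀ ^ 2 = 1 ∧ t₀ ≠ 1 ∧ t₀.support.card = 4 := by decide +kernel

theorem cycleType_eq {p : Perm (Fin 6)} (hp : orderOf p = 2) (hs : p.support.card = 4) :
    p.cycleType = Multiset.replicate 2 2 := by
  obtain ⟨n, hn⟩ := Perm.cycleType_prime_order (σ := p) (by rw [hp]; exact Nat.prime_two)
  have := Perm.sum_cycleType p
  rw [hn, hp, Multiset.sum_replicate, hs, smul_eq_mul] at this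
  rw [hn, hp, show n + 1 = 2 by omega]

theorem centralizer_equiv (α : alternatingGroup (Fin 6)) (hα : orderOf α = 2)
    (hs : (α : Perm (Fin 6)).support.card = 4) :
    Nonempty (Subgroup.centralizer ({α} : Set (alternatingGroup (Fin 6))) ≃* DihedralGroup 4) := by
  have hα' : orderOf (α : Perm (Fin 6)) = 2 := by rw [Subgroup.orderOf_coe, hα]
  have ht := t₀_ord
  obtain ⟨c, hc⟩ : ∃ c : Perm (Fin 6), c * t₀ * c⁻¹ = (α : Perm (Fin 6)) :=
    isConj_iff.1 (Perm.isConj_iff_cycleType_eq.2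
      ((cycleType_eq (orderOf_eq_prime ht.1 ht.2.1) ht.2.2).trans (cycleType_eq hα' hs).symm))
  let f : DihedralGroup 4 →* Subgroup.centralizer ({α} : Set (alternatingGroup (Fin 6))) :=
    MonoidHom.mk' (fun x => ⟨⟨c * g₀ x * c⁻¹, by simp [g₀_even]⟩, by
        refine Subgroup.mem_centralizer_singleton_iff.2 (Subtype.ext ?_)
        show c * g₀ x * c⁻¹ * (α : Perm (Fin 6)) = (α : Perm (Fin 6)) * (c * g₀ x * c⁻¹)
        rw [← hc]
        calc c * g₀ x * c⁻¹ * (c * t₀ * c⁻¹) = c * (g₀ x * t₀) * c⁻¹ := by group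
          _ = c * t₀ * c⁻¹ * (c * g₀ x * c⁻¹) := by rw [g₀_comm]; group⟩)
      fun x y => Subtype.ext (Subtype.ext (by
        show c * g₀ (x * y) * c⁻¹ = c * g₀ x * c⁻¹ * (c * g₀ y * c⁻¹)
        rw [g₀_mul]; group))
  have hf : Function.Bijective f := by
    refine ⟨(injective_iff_map_eq_one f).2 fun x hx => g₀_inj x ?_, fun ⟨⟨p, hp⟩, hpc⟩ => ?_⟩
    · have := congrArg (fun w => (((w : Subgroup.centralizer ({α} : Set (alternatingGroup (Fin 6)))) :
        alternatingGroup (Fin 6)) : Perm (Fin 6))) hx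
      exact conj_eq_one_iff.1 this
    · have h1 : p * (α : Perm (Fin 6)) = (α : Perm (Fin 6)) * p :=
        congrArg Subtype.val (Subgroup.mem_centralizer_singleton_iff.1 hpc)
      obtain ⟨x, hx⟩ := g₀_surj (c⁻¹ * p * c) (by
        rw [← hc] at h1
        calc c⁻¹ * p * c * t₀ = c⁻¹ * (p * (c * t₀ * c⁻¹)) * c := by group
          _ = t₀ * (c⁻¹ * p * c) := by rw [h1]; group) (by
        rw [Equiv.Perm.mem_alternatingGroup] at hp
        simp [hp])
      exact ⟨x, Subtype.ext (Subtype.ext (by show c * g₀ x * c⁻¹ = p; rw [hx]; group))⟩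
  exact ⟨(MulEquiv.ofBijective f hf).symm⟩

end Cfsg.Agent.Screen.AltSixInvol
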