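import Cfsg.Agent.Blocks.KleinFour
import Cfsg.Agent.DegreeGraph.AbelianNormal
import Cfsg.Agent.Chars.Linear
import Cfsg.Agent.Screen.ThreeInvolutions
import Cfsg.Agent.SmallOrder.Basic
import Cfsg.Agent.Transfer.Fusion
import Mathlib.Tactic.LinearCombination
import Mathlib.Tactic.FieldSimp

/-!
Simple groups in which the centralizer of an involution has a normal four-group as its Sylow
2-subgroup: counting involution products against the principal block bounds the involutions by 15.
-/

set_option autoImplicit false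
set_option linter.style.haveILetI false

namespace Cfsg.Agent.Screen.KleinA5

open Cfsg Cfsg.Agent
open scoped ComplexConjugate

universe u

theorem degree_bound {N a b c va vb vc : ℤ} (ha : 2 ≤ a) (hb : 2 ≤ b) (hc : 2 ≤ c)
    (hva : va = 1 ∨ va = -1) (hvb : vb = 1 ∨ vb = -1) (hvc : vc = 1 ∨ vc = -1)
    (da : (4 : ℤ) ∣ a - va) (db : (4 : ℤ) ∣ b - vb) (dc : (4 : ℤ) ∣ c - vc)
    (h0 : 1 + va * a + vb * b + vc * c = 0)
    (h : N * (a * b * c + va * (b * c) + vb * (a * c) + vc * (a * b)) = 8 * (a * b * c)) :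
    N ≤ 15 := by
  have pq : 0 < a * b * c := by positivity
  suffices hs : 8 * (a * b * c) ≤ 15 * (a * b * c + va * (b * c) + vb * (a * c) + vc * (a * b)) by
    by_contra hN
    have h16 : (16 : ℤ) ≤ N := by omega
    have hP : 0 < a * b * c + va * (b * c) + vb * (a * c) + vc * (a * b) := by omega
    have := mul_le_mul_of_nonneg_right h16 hP.le
    omega
  have hab : 0 < a * b := by positivity
  have hac : 0 < a * c := by positivity
  have hbc : 0 < b * c := by positivity
  rcases hva with rfl | rfl <;> rcases hvb with rfl | rfl <;> rcases hvc with rfl | rfl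
  · omega
  · have : 3 ≤ c := by omega
    nlinarith
  · have : 3 ≤ b := by omega
    nlinarith
  · obtain rfl : a = b + c - 1 := by omega
    have hb3 : 3 ≤ b := by omega
    have hc3 : 3 ≤ c := by omega
    nlinarith [mul_nonneg (sub_nonneg.2 hb3) (sub_nonneg.2 hc3),
      mul_nonneg (mul_nonneg (sub_nonneg.2 hb3) (sub_nonneg.2 hc3)) (sub_nonneg.2 hb3),
      mul_nonneg (mul_nonneg (sub_nonneg.2 hb3) (sub_nonneg.2 hc3)) (sub_nonneg.2 hc3),
      sq_nonneg (b - 3), sq_nonneg (c - 3)]
  · have : 3 ≤ a := by omega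
    nlinarith
  · obtain rfl : b = a + c - 1 := by omega
    have ha3 : 3 ≤ a := by omega
    have hc3 : 3 ≤ c := by omega
    nlinarith [mul_nonneg (sub_nonneg.2 ha3) (sub_nonneg.2 hc3),
      mul_nonneg (mul_nonneg (sub_nonneg.2 ha3) (sub_nonneg.2 hc3)) (sub_nonneg.2 ha3),
      mul_nonneg (mul_nonneg (sub_nonneg.2 ha3) (sub_nonneg.2 hc3)) (sub_nonneg.2 hc3),
      sq_nonneg (a - 3), sq_nonneg (c - 3)]
  · obtain rfl : c = a + b - 1 := by omega
    have ha3 : 3 ≤ a := by omega
    have hb3 : 3 ≤ b := by omega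
    nlinarith [mul_nonneg (sub_nonneg.2 ha3) (sub_nonneg.2 hb3),
      mul_nonneg (mul_nonneg (sub_nonneg.2 ha3) (sub_nonneg.2 hb3)) (sub_nonneg.2 ha3),
      mul_nonneg (mul_nonneg (sub_nonneg.2 ha3) (sub_nonneg.2 hb3)) (sub_nonneg.2 hb3),
      sq_nonneg (a - 3), sq_nonneg (b - 3)]
  · omega

variable {G : Type u} [Group G] [Fintype G]

/-- The involution count: at most 15. -/
theorem card_inv_le [IsSimpleGroup G] (hna : ¬ IsMulCommutative G) (P : Sylow 2 G) (hP : Nat.card P = 4)
    (hexp : ∀ y : P, y * y = 1) (hone : ∀ s t : G, orderOf s = 2 → orderOf t = 2 → IsConj s t)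
    (hinv : ∀ u g z : G, orderOf u = 2 → u * g * u⁻¹ = g⁻¹ → orderOf z = 2 → Commute u z →
      Commute g z → g * g = 1)
    (hcent : ∀ z : G, orderOf z = 2 → Nat.card {u : G // orderOf u = 2 ∧ Commute u z} = 3) :
    Nat.card {u : G // orderOf u = 2} ≤ 15 := by
  classical
  haveI : Fact (Nat.Prime 2) := ⟨Nat.prime_two⟩
  obtain ⟨M, hMmax, h2M⟩ := DegreeGraph.exists_isMaximal_mem 2
  haveI := hMmax
  obtain ⟨S, v, -, hS4, hone1, hv1, hsign, hval, hdvd, horth⟩ := Blocks.klein_data h2M P hP hexp hone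
  set I := Finset.univ.filter fun u : G => orderOf u = 2 with hI
  have hIcard : Nat.card {u : G // orderOf u = 2} = I.card := by
    rw [Nat.card_eq_fintype_card, Fintype.card_subtype]
  set f : G → ℂ := fun g => if g ∈ I then 1 else 0 with hf
  have hfc : IsClassFunction G f := by
    intro g c
    have : orderOf (c * g * c⁻¹) = orderOf g := Screen.orderOf_conj c g
    simp [hf, hI, this]
  have hinvo : ∀ u : G, orderOf u = 2 → u * u = 1 := fun u hu => by
    rw [← pow_two, ← hu, pow_orderOf_eq_one]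
  have hconv : ∀ g : G, Blocks.conv f f g = ((I.filter fun u => u⁻¹ * g ∈ I).card : ℂ) := by
    intro g
    rw [Finset.card_filter, Nat.cast_sum]
    simp only [Blocks.conv, hf]
    rw [← Finset.sum_subset (Finset.subset_univ I) (fun x _ hx => by simp [hx])]
    refine Finset.sum_congr rfl fun x hx => ?_
    simp [hx]
  set Γ : G → ℂ := fun g => ∑ χ ∈ S, (v χ : ℂ) * (χ : G → ℂ) g with hΓ
  -- the left side: only involutions contribute
  have hterm : ∀ g : G, Blocks.conv f f g * Γ g = if g ∈ I then 8 else 0 := by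
    intro g
    by_cases hg : g ∈ I
    · rw [if_pos hg]
      have hg2 : orderOf g = 2 := (Finset.mem_filter.1 hg).2
      have hgg := hinvo g hg2
      have hgi : g⁻¹ = g := inv_eq_of_mul_eq_one_right hgg
      have hset : (I.filter fun u => u⁻¹ * g ∈ I) =
          (Finset.univ.filter fun u : G => orderOf u = 2 ∧ Commute u g).erase g := by
        ext u
        simp only [hI, Finset.mem_filter, Finset.mem_univ, true_and, Finset.mem_erase]
        constructor
        · rintro ⟨hu, hug⟩
          refine ⟨fun e => ?_, hu, ?_⟩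
          · rw [e, inv_mul_cancel, orderOf_one] at hug; omega
          · have h1 := hinvo _ hug
            rw [inv_eq_of_mul_eq_one_right (hinvo u hu)] at h1
            have h2 := eq_inv_of_mul_eq_one_left h1
            rw [mul_inv_rev, hgi, inv_eq_of_mul_eq_one_right (hinvo u hu)] at h2
            exact h2
        · rintro ⟨hne, hu, huc⟩
          refine ⟨hu, orderOf_eq_prime ?_ ?_⟩
          · rw [huc.inv_left.mul_pow, inv_pow, pow_two, pow_two, hinvo u hu, hgg, inv_one, one_mul]
          · rw [Ne, inv_mul_eq_one]; exact hne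
      have h2 : (I.filter fun u => u⁻¹ * g ∈ I).card = 2 := by
        rw [hset, Finset.card_erase_of_mem (by simp [hg2]), ← Fintype.card_subtype,
          ← Nat.card_eq_fintype_card, hcent g hg2]
      have h4 : Γ g = 4 := by
        rw [hΓ]
        simp only
        rw [Finset.sum_congr rfl (g := fun _ => (1 : ℂ)) (fun χ hχ => ?_)]
        · simp [hS4]
        · rw [hval χ g hg2]
          rcases hsign χ hχ with h | h <;> simp [h]
      rw [hconv g, h2, h4]; norm_num
    · rw [if_neg hg]
      by_cases hodd : ¬ 2 ∣ orderOf g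
      · rw [show Γ g = 0 from horth g hodd, mul_zero]
      push Not at hodd
      rw [hconv g, show (I.filter fun u => u⁻¹ * g ∈ I) = ∅ from ?_]
      · simp
      rw [Finset.filter_eq_empty_iff]
      intro u hu hug
      have hu2 : orderOf u = 2 := (Finset.mem_filter.1 hu).2
      have hug2 : orderOf (u⁻¹ * g) = 2 := (Finset.mem_filter.1 hug).2
      have hui : u⁻¹ = u := inv_eq_of_mul_eq_one_right (hinvo u hu2)
      have hinvg : u * g * u⁻¹ = g⁻¹ := by
        have h1 := hinvo _ hug2
        rw [hui] at h1 ⊢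
        exact eq_inv_of_mul_eq_one_left (by rw [mul_assoc]; exact h1)
      set k := orderOf g / 2 with hk
      have hz2 : orderOf (g ^ k) = 2 := by
        rw [orderOf_pow_of_dvd (by have := orderOf_pos g; omega) (Nat.div_dvd_of_dvd hodd),
          Nat.div_div_self hodd (orderOf_pos g).ne']
      have huz : Commute u (g ^ k) := by
        have h1 : u * g ^ k * u⁻¹ = (g ^ k)⁻¹ := by rw [← conj_pow, hinvg, inv_pow]
        rw [inv_eq_of_mul_eq_one_right (hinvo _ hz2)] at h1
        exact mul_inv_eq_iff_eq_mul.1 h1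
      have hgg := hinv u g (g ^ k) hu2 hinvg hz2 huz (Commute.self_pow g k)
      refine hg (Finset.mem_filter.2 ⟨Finset.mem_univ _, orderOf_eq_prime (by rw [pow_two, hgg]) fun e => ?_⟩)
      rw [e, orderOf_one] at hodd
      omega
  have hleft : ∑ g, Blocks.conv f f g * Γ g = 8 * (I.card : ℂ) := by
    rw [Finset.sum_congr rfl (fun g _ => hterm g), ← Finset.sum_filter, Finset.filter_univ_mem,
      Finset.sum_const, nsmul_eq_mul, mul_comm]
  have hsum : ∀ χ : IrrCharacter G, ∑ g, Blocks.conv f f g * (χ : G → ℂ) g =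
      ((I.card : ℂ) * (v χ : ℂ)) ^ 2 / (χ : G → ℂ) 1 := by
    intro χ
    have h0 : (χ : G → ℂ) 1 ≠ 0 := Chars.irr_apply_one_ne_zero χ.2
    have h1 := Blocks.omega_conv χ.2 hfc hfc
    have h2 : Blocks.omega (χ : G → ℂ) f = (I.card : ℂ) * (v χ : ℂ) / (χ : G → ℂ) 1 := by
      unfold Blocks.omega
      congr 1
      simp only [hf, ite_mul, one_mul, zero_mul]
      rw [← Finset.sum_filter, Finset.filter_univ_mem,
        Finset.sum_congr rfl (fun g hg => hval χ g (Finset.mem_filter.1 hg).2), Finset.sum_const,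
        nsmul_eq_mul]
    rw [h2] at h1
    unfold Blocks.omega at h1
    rw [div_eq_iff h0] at h1
    rw [h1]
    field_simp
  have hkey : (I.card : ℂ) ^ 2 * ∑ χ ∈ S, (v χ : ℂ) / (χ : G → ℂ) 1 = 8 * (I.card : ℂ) := by
    rw [← hleft, Finset.mul_sum]
    simp only [hΓ, Finset.mul_sum]
    rw [Finset.sum_comm]
    refine Finset.sum_congr rfl fun χ hχ => ?_
    rw [show ∑ g, Blocks.conv f f g * ((v χ : ℂ) * (χ : G → ℂ) g) =
      (v χ : ℂ) * ∑ g, Blocks.conv f f g * (χ : G → ℂ) g from by
        rw [Finset.mul_sum]; exact Finset.sum_congr rfl fun g _ => by ring, hsum χ]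
    rcases hsign χ hχ with h | h <;> rw [h] <;> push_cast <;> ring
  -- the three non-trivial characters
  have h3 : (S.erase (Blocks.oneChar G)).card = 3 := by rw [Finset.card_erase_of_mem hone1, hS4]
  obtain ⟨a, b, c, hab, hac, hbc, habc⟩ := Finset.card_eq_three.1 h3
  have hdata : ∀ χ ∈ S.erase (Blocks.oneChar G), (v χ = 1 ∨ v χ = -1) ∧
      2 ≤ (charDegree (χ : G → ℂ) : ℤ) ∧ (4 : ℤ) ∣ (charDegree (χ : G → ℂ) : ℤ) - v χ := by
    intro χ hχ
    obtain ⟨hne, hχS⟩ := Finset.mem_erase.1 hχ
    refine ⟨hsign χ hχS, ?_, hdvd χ⟩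
    obtain ⟨h1, hpos⟩ := Blocks.charDegree_eq χ.2
    by_contra hlt
    have hd : charDegree (χ : G → ℂ) = 1 := by omega
    rw [hd, Nat.cast_one] at h1
    obtain ⟨φ, hφ⟩ := Chars.exists_hom_of_degree_one (Chars.irr_isCharacter χ) h1
    have hφ1 := SmallOrder.hom_comm_eq_one hna φ
    refine hne (Subtype.ext (funext fun g => ?_))
    rw [Blocks.coe_oneChar]
    simp [hφ, hφ1]
  have hsplit : ∀ F : IrrCharacter G → ℂ, ∑ χ ∈ S, F χ = F (Blocks.oneChar G) + (F a + F b + F c) := by
    intro F
    rw [← Finset.add_sum_erase S F hone1, habc, Finset.sum_insert (by simp [hab, hac]),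
      Finset.sum_insert (by simp [hbc]), Finset.sum_singleton, add_assoc]
  obtain ⟨sa, la, da⟩ := hdata a (by rw [habc]; simp)
  obtain ⟨sb, lb, db⟩ := hdata b (by rw [habc]; simp)
  obtain ⟨sc, lc, dc⟩ := hdata c (by rw [habc]; simp)
  have ea := (Blocks.charDegree_eq a.2).1
  have eb := (Blocks.charDegree_eq b.2).1
  have ec := (Blocks.charDegree_eq c.2).1
  set A := charDegree (a : G → ℂ)
  set B := charDegree (b : G → ℂ)
  set C := charDegree (c : G → ℂ)
  have h0 := horth 1 (by rw [orderOf_one]; norm_num)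
  rw [hsplit, hv1, Blocks.coe_oneChar, ea, eb, ec] at h0
  rw [hsplit, hv1, Blocks.coe_oneChar, ea, eb, ec] at hkey
  rw [hIcard]
  by_cases hI0 : I.card = 0
  · omega
  have hIC : (I.card : ℂ) ≠ 0 := Nat.cast_ne_zero.2 hI0
  have hA : (A : ℂ) ≠ 0 := Nat.cast_ne_zero.2 (by omega)
  have hB : (B : ℂ) ≠ 0 := Nat.cast_ne_zero.2 (by omega)
  have hC : (C : ℂ) ≠ 0 := Nat.cast_ne_zero.2 (by omega)
  have h0' : 1 + v a * (A : ℤ) + v b * (B : ℤ) + v c * (C : ℤ) = 0 := by
    refine Int.cast_injective (α := ℂ) ?_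
    push_cast
    simp only [Int.cast_one, one_mul] at h0
    linear_combination h0
  have hk : (I.card : ℤ) * ((A : ℤ) * B * C + v a * ((B : ℤ) * C) + v b * ((A : ℤ) * C) +
      v c * ((A : ℤ) * B)) = 8 * ((A : ℤ) * B * C) := by
    refine Int.cast_injective (α := ℂ) ?_
    push_cast
    simp only [Int.cast_one] at hkey
    field_simp at hkey
    linear_combination hkey
  have := degree_bound la lb lc sa sb sc da db dc h0' hk
  omega

end Cfsg.Agent.Screen.KleinA5
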