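import Cfsg.Agent.LocalEven.CentralTwoTransfer
import Cfsg.Agent.FGS3.PGroupFrattini
import Cfsg.Prelude.Def_Local

/-!
The normal subgroups of index two of the centraliser of an involution whose two-core is
extraspecial, in a group without a quotient of order two.
-/

set_option autoImplicit false
set_option linter.unusedSectionVars false
set_option linter.style.haveILetI false

namespace Cfsg.Agent.Screen.ExtraIndexTwo

open scoped Classical

variable {G : Type*} [Group G] [Finite G]

/-- A homomorphism to a group of exponent two of a group with `O²(G) = G` is trivial. -/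
theorem hom_eq_one (hres : Cfsg.pResidual 2 G = ⊤) {A : Type*} [Group A] (hA : ∀ a : A, a * a = 1)
    (f : G →* A) (x : G) : f x = 1 := by
  have hle : Cfsg.pResidual 2 G ≤ f.ker := by
    rw [Cfsg.pResidual, Subgroup.closure_le]
    intro g hg
    have h1 : orderOf (f g) ∣ 2 := orderOf_dvd_of_pow_eq_one (by rw [pow_two]; exact hA _)
    have h2 : orderOf (f g) ∣ orderOf g := orderOf_map_dvd f g
    have := Nat.dvd_gcd h2 h1
    rw [Nat.coprime_iff_gcd_eq_one.1 hg, Nat.dvd_one, orderOf_eq_one_iff] at this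
    exact this
  rw [hres] at hle
  exact hle (Subgroup.mem_top x)

theorem hom_comm_eq_one {M A : Type*} [Group M] [CommGroup A] (f : M →* A) (a b : M) :
    f (a * b * a⁻¹ * b⁻¹) = 1 := by
  rw [map_mul, map_mul, map_mul, map_inv, map_inv, mul_comm (f a) (f b), mul_assoc (f b),
    mul_inv_cancel, mul_one, mul_inv_cancel]

structure Setting (E : Subgroup G) (z : G) : Prop where
  two : IsPGroup 2 E
  zE : z ∈ E
  z1 : z ≠ 1
  zz : z * z = 1
  center : ∀ x ∈ E, (∀ y ∈ E, x * y = y * x) → x = 1 ∨ x = z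
  central : ∀ y ∈ E, z * y = y * z
  comm : ∀ x ∈ E, ∀ y ∈ E, x * y = y * x ∨ x * y = z * (y * x)
  sq : ∀ x ∈ E, x * x = 1 ∨ x * x = z

theorem setting_of_extraspecial {z : G} (hz : orderOf z = 2) {E : Subgroup G}
    (hext : Cfsg.IsExtraspecial 2 E) (hEH : E ≤ Subgroup.centralizer ({z} : Set G))
    (hcent : Subgroup.centralizer (E : Set G) ≤ E) : Setting E z := by
  haveI : Fact (Nat.Prime 2) := ⟨Nat.prime_two⟩
  obtain ⟨⟨hp, hfr, hco⟩, hc2⟩ := hext
  have hzc : ∀ y ∈ E, z * y = y * z := fun y hy =>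
    (Subgroup.mem_centralizer_iff.1 (hEH hy) z rfl)
  have hzE : z ∈ E := hcent (Subgroup.mem_centralizer_iff.2 fun y hy => (hzc y hy).symm)
  have hz1 : z ≠ 1 := fun h => by rw [h, orderOf_one] at hz; omega
  have hcen : ∀ w : E, w ∈ Subgroup.center E → (w : G) = 1 ∨ (w : G) = z := by
    intro w hw
    have hzm : (⟨z, hzE⟩ : E) ∈ Subgroup.center E :=
      Subgroup.mem_center_iff.2 fun y => Subtype.ext (hzc y y.2).symm
    rw [Nat.card_eq_two_iff] at hc2
    obtain ⟨a, b, hab, huniv⟩ := hc2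
    have key : ∀ u : Subgroup.center E, u = a ∨ u = b := fun u => by
      have : u ∈ ({a, b} : Set (Subgroup.center E)) := huniv.symm ▸ Set.mem_univ u
      simpa using this
    have hne : (1 : Subgroup.center E) ≠ ⟨⟨z, hzE⟩, hzm⟩ := fun h =>
      hz1 (congrArg (fun v : Subgroup.center E => (v.1 : G)) h).symm
    have hval : (⟨w, hw⟩ : Subgroup.center E) = 1 ∨
        (⟨w, hw⟩ : Subgroup.center E) = ⟨⟨z, hzE⟩, hzm⟩ := by
      rcases key ⟨w, hw⟩ with h | h <;> rcases key 1 with h1 | h1 <;>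
        rcases key ⟨⟨z, hzE⟩, hzm⟩ with h2 | h2 <;>
        first
          | exact Or.inl (h.trans h1.symm)
          | exact Or.inr (h.trans h2.symm)
          | exact absurd (h1.trans h2.symm) hne
    rcases hval with h | h
    · exact Or.inl (congrArg (fun v : Subgroup.center E => (v.1 : G)) h)
    · exact Or.inr (congrArg (fun v : Subgroup.center E => (v.1 : G)) h)
  refine ⟨hp, hzE, hz1, by rw [← pow_two, ← hz, pow_orderOf_eq_one], fun x hx h => ?_, hzc,
    fun x hx y hy => ?_, fun x hx => ?_⟩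
  · exact hcen ⟨x, hx⟩ (Subgroup.mem_center_iff.2 fun y => Subtype.ext (h y y.2).symm)
  · have hm : (⟨x, hx⟩ * ⟨y, hy⟩ * (⟨x, hx⟩)⁻¹ * (⟨y, hy⟩)⁻¹ : E) ∈ Subgroup.center E := by
      rw [← hco, commutator_def]
      exact Subgroup.commutator_mem_commutator (Subgroup.mem_top _) (Subgroup.mem_top _)
    rcases hcen _ hm with h | h <;> simp only [Subgroup.coe_mul, InvMemClass.coe_inv] at h
    · left
      rw [mul_inv_eq_one, mul_inv_eq_iff_eq_mul] at h
      exact h
    · right
      rw [mul_inv_eq_iff_eq_mul, mul_inv_eq_iff_eq_mul, mul_assoc] at h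
      exact h
  · have hm : (⟨x, hx⟩ * ⟨x, hx⟩ : E) ∈ Subgroup.center E := by
      rw [← hfr, ← QuotientGroup.eq_one_iff, QuotientGroup.mk_mul, ← pow_two]
      exact FGS3.quotient_frattini_pow hp _
    exact hcen _ hm

namespace Setting

variable {E : Subgroup G} {z : G} (S : Setting E z)
include S

/-- No abelian subgroup of index two when `E` has more than eight elements. -/
theorem card_le_eight (A : Subgroup G) (hAE : A ≤ E) (hA : ∀ x ∈ A, ∀ y ∈ A, x * y = y * x)
    (t : G) (ht : t ∈ E) (hcov : ∀ x ∈ E, x ∈ A ∨ t⁻¹ * x ∈ A) : Nat.card E ≤ 8 := by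
  obtain ⟨d₁, hd₁A, hd₁⟩ : ∃ d₁ ∈ A, ∀ d ∈ A, (d * t = t * d) ∨ ((d₁⁻¹ * d) * t = t * (d₁⁻¹ * d)) := by
    by_cases h : ∃ d₁ ∈ A, d₁ * t ≠ t * d₁
    · obtain ⟨d₁, hd₁A, hd₁⟩ := h
      refine ⟨d₁, hd₁A, fun d hd => ?_⟩
      rcases S.comm d (hAE hd) t ht with e | e
      · exact Or.inl e
      right
      have e1 := (S.comm d₁ (hAE hd₁A) t ht).resolve_left hd₁
      calc d₁⁻¹ * d * t = d₁⁻¹ * (z * (t * d)) := by rw [mul_assoc, e]
        _ = d₁⁻¹ * (z * (t * d₁)) * (d₁⁻¹ * d) := by group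
        _ = t * (d₁⁻¹ * d) := by rw [← e1]; group
    · push Not at h
      exact ⟨1, one_mem _, fun d hd => Or.inl (h d hd)⟩
  have hcent : ∀ d ∈ A, d * t = t * d → d = 1 ∨ d = z := by
    intro d hd hdt
    refine S.center d (hAE hd) fun y hy => ?_
    rcases hcov y hy with h | h
    · exact hA d hd y h
    · have e := hA d hd _ h
      calc d * y = (d * t) * (t⁻¹ * y) := by group
        _ = t * (d * (t⁻¹ * y)) := by rw [hdt]; group
        _ = y * d := by rw [e]; group
  have hform : ∀ x ∈ E, ∃ i j k : Bool, x =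
      (if i then t else 1) * ((if j then d₁ else 1) * (if k then z else 1)) := by
    intro x hx
    have hAform : ∀ d ∈ A, ∃ j k : Bool, d = (if j then d₁ else 1) * (if k then z else 1) := by
      intro d hd
      rcases hd₁ d hd with e | e
      · rcases hcent d hd e with rfl | rfl
        · exact ⟨false, false, by simp⟩
        · exact ⟨false, true, by simp⟩
      · rcases hcent _ (mul_mem (inv_mem hd₁A) hd) e with e' | e' <;>
          rw [inv_mul_eq_iff_eq_mul] at e' <;> subst e'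
        · exact ⟨true, false, by simp⟩
        · exact ⟨true, true, by simp⟩
    rcases hcov x hx with h | h
    · obtain ⟨j, k, e⟩ := hAform x h
      exact ⟨false, j, k, by simpa using e⟩
    · obtain ⟨j, k, e⟩ := hAform _ h
      refine ⟨true, j, k, ?_⟩
      rw [inv_mul_eq_iff_eq_mul] at e
      simpa using e
  choose i j k hijk using fun x : E => hform x.1 x.2
  have := Nat.card_le_card_of_injective (fun x : E => (i x, j x, k x)) fun x y h => by
    simp only [Prod.mk.injEq] at h
    refine Subtype.ext ?_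
    rw [hijk x, hijk y, h.1, h.2.1, h.2.2]
  simpa using this

end Setting

/-- The two-core lies in every normal subgroup of index two. -/
theorem main (hres : Cfsg.pResidual 2 G = ⊤) {z : G} (hz : orderOf z = 2) {E : Subgroup G}
    (hEH : E ≤ Subgroup.centralizer ({z} : Set G)) (hext : Cfsg.IsExtraspecial 2 E)
    (hcent : Subgroup.centralizer (E : Set G) ≤ E) (h8 : 8 < Nat.card E) (K : Subgroup G)
    (hKi : K.relIndex (Subgroup.centralizer ({z} : Set G)) = 2) : E ≤ K := by
  have S := setting_of_extraspecial hz hext hEH hcent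
  by_contra hEK
  set H := Subgroup.centralizer ({z} : Set G) with hH
  set K' : Subgroup H := K.subgroupOf H
  have hi : K'.index = 2 := hKi
  let lam : H →* ℤˣ :=
    MonoidHom.mk' (fun x => if x ∈ K' then 1 else -1) (fun x y => by
      by_cases hx : x ∈ K' <;> by_cases hy : y ∈ K' <;>
        simp [Subgroup.mul_mem_iff_of_index_two hi, hx, hy])
  have hlam : ∀ x : H, lam x = 1 ↔ x ∈ K' := fun x => by
    by_cases hx : x ∈ K' <;> simp [lam, hx]
  -- an involution of `E` outside `K`
  obtain ⟨e, heE, heK, hee⟩ : ∃ e ∈ E, e ∉ K ∧ e * e = 1 := by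
    by_contra hcon
    push Not at hcon
    obtain ⟨t, htE, htK⟩ := SetLike.not_le_iff_exists.1 hEK
    have hmul : ∀ a ∈ E, ∀ b ∈ E, (a * b ∈ K ↔ (a ∈ K ↔ b ∈ K)) := fun a ha b hb =>
      Subgroup.mul_mem_iff_of_index_two hi (a := ⟨a, hEH ha⟩) (b := ⟨b, hEH hb⟩)
    have hout : ∀ x ∈ E, x ∉ K → x * x = z := fun x hx hxK =>
      (S.sq x hx).resolve_left (hcon x hx hxK)
    have hinv : ∀ l ∈ E ⊓ K, t⁻¹ * l * t = l⁻¹ := by
      intro l hl
      have htl : t * l ∉ K := fun h => htK (((hmul t htE l hl.1).1 h).2 hl.2)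
      have e1 := hout (t * l) (mul_mem htE hl.1) htl
      have e2 := hout t htE htK
      calc t⁻¹ * l * t = (t * t)⁻¹ * ((t * l) * (t * l)) * l⁻¹ := by group
        _ = l⁻¹ := by rw [e1, e2, inv_mul_cancel, one_mul]
    have hle := S.card_le_eight (E ⊓ K) inf_le_left (fun a ha b hb => by
      have e1 := hinv _ (mul_mem ha hb)
      rw [show t⁻¹ * (a * b) * t = (t⁻¹ * a * t) * (t⁻¹ * b * t) by group, hinv a ha, hinv b hb,
        mul_inv_rev] at e1
      have := congrArg (·⁻¹) e1
      simp only [mul_inv_rev, inv_inv] at this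
      exact this.symm) t htE (fun x hx => by
        by_cases hxK : x ∈ K
        · exact Or.inl ⟨hx, hxK⟩
        · refine Or.inr (Subgroup.mem_inf.2
            ⟨E.mul_mem (E.inv_mem htE) hx, (hmul _ (E.inv_mem htE) x hx).2 ?_⟩)
          simp [htK, hxK, inv_mem_iff])
    omega
  have he1 : e ≠ 1 := fun h => heK (h ▸ one_mem _)
  have hez : e ≠ z := by
    rintro rfl
    -- `z` is central, so it is a commutator or a square
    obtain ⟨x, hx, y, hy, hxy⟩ : ∃ x ∈ E, ∃ y ∈ E, x * y = e * (y * x) := by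
      by_contra hno
      push Not at hno
      have hab : ∀ x ∈ E, ∀ y ∈ E, x * y = y * x := fun x hx y hy =>
        (S.comm x hx y hy).resolve_right (hno x hx y hy)
      have := S.card_le_eight E le_rfl hab 1 (one_mem _) (fun x hx => Or.inl hx)
      omega
    apply heK
    have h := (hlam _).1 (hom_comm_eq_one lam ⟨x, hEH hx⟩ ⟨y, hEH hy⟩)
    have hm : ((⟨x, hEH hx⟩ * ⟨y, hEH hy⟩ * (⟨x, hEH hx⟩)⁻¹ * (⟨y, hEH hy⟩)⁻¹ : H) : G) ∈ K := h
    simp only [Subgroup.coe_mul, InvMemClass.coe_inv] at hm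
    rw [hxy] at hm
    simpa [mul_assoc] using hm
  -- the centraliser of `e` in `E`
  set D : Subgroup G := E ⊓ Subgroup.centralizer ({e} : Set G) with hD
  have hmemD : ∀ x, x ∈ D ↔ x ∈ E ∧ e * x = x * e := fun x => by
    simp [hD, Subgroup.mem_centralizer_iff]
  obtain ⟨t, htE, hte⟩ : ∃ t ∈ E, e * t ≠ t * e := by
    by_contra hcon
    push Not at hcon
    rcases S.center e heE hcon with h | h
    · exact he1 h
    · exact hez h
  have htz : e * t = z * (t * e) := (S.comm e heE t htE).resolve_left hte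
  have hconj : t⁻¹ * e * t = e * z := by
    rw [mul_assoc, htz, ← mul_assoc z, S.central t htE, ← S.central e heE]
    group
  obtain ⟨d₁, hd₁, d₂, hd₂, hd12⟩ : ∃ a ∈ D, ∃ b ∈ D, a * b = z * (b * a) := by
    by_contra hno
    push Not at hno
    have := S.card_le_eight D inf_le_left (fun a ha b hb =>
      (S.comm a ((hmemD a).1 ha).1 b ((hmemD b).1 hb).1).resolve_right (hno a ha b hb)) t htE
      (fun x hx => by
        rcases S.comm e heE x hx with h | h
        · exact Or.inl ((hmemD x).2 ⟨hx, h⟩)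
        · refine Or.inr ((hmemD _).2 ⟨mul_mem (inv_mem htE) hx, ?_⟩)
          calc e * (t⁻¹ * x) = t⁻¹ * ((t * e) * t⁻¹ * x) := by group
            _ = t⁻¹ * (z⁻¹ * (e * t) * t⁻¹ * x) := by rw [htz]; group
            _ = t⁻¹ * (z⁻¹ * (e * x)) := by group
            _ = t⁻¹ * x * e := by rw [h]; group)
    omega
  -- the transfer of `e`
  haveI : Fintype (G ⧸ H) := Fintype.ofFinite _
  let f : G ⧸ H → ℤˣ := fun c =>
    if h : c.out⁻¹ * e * c.out ∈ H then lam ⟨_, h⟩ else 1
  have hsq : ∀ a : ℤˣ, a * a = 1 := fun a => Int.units_mul_self a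
  have htr := LocalEven.transfer_sq_eq_one lam hsq hee f (fun c h => dif_pos h) (fun c h => dif_neg h)
  rw [hom_eq_one hres hsq] at htr
  let V : G → ℤˣ := fun g => if h : g⁻¹ * e * g ∈ H then lam ⟨_, h⟩ else 1
  have hVf : ∀ g : G, f (g : G ⧸ H) = V g := by
    intro g
    obtain ⟨h, hh⟩ := QuotientGroup.mk_out_eq_mul H g
    show V ((g : G ⧸ H).out) = V g
    rw [hh]
    have hiff : (g * h.1)⁻¹ * e * (g * h.1) ∈ H ↔ g⁻¹ * e * g ∈ H := by
      rw [show (g * h.1)⁻¹ * e * (g * h.1) = h.1⁻¹ * (g⁻¹ * e * g) * h.1 by group,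
        Subgroup.mul_mem_cancel_right _ h.2, Subgroup.mul_mem_cancel_left _ (inv_mem h.2)]
    by_cases hm : g⁻¹ * e * g ∈ H
    · simp only [V, dif_pos hm, dif_pos (hiff.2 hm)]
      rw [show (⟨_, hiff.2 hm⟩ : H) = h⁻¹ * ⟨_, hm⟩ * h from Subtype.ext (by simp [mul_assoc]),
        map_mul, map_mul, map_inv, mul_comm, mul_inv_cancel_left]
    · simp only [V, dif_neg hm, dif_neg (mt hiff.1 hm)]
  let B : Set (G ⧸ H) := {c | f c = -1}
  have hprod : Even (Nat.card B) := by
    have : ∏ c : G ⧸ H, f c = (-1) ^ (Finset.univ.filter fun c => f c = -1).card := by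
      rw [← Finset.prod_filter_mul_prod_filter_not Finset.univ (fun c => f c = -1),
        Finset.prod_eq_one (s := Finset.univ.filter fun c => ¬ f c = -1)
          (fun c hc => (Int.units_eq_one_or (f c)).resolve_right (Finset.mem_filter.1 hc).2),
        mul_one, Finset.prod_congr rfl (fun c hc => (Finset.mem_filter.1 hc).2), Finset.prod_const]
    rw [this] at htr
    rw [Nat.card_eq_fintype_card, Fintype.card_subtype]
    rcases Nat.even_or_odd (Finset.univ.filter fun c => f c = -1).card with he | ho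
    · exact he
    · rw [ho.neg_one_pow] at htr; exact absurd htr (by decide)
  -- `D` preserves `f`
  have hDf : ∀ (d : D) (c : G ⧸ H), f ((d : G) • c) = f c := by
    intro d c
    obtain ⟨g, rfl⟩ := QuotientGroup.mk_surjective c
    rw [MulAction.Quotient.smul_coe, smul_eq_mul, hVf, hVf]
    have : ((d : G) * g)⁻¹ * e * (d * g) = g⁻¹ * e * g := by
      rw [show ((d : G) * g)⁻¹ * e * (d * g) = g⁻¹ * ((d : G)⁻¹ * (e * d)) * g by group,
        ((hmemD _).1 d.2).2, inv_mul_cancel_left]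
    simp only [V, this]
  let B1 : Set (G ⧸ H) := {c | f c = -1 ∧ ∀ d ∈ D, d • c = c}
  letI : MulAction D B :=
    { smul := fun d c => ⟨(d : G) • c.1, (hDf d c.1).trans c.2⟩
      one_smul := fun c => Subtype.ext (one_smul G c.1)
      mul_smul := fun a b c => Subtype.ext (mul_smul (a : G) (b : G) c.1) }
  haveI : Fact (Nat.Prime 2) := ⟨Nat.prime_two⟩
  have hDp : IsPGroup 2 D := S.two.to_le inf_le_left
  have hmod1 := hDp.card_modEq_card_fixedPoints B
  have hfix1 : Nat.card (MulAction.fixedPoints D B) = Nat.card B1 :=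
    Nat.card_congr
      { toFun := fun c => ⟨c.1.1, c.1.2, fun d hd => congrArg Subtype.val (c.2 ⟨d, hd⟩)⟩
        invFun := fun c => ⟨⟨c.1, c.2.1⟩, fun d => Subtype.ext (c.2.2 d.1 d.2)⟩
        left_inv := fun c => rfl
        right_inv := fun c => rfl }
  have hEf : ∀ (x : E) (c : G ⧸ H), c ∈ B1 → (x : G) • c ∈ B1 := by
    intro x c hc
    obtain ⟨g, rfl⟩ := QuotientGroup.mk_surjective c
    have hdH : ∀ d ∈ D, g⁻¹ * d * g ∈ H := fun d hd => by
      have := hc.2 d hd
      rw [MulAction.Quotient.smul_coe, smul_eq_mul, QuotientGroup.eq] at this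
      have h2 := inv_mem this
      rwa [mul_inv_rev, inv_inv, ← mul_assoc] at h2
    have hzK : ∃ h : g⁻¹ * z * g ∈ H, lam ⟨_, h⟩ = 1 := by
      have hzH : g⁻¹ * z * g ∈ H := by
        have := hdH (d₁ * d₂ * d₁⁻¹ * d₂⁻¹) (mul_mem (mul_mem (mul_mem hd₁ hd₂) (inv_mem hd₁)) (inv_mem hd₂))
        rwa [show d₁ * d₂ * d₁⁻¹ * d₂⁻¹ = z by rw [hd12]; group] at this
      refine ⟨hzH, ?_⟩
      · have heq : (⟨g⁻¹ * z * g, hzH⟩ : H) = ⟨_, hdH _ hd₁⟩ * ⟨_, hdH _ hd₂⟩ *
            (⟨_, hdH _ hd₁⟩)⁻¹ * (⟨_, hdH _ hd₂⟩)⁻¹ := Subtype.ext (by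
          simp only [Subgroup.coe_mul, InvMemClass.coe_inv]
          rw [show z = d₁ * d₂ * d₁⁻¹ * d₂⁻¹ by rw [hd12]; group]
          group)
        rw [heq]
        exact hom_comm_eq_one lam _ _
    refine ⟨?_, fun d hd => ?_⟩
    · rcases (S.comm e heE x x.2) with hx | hx
      · rw [hDf ⟨x, (hmemD _).2 ⟨x.2, hx⟩⟩]; exact hc.1
      · have he' : g⁻¹ * e * g ∈ H := hdH e ((hmemD e).2 ⟨heE, rfl⟩)
        obtain ⟨hz', hz''⟩ := hzK
        rw [MulAction.Quotient.smul_coe, smul_eq_mul, hVf]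
        have heq : ((x : G) * g)⁻¹ * e * (x * g) = (g⁻¹ * z * g) * (g⁻¹ * e * g) := by
          rw [show ((x : G) * g)⁻¹ * e * (x * g) = g⁻¹ * ((x : G)⁻¹ * (e * x)) * g by group, hx,
            ← mul_assoc z, S.central x x.2]
          group
        have hm : ((x : G) * g)⁻¹ * e * (x * g) ∈ H := heq ▸ mul_mem hz' he'
        have h1 := hc.1
        rw [hVf] at h1
        simp only [V, dif_pos he'] at h1
        simp only [V, dif_pos hm]
        rw [show (⟨_, hm⟩ : H) = ⟨_, hz'⟩ * ⟨_, he'⟩ from Subtype.ext heq, map_mul, hz'', h1,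
          one_mul]
    · -- `D` is normal in `E`
      have hd' : (x : G)⁻¹ * d * x ∈ D := by
        obtain ⟨hdE, hde⟩ := (hmemD d).1 hd
        refine (hmemD _).2 ⟨mul_mem (mul_mem (inv_mem x.2) hdE) x.2, ?_⟩
        rcases S.comm d hdE x x.2 with h | h <;>
          rw [mul_assoc, h]
        · rw [inv_mul_cancel_left, hde]
        · rw [← mul_assoc z, S.central x x.2, mul_assoc, inv_mul_cancel_left, ← mul_assoc,
            ← S.central e heE, mul_assoc, hde, mul_assoc]
      have := hc.2 _ hd'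
      calc d • (x : G) • (g : G ⧸ H) = (x : G) • (((x : G)⁻¹ * d * x) • (g : G ⧸ H)) := by
            simp only [smul_smul]; congr 1; group
        _ = _ := by rw [this]
  letI : MulAction E B1 :=
    { smul := fun x c => ⟨(x : G) • c.1, hEf x c.1 c.2⟩
      one_smul := fun c => Subtype.ext (one_smul G c.1)
      mul_smul := fun a b c => Subtype.ext (mul_smul (a : G) (b : G) c.1) }
  have hmod2 := S.two.card_modEq_card_fixedPoints B1
  have hone : ((1 : G) : G ⧸ H) ∈ B1 := by
    refine ⟨?_, fun d hd => ?_⟩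
    · have he' : (1 : G)⁻¹ * e * 1 ∈ H := by simpa using hEH heE
      rw [hVf]
      simp only [V, dif_pos he']
      refine (Int.units_eq_one_or _).resolve_left fun h => heK ?_
      have h2 := (hlam _).1 h
      simpa [Subgroup.mem_subgroupOf, K'] using h2
    · rw [MulAction.Quotient.smul_coe, smul_eq_mul, QuotientGroup.eq]
      simpa using hEH ((hmemD d).1 hd).1
  have huniq : Nat.card (MulAction.fixedPoints E B1) = 1 := by
    rw [Nat.card_eq_one_iff_exists]
    refine ⟨⟨⟨_, hone⟩, fun x => Subtype.ext ?_⟩, fun c => ?_⟩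
    · show (x : G) • ((1 : G) : G ⧸ H) = _
      rw [MulAction.Quotient.smul_coe, smul_eq_mul, mul_one, QuotientGroup.eq, mul_one]
      exact inv_mem (hEH x.2)
    · obtain ⟨⟨c, hc⟩, hcf⟩ := c
      obtain ⟨g, rfl⟩ := QuotientGroup.mk_surjective c
      refine Subtype.ext (Subtype.ext (QuotientGroup.eq.2 ?_))
      have hin : g * z * g⁻¹ ∈ E := by
        refine hcent (Subgroup.mem_centralizer_iff.2 fun x hx => ?_)
        have h1 : ((x : G) • (g : G ⧸ H)) = g := congrArg Subtype.val (hcf ⟨x, hx⟩)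
        rw [MulAction.Quotient.smul_coe, smul_eq_mul, QuotientGroup.eq,
          Subgroup.mem_centralizer_iff] at h1
        have h2 := h1 z rfl
        calc x * (g * z * g⁻¹) = x * g * (z * ((x * g)⁻¹ * g)) * ((x * g)⁻¹ * g)⁻¹ * g⁻¹ := by group
          _ = x * g * (((x * g)⁻¹ * g) * z) * ((x * g)⁻¹ * g)⁻¹ * g⁻¹ := by rw [h2]
          _ = g * z * g⁻¹ * x := by group
      have hzg : g * z * g⁻¹ = 1 ∨ g * z * g⁻¹ = z := by
        refine S.center _ hin fun x hx => ?_
        have h1 : ((x : G) • (g : G ⧸ H)) = g := congrArg Subtype.val (hcf ⟨x, hx⟩)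
        rw [MulAction.Quotient.smul_coe, smul_eq_mul, QuotientGroup.eq,
          Subgroup.mem_centralizer_iff] at h1
        have h2 := h1 z rfl
        calc g * z * g⁻¹ * x = x * g * (((x * g)⁻¹ * g) * z) * ((x * g)⁻¹ * g)⁻¹ * g⁻¹ := by group
          _ = x * g * (z * ((x * g)⁻¹ * g)) * ((x * g)⁻¹ * g)⁻¹ * g⁻¹ := by rw [h2]
          _ = x * (g * z * g⁻¹) := by group
      rcases hzg with h | h
      · exact absurd (conj_eq_one_iff.1 h) S.z1
      · rw [mul_one, Subgroup.mem_centralizer_iff]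
        intro y hy
        rw [Set.mem_singleton_iff] at hy
        subst hy
        show y * g⁻¹ = g⁻¹ * y
        calc y * g⁻¹ = g⁻¹ * (g * y * g⁻¹) := by group
          _ = g⁻¹ * y := by rw [h]
  rw [hfix1] at hmod1
  rw [huniq] at hmod2
  have h3 : Nat.card B % 2 = 1 := by
    have := hmod1.trans hmod2
    exact this
  obtain ⟨r, hr⟩ := hprod
  omega

end Cfsg.Agent.Screen.ExtraIndexTwo
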