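import Cfsg.Agent.Screen.ExtraAbelianization
import Cfsg.Agent.S5395

/-!
An involution with extraspecial two-core of width at least three, whose centraliser has a subgroup
of index two, is fused inside the two-core.
-/

set_option autoImplicit false
set_option linter.unusedSectionVars false
set_option linter.style.haveILetI false

namespace Cfsg.Agent.Screen.ExtraFusion

open MulAction ExtraIndexTwo ExtraAbelianization
open scoped Classical

variable {G : Type*} [Group G]

/-- Zero for commuting elements, one for the others. -/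
noncomputable def eps (a b : G) : ZMod 2 := if a * b = b * a then 0 else 1

lemma eps_eq_zero {a b : G} : eps a b = 0 ↔ a * b = b * a := by
  unfold eps; split <;> simp_all

lemma eps_comm (a b : G) : eps a b = eps b a := by
  unfold eps
  simp only [eq_comm (a := a * b)]

lemma eps_eq_one {a b : G} (h : a * b ≠ b * a) : eps a b = 1 := if_neg h

lemma eps_conj (w a b : G) : eps (w⁻¹ * a * w) (w⁻¹ * b * w) = eps a b := by
  have : (w⁻¹ * a * w * (w⁻¹ * b * w) = w⁻¹ * b * w * (w⁻¹ * a * w)) ↔ a * b = b * a := by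
    rw [← conj_mul', ← conj_mul']
    exact ⟨fun h => mul_left_cancel (mul_right_cancel h), fun h => by rw [h]⟩
  unfold eps
  simp only [this]

lemma two_cases : ∀ a : ZMod 2, a = 0 ∨ a = 1 := by decide

/-- A sum over a set on which two commuting involutions act, four points at a time. -/
lemma sum_four {α : Type*} [DecidableEq α] (O : Finset α) (f : α → ZMod 2) (a b : α → α)
    (ha : ∀ c ∈ O, a c ∈ O) (hb : ∀ c ∈ O, b c ∈ O)
    (haa : ∀ c ∈ O, a (a c) = c) (hbb : ∀ c ∈ O, b (b c) = c) (hab : ∀ c ∈ O, a (b c) = b (a c))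
    (h4 : ∀ c ∈ O, ∑ d ∈ ({c, a c, b c, a (b c)} : Finset α), f d = 0) :
    ∑ c ∈ O, f c = 0 := by
  let K : α → Finset α := fun c => {c, a c, b c, a (b c)}
  rw [← Finset.sum_fiberwise_of_maps_to (g := K) (t := O.image K)
    (fun c hc => Finset.mem_image_of_mem _ hc)]
  refine Finset.sum_eq_zero fun o ho => ?_
  obtain ⟨c, hc, rfl⟩ := Finset.mem_image.1 ho
  have hfib : O.filter (fun d => K d = K c) = K c := by
    ext d
    rw [Finset.mem_filter]
    refine ⟨fun h => h.2 ▸ Finset.mem_insert_self _ _, fun h => ?_⟩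
    simp only [K, Finset.mem_insert, Finset.mem_singleton] at h
    have h1 := ha c hc
    have h2 := hb c hc
    rcases h with rfl | rfl | rfl | rfl
    · exact ⟨hc, rfl⟩
    · refine ⟨h1, ?_⟩
      simp only [K, haa c hc, ← hab c hc, haa (b c) h2]
      ext; simp only [Finset.mem_insert, Finset.mem_singleton]; tauto
    · refine ⟨h2, ?_⟩
      simp only [K, hbb c hc]
      ext; simp only [Finset.mem_insert, Finset.mem_singleton]; tauto
    · refine ⟨ha _ h2, ?_⟩
      simp only [K, hab c hc, hab (a c) h1, hbb (a c) h1, haa c hc]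
      ext; simp only [Finset.mem_insert, Finset.mem_singleton]; tauto
  rw [hfib]
  exact h4 c hc

variable [Finite G]

section
variable {E : Subgroup G} {z : G} (S : Setting E z)
include S

lemma eps_mul {a b c : G} (ha : a ∈ E) (hb : b ∈ E) (hc : c ∈ E) :
    eps a (b * c) = eps a b + eps a c := by
  have hz1 : ∀ y ∈ E, y * (z * y) = (z * y) * y := fun y hy => by
    rw [← mul_assoc, ← S.central y hy]
  have hne : ∀ u v : G, u ∈ E → v ∈ E → u * v = z * (v * u) → ¬ u * v = v * u := by
    intro u v hu hv h h'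
    rw [h'] at h
    exact S.z1 (right_eq_mul.1 h)
  rcases S.comm a ha b hb with h1 | h1 <;> rcases S.comm a ha c hc with h2 | h2
  · have h : a * (b * c) = b * c * a := by rw [← mul_assoc, h1, mul_assoc, h2, ← mul_assoc]
    rw [eps_eq_zero.2 h1, eps_eq_zero.2 h2, eps_eq_zero.2 h, add_zero]
  · have h : a * (b * c) = z * (b * c * a) := by
      rw [← mul_assoc, h1, mul_assoc, h2, ← mul_assoc b z, ← S.central b hb, mul_assoc, mul_assoc]
    rw [eps_eq_zero.2 h1, eps_eq_one (hne _ _ ha hc h2), eps_eq_one (hne _ _ ha (mul_mem hb hc) h),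
      zero_add]
  · have h : a * (b * c) = z * (b * c * a) := by
      rw [← mul_assoc, h1, mul_assoc, mul_assoc, h2, ← mul_assoc b c]
    rw [eps_eq_one (hne _ _ ha hb h1), eps_eq_zero.2 h2, eps_eq_one (hne _ _ ha (mul_mem hb hc) h),
      add_zero]
  · have h : a * (b * c) = b * c * a := by
      rw [← mul_assoc, h1, mul_assoc, mul_assoc, h2, ← mul_assoc b z, ← S.central b hb, mul_assoc,
        ← mul_assoc z z, S.zz, one_mul, ← mul_assoc]
    rw [eps_eq_one (hne _ _ ha hb h1), eps_eq_one (hne _ _ ha hc h2), eps_eq_zero.2 h,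
      CharTwo.add_self_eq_zero]

lemma eps_mul_left {a b c : G} (ha : a ∈ E) (hb : b ∈ E) (hc : c ∈ E) :
    eps (a * b) c = eps a c + eps b c := by
  rw [eps_comm, eps_mul S hc ha hb, eps_comm c a, eps_comm c b]

lemma eps_z {a : G} (ha : a ∈ E) : eps a z = 0 := eps_eq_zero.2 (S.central a ha).symm

/-- Four cosets of an abelian subgroup. -/
lemma card_le_thirty_two (A : Subgroup G) (hAE : A ≤ E) (hA : ∀ x ∈ A, ∀ y ∈ A, x * y = y * x)
    (t t' : G) (ht : t ∈ E) (ht' : t' ∈ E)
    (hcov : ∀ x ∈ E, x ∈ A ∨ t⁻¹ * x ∈ A ∨ t'⁻¹ * x ∈ A ∨ (t * t')⁻¹ * x ∈ A) :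
    Nat.card E ≤ 32 := by
  have hform : ∀ x : E, ∃ ij : Bool × Bool,
      ((if ij.1 then t else 1) * (if ij.2 then t' else 1))⁻¹ * x.1 ∈ A := by
    intro x
    rcases hcov x x.2 with h | h | h | h
    · exact ⟨(false, false), by simpa using h⟩
    · exact ⟨(true, false), by simpa using h⟩
    · exact ⟨(false, true), by simpa using h⟩
    · exact ⟨(true, true), by simpa using h⟩
  choose ij hij using hform
  let a : E → G := fun x => ((if (ij x).1 then t else 1) * (if (ij x).2 then t' else 1))⁻¹ * x.1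
  let key : E → (Bool × Bool) × ZMod 2 × ZMod 2 := fun x => (ij x, eps (a x) t, eps (a x) t')
  have hfib : ∀ x y : E, key x = key y → y.1 = x.1 ∨ y.1 = x.1 * z := by
    intro x y h
    simp only [key, Prod.mk.injEq] at h
    obtain ⟨h1, h2, h3⟩ := h
    have hax : a x ∈ A := hij x
    have hay : a y ∈ A := hij y
    have hd : (a x)⁻¹ * a y ∈ A := mul_mem (inv_mem hax) hay
    have h0 : ∀ s ∈ E, eps (a x) s = eps (a y) s → eps ((a x)⁻¹ * a y) s = 0 := by
      intro s hs he
      have := eps_mul_left S (hAE hax) (hAE hd) hs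
      rw [mul_inv_cancel_left, ← he] at this
      exact left_eq_add.1 this
    have hzero : ∀ q ∈ E, eps ((a x)⁻¹ * a y) q = 0 := by
      have hAz : ∀ q ∈ A, eps ((a x)⁻¹ * a y) q = 0 := fun q hq => eps_eq_zero.2 (hA _ hd q hq)
      have htz := h0 t ht h2
      have htz' := h0 t' ht' h3
      intro q hq
      rcases hcov q hq with h | h | h | h
      · exact hAz q h
      · rw [← mul_inv_cancel_left t q, eps_mul S (hAE hd) ht (hAE h), htz, hAz _ h, add_zero]
      · rw [← mul_inv_cancel_left t' q, eps_mul S (hAE hd) ht' (hAE h), htz', hAz _ h, add_zero]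
      · rw [← mul_inv_cancel_left (t * t') q, eps_mul S (hAE hd) (mul_mem ht ht') (hAE h),
          eps_mul S (hAE hd) ht ht', htz, htz', hAz _ h]
        simp
    have e : y.1 = x.1 * ((a x)⁻¹ * a y) := by
      simp only [a, h1]; group
    rcases S.center _ (hAE hd) (fun q hq => eps_eq_zero.1 (hzero q hq)) with h | h <;> rw [h] at e
    · exact Or.inl (e.trans (mul_one _))
    · exact Or.inr e
  haveI := Fintype.ofFinite E
  have := Finset.card_le_mul_card_image (s := (Finset.univ : Finset E)) (f := key) 2 (fun k hk => by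
    obtain ⟨x, -, rfl⟩ := Finset.mem_image.1 hk
    refine (Finset.card_le_card (t := {x, x * ⟨z, S.zE⟩}) fun y hy => ?_).trans Finset.card_le_two
    rw [Finset.mem_filter] at hy
    rcases hfib x y hy.2.symm with h | h
    · simp [Subtype.ext h]
    · exact Finset.mem_insert.2 (Or.inr (Finset.mem_singleton.2 (Subtype.ext h))))
  have h2 : (Finset.univ.image key).card ≤ 16 := (Finset.card_le_univ _).trans (by simp)
  rw [Nat.card_eq_fintype_card, ← Finset.card_univ]
  omega

/-- An element acting trivially modulo the centre lies in `E`. -/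
lemma mem_of_trivial (hcent : Subgroup.centralizer (E : Set G) ≤ E)
    (hext : Cfsg.IsExtraspecial 2 E) (w : G) (hw : ∀ u ∈ E, w⁻¹ * u * w ∈ E)
    (htriv : ∀ u ∈ E, w⁻¹ * u * w = u ∨ w⁻¹ * u * w = u * z) : w ∈ E := by
  have hzc : (⟨z, S.zE⟩ : E) ∈ Subgroup.center E :=
    Subgroup.mem_center_iff.2 fun y => Subtype.ext (S.central y y.2).symm
  let θ : E →* E := MonoidHom.mk' (fun u => ⟨w⁻¹ * u * w, hw u u.2⟩)
    (fun a b => Subtype.ext (conj_mul' w a b))
  have hθ : Function.Bijective θ := Finite.injective_iff_bijective.1 fun a b h => Subtype.ext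
    (mul_left_cancel (mul_right_cancel (congrArg Subtype.val h :)))
  obtain ⟨r, hr⟩ := S5395.result hext (MulEquiv.ofBijective θ hθ) (fun u => by
    rcases htriv u u.2 with h | h
    · rw [show MulEquiv.ofBijective θ hθ u * u⁻¹ = 1 from Subtype.ext (by
        show w⁻¹ * u.1 * w * u.1⁻¹ = 1
        rw [h, mul_inv_cancel])]
      exact one_mem _
    · rw [show MulEquiv.ofBijective θ hθ u * u⁻¹ = ⟨z, S.zE⟩ from Subtype.ext (by
        show w⁻¹ * u.1 * w * u.1⁻¹ = z
        rw [h, ← S.central u u.2]; group)]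
      exact hzc)
  have hwr : w * r.1 ∈ E := hcent (Subgroup.mem_centralizer_iff.2 fun u hu => by
    have h := congrArg Subtype.val (hr ⟨u, hu⟩)
    change w⁻¹ * u * w = r.1 * u * r.1⁻¹ at h
    calc u * (w * r.1) = w * (w⁻¹ * u * w) * r.1 := by group
      _ = w * r.1 * u := by rw [h]; group)
  exact (Subgroup.mul_mem_cancel_right E r.2).1 hwr

end

set_option maxHeartbeats 2000000 in
/-- The fusion of `z` into `E`. -/
theorem main (hres : Cfsg.pResidual 2 G = ⊤) {z : G} (hz : orderOf z = 2) {E : Subgroup G}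
    (hEH : E ≤ Subgroup.centralizer ({z} : Set G))
    (hEn : ∀ h ∈ Subgroup.centralizer ({z} : Set G), ∀ e ∈ E, h⁻¹ * e * h ∈ E)
    (hext : Cfsg.IsExtraspecial 2 E) (hcent : Subgroup.centralizer (E : Set G) ≤ E)
    (h32 : 32 < Nat.card E)
    (φ : Subgroup.centralizer ({z} : Set G) →* Multiplicative (ZMod 2))
    (hsur : ∃ a, φ a = Multiplicative.ofAdd 1) :
    ∃ g : G, g * z * g⁻¹ ∈ E ∧ g * z * g⁻¹ ≠ z := by
  by_contra hno
  push Not at hno
  have S := setting_of_extraspecial hz hext hEH hcent
  revert φ hsur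
  set H := Subgroup.centralizer ({z} : Set G) with hH
  intro φ hsur
  haveI : Fact (Nat.Prime 2) := ⟨Nat.prime_two⟩
  have hzH : ∀ y ∈ H, y * z = z * y := fun y hy => (Subgroup.mem_centralizer_iff.1 hy z rfl).symm
  have hmemH : ∀ y, y * z = z * y → y ∈ H := fun y hy => by
    rw [hH, Subgroup.mem_centralizer_iff]
    rintro _ rfl
    exact hy.symm
  let par : G → ZMod 2 := fun y => if h : y ∈ H then (φ ⟨y, h⟩).toAdd else 0
  have par_mul : ∀ a ∈ H, ∀ b ∈ H, par (a * b) = par a + par b := fun a ha b hb => by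
    simp only [par, dif_pos ha, dif_pos hb, dif_pos (mul_mem ha hb)]
    rw [← toAdd_mul, ← map_mul]
    rfl
  have par_one : par 1 = 0 := by
    have := par_mul 1 (one_mem H) 1 (one_mem H)
    rw [mul_one] at this
    exact left_eq_add.1 this
  have par_inv : ∀ a ∈ H, par a⁻¹ = par a := fun a ha => by
    have := par_mul _ (inv_mem ha) a ha
    rw [inv_mul_cancel, par_one] at this
    exact CharTwo.add_eq_zero.1 this.symm
  -- a two-element of least order with odd value
  have hex : ∃ n, ∃ y ∈ H, (∃ k, orderOf y = 2 ^ k) ∧ par y = 1 ∧ orderOf y = n := by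
    obtain ⟨a, ha⟩ := hsur
    obtain ⟨k, m, hm, hkm⟩ := Nat.exists_eq_pow_mul_and_not_dvd (orderOf_pos a.1).ne' 2 (by norm_num)
    refine ⟨_, (a ^ m : H).1, (a ^ m).2, ?_, ?_, rfl⟩
    · refine ⟨k, ?_⟩
      rw [SubgroupClass.coe_pow, orderOf_pow' _ (by rintro rfl; simp at hm), hkm,
        Nat.gcd_mul_left_left, Nat.mul_div_cancel _ (Nat.pos_of_ne_zero (by rintro rfl; simp at hm))]
    · have hl : par ((a ^ m : H) : G) = (φ (a ^ m)).toAdd := dif_pos (a ^ m).2
      rw [hl, map_pow, ha, toAdd_pow, toAdd_ofAdd, nsmul_one]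
      exact (ZMod.natCast_eq_one_iff_odd).2 (Nat.odd_iff.2 (by omega))
  obtain ⟨x, hxH, ⟨kx, hkx⟩, hx1, hxn⟩ := Nat.find_spec hex
  have hmin : ∀ y ∈ H, (∃ k, orderOf y = 2 ^ k) → orderOf y < orderOf x → par y = 0 := by
    intro y hy hk hlt
    by_contra h
    exact Nat.find_min hex (hxn ▸ hlt) ⟨y, hy, hk, zmod_two_eq _ h, rfl⟩
  -- the transfer
  haveI : Fintype (G ⧸ H) := Fintype.ofFinite _
  have hchi : ∀ y, TwoGroups.Yoshida.chi φ y = Multiplicative.ofAdd (par y) := by
    intro y
    by_cases hy : y ∈ H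
    · rw [TwoGroups.Yoshida.chi_of_mem φ hy]
      simp [par, dif_pos hy]
    · rw [TwoGroups.Yoshida.chi_of_not_mem φ hy]
      simp [par, dif_neg hy]
  have htr := TwoGroups.Yoshida.transfer_eq_prod_chi φ x (fun g m hm1 hmd => by
    rw [hchi]
    by_cases hy : g⁻¹ * x ^ m * g ∈ H
    · have ho : orderOf (g⁻¹ * x ^ m * g) = orderOf (x ^ m) := by
        rw [show g⁻¹ * x ^ m * g = MulAut.conj g⁻¹ (x ^ m) by simp, MulEquiv.orderOf_eq]
      obtain ⟨j, -, hj⟩ := (Nat.dvd_prime_pow Nat.prime_two).1 (hkx ▸ orderOf_pow_dvd (x := x) m)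
      rw [hmin _ hy ⟨j, ho.trans hj⟩]
      · rfl
      · rw [ho, orderOf_pow' _ (by omega), Nat.gcd_eq_right hmd]
        exact Nat.div_lt_self (orderOf_pos x) hm1
    · rw [show par (g⁻¹ * x ^ m * g) = 0 from dif_neg hy]
      rfl)
  rw [hom_eq_one hres (fun a : Multiplicative (ZMod 2) =>
    Multiplicative.toAdd.injective (CharTwo.add_self_eq_zero _))] at htr
  simp only [hchi, ← ofAdd_sum] at htr
  let v : G ⧸ H → ZMod 2 := fun c => par (c.out⁻¹ * x * c.out)
  have hsum : ∑ c : G ⧸ H, v c = 0 := (Multiplicative.ofAdd.injective (htr.symm.trans rfl) :)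
  have hv : ∀ g : G, v (g : G ⧸ H) = par (g⁻¹ * x * g) := fun g => by
    have := TwoGroups.Yoshida.chi_coset φ x g ((g : G ⧸ H).out) (QuotientGroup.out_eq' _).symm
    rw [hchi, hchi] at this
    exact Multiplicative.ofAdd.injective this
  have hvne : ∀ g : G, v (g : G ⧸ H) ≠ 0 → g⁻¹ * x * g ∈ H := fun g hg => by
    by_contra h
    rw [hv] at hg
    exact hg (dif_neg h)
  have hzx : x⁻¹ * z * x = z := by rw [mul_assoc, ← hzH x hxH, inv_mul_cancel_left]
  have hsE : ∀ u ∈ E, s x u ∈ E := fun u hu => mul_mem (inv_mem hu) (hEn x hxH u hu)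
  have hsz : ∀ u ∈ E, s x (z * u) = s x u := fun u hu => by
    have h1 : s x z = 1 := by rw [s, hzx, inv_mul_cancel]
    rw [s_mul, h1]
    group
  -- each orbit of `E` other than the trivial one has even sum
  have key : ∀ c : G ⧸ H, c ≠ ((1 : G) : G ⧸ H) →
      ∑ c' ∈ Finset.univ.filter (fun c' => c' ∈ orbit E c), v c' = 0 := by
    intro c hc1
    set O := Finset.univ.filter (fun c' => c' ∈ orbit E c) with hO
    by_cases hall : ∀ c' ∈ O, v c' = 0
    · exact Finset.sum_eq_zero hall
    push Not at hall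
    obtain ⟨c₀, hc₀, hne₀⟩ := hall
    obtain ⟨g, rfl⟩ := QuotientGroup.mk_surjective c₀
    have hxg : g⁻¹ * x * g ∈ H := hvne g hne₀
    have horb : orbit E c = orbit E (g : G ⧸ H) :=
      (orbit_eq_iff.2 (Finset.mem_filter.1 hc₀).2).symm
    have hmemO : ∀ c', c' ∈ O ↔ ∃ e ∈ E, c' = ((e * g : G) : G ⧸ H) := by
      intro c'
      rw [hO, Finset.mem_filter, horb]
      constructor
      · rintro ⟨-, ⟨e, he⟩, rfl⟩; exact ⟨e, he, rfl⟩
      · rintro ⟨e, he, rfl⟩; exact ⟨Finset.mem_univ _, ⟨e, he⟩, rfl⟩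
    have hg1 : g ∉ H := by
      intro hg
      apply hc1
      have : c ∈ orbit E (g : G ⧸ H) := horb ▸ mem_orbit_self c
      obtain ⟨⟨e, he⟩, rfl⟩ := this
      exact (QuotientGroup.eq.2 (by simpa using mul_mem (hEH he) hg)).symm
    let D : Subgroup G :=
      { carrier := {d | d ∈ E ∧ g⁻¹ * d * g ∈ H}
        mul_mem' := fun {a b} ha hb => ⟨mul_mem ha.1 hb.1, by
          rw [show g⁻¹ * (a * b) * g = (g⁻¹ * a * g) * (g⁻¹ * b * g) by group]
          exact mul_mem ha.2 hb.2⟩
        one_mem' := ⟨one_mem _, by simp⟩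
        inv_mem' := fun {a} ha => ⟨inv_mem ha.1, by
          rw [show g⁻¹ * a⁻¹ * g = (g⁻¹ * a * g)⁻¹ by group]; exact inv_mem ha.2⟩ }
    let p : G → ZMod 2 := fun d => par (g⁻¹ * d * g)
    have hpmul : ∀ a ∈ D, ∀ b ∈ D, p (a * b) = p a + p b := fun a ha b hb => by
      simp only [p]
      rw [show g⁻¹ * (a * b) * g = (g⁻¹ * a * g) * (g⁻¹ * b * g) by group, par_mul _ ha.2 _ hb.2]
    have hp1 : p 1 = 0 := by simp only [p, mul_one, inv_mul_cancel]; exact par_one
    have hpinv : ∀ a ∈ D, p a⁻¹ = p a := fun a ha => by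
      simp only [p]
      rw [show g⁻¹ * a⁻¹ * g = (g⁻¹ * a * g)⁻¹ by group, par_inv _ ha.2]
    have hfixiff : ∀ e ∈ E, (x • ((e * g : G) : G ⧸ H) = ((e * g : G) : G ⧸ H)) ↔ s x e ∈ D := by
      intro e he
      rw [TwoGroups.Yoshida.smul_eq_self_iff,
        show (e * g)⁻¹ * x * (e * g) = (g⁻¹ * x * g) * (g⁻¹ * s x e * g)⁻¹ by simp only [s]; group,
        Subgroup.mul_mem_cancel_left _ hxg, inv_mem_iff]
      exact ⟨fun h => ⟨hsE e he, h⟩, fun h => h.2⟩
    have hval : ∀ e ∈ E, (s x e ∈ D → v ((e * g : G) : G ⧸ H) = p x + p (s x e)) ∧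
        (s x e ∉ D → v ((e * g : G) : G ⧸ H) = 0) := by
      intro e he
      have eq1 : (e * g)⁻¹ * x * (e * g) = (g⁻¹ * x * g) * (g⁻¹ * s x e * g)⁻¹ := by
        simp only [s]; group
      refine ⟨fun hs => ?_, fun hs => ?_⟩
      · rw [hv, eq1, par_mul _ hxg _ (inv_mem hs.2), par_inv _ hs.2]
      · by_contra h
        refine hs ⟨hsE e he, ?_⟩
        have := hvne _ h
        rw [eq1] at this
        exact inv_mem_iff.1 ((Subgroup.mul_mem_cancel_left _ hxg).1 this)
    have hcos : ∀ e ∈ E, ∀ y ∈ E, (((e * y * g : G) : G ⧸ H) = ((e * g : G) : G ⧸ H) ↔ y ∈ D) := by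
      intro e _ y hy
      rw [eq_comm, QuotientGroup.eq, show (e * g)⁻¹ * (e * y * g) = g⁻¹ * y * g by group]
      exact ⟨fun h => ⟨hy, h⟩, fun h => h.2⟩
    by_cases hzD : z ∈ D
    case neg =>
      -- `z` pairs the fixed points
      refine Finset.sum_involution (fun c' _ => z • c') ?_ ?_ ?_ ?_
      · intro c' hc'
        obtain ⟨e, he, rfl⟩ := (hmemO c').1 hc'
        rw [MulAction.Quotient.smul_coe, smul_eq_mul, ← mul_assoc z e g]
        have hze := mul_mem S.zE he
        by_cases hs : s x e ∈ D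
        · rw [(hval _ hze).1 (by rwa [hsz e he]), (hval e he).1 hs, hsz e he,
            CharTwo.add_self_eq_zero]
        · rw [(hval _ hze).2 (by rwa [hsz e he]), (hval e he).2 hs, add_zero]
      · intro c' hc' _ hcc
        obtain ⟨e, he, rfl⟩ := (hmemO c').1 hc'
        rw [MulAction.Quotient.smul_coe, smul_eq_mul, ← mul_assoc z e g, S.central e he] at hcc
        exact hzD ((hcos e he z S.zE).1 hcc)
      · intro c' hc'
        obtain ⟨e, he, rfl⟩ := (hmemO c').1 hc'
        exact (hmemO _).2 ⟨z * e, mul_mem S.zE he, by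
          rw [MulAction.Quotient.smul_coe, smul_eq_mul, mul_assoc]⟩
      · intro c' _
        rw [← mul_smul, S.zz, one_smul]
    -- the conjugate `w` of `z` attached to the orbit
    set w := g * z * g⁻¹ with hw
    have hwH : w ∈ H := by
      refine hmemH _ ?_
      have h2 := hzH _ hzD.2
      calc g * z * g⁻¹ * z = g * (z * (g⁻¹ * z * g)) * g⁻¹ := by group
        _ = g * ((g⁻¹ * z * g) * z) * g⁻¹ := by rw [h2]
        _ = z * (g * z * g⁻¹) := by group
    have hwD : ∀ a ∈ D, w⁻¹ * a * w = a := fun a ha => by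
      have h2 := hzH _ ha.2
      calc (g * z * g⁻¹)⁻¹ * a * (g * z * g⁻¹) = g * (z⁻¹ * ((g⁻¹ * a * g) * z)) * g⁻¹ := by group
        _ = g * (z⁻¹ * (z * (g⁻¹ * a * g))) * g⁻¹ := by rw [h2]
        _ = a := by group
    have hwE : w ∉ E := fun h => hg1 (hmemH _ (by
      have h1 := hno g h
      calc g * z = (g * z * g⁻¹) * g := by group
        _ = z * g := by rw [h1]))
    have hww : w * w = 1 := by
      rw [hw, show g * z * g⁻¹ * (g * z * g⁻¹) = g * (z * z) * g⁻¹ by group, S.zz, mul_one,
        mul_inv_cancel]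
    have hDn : ∀ a ∈ D, ∀ u ∈ E, u⁻¹ * a * u ∈ D ∧ p (u⁻¹ * a * u) = p a + p z * eps a u := by
      intro a ha u hu
      rcases S.comm a ha.1 u hu with h | h
      · rw [mul_assoc, h, inv_mul_cancel_left, eps_eq_zero.2 h, mul_zero, add_zero]
        exact ⟨ha, rfl⟩
      · have e : u⁻¹ * a * u = z * a := by
          rw [mul_assoc, h, ← mul_assoc z, S.central u hu, mul_assoc, inv_mul_cancel_left]
        rw [e]
        refine ⟨mul_mem hzD ha, ?_⟩
        rw [hpmul z hzD a ha, eps_eq_one (fun h' => S.z1 (right_eq_mul.1 (h'.symm.trans h))),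
          mul_one, add_comm]
    let F : Subgroup G :=
      { carrier := {u | u ∈ E ∧ s x u ∈ D}
        mul_mem' := fun {a b} ha hb => ⟨mul_mem ha.1 hb.1, by
          rw [s_mul]; exact mul_mem (hDn _ ha.2 b hb.1).1 hb.2⟩
        one_mem' := ⟨one_mem _, by simp [s]⟩
        inv_mem' := fun {a} ha => ⟨inv_mem ha.1, by
          have h1 := (hDn _ (inv_mem ha.2) a⁻¹ (inv_mem ha.1)).1
          rwa [show a⁻¹⁻¹ * (s x a)⁻¹ * a⁻¹ = s x a⁻¹ by simp only [s]; group] at h1⟩ }
    have hpsi : ∀ a ∈ F, ∀ b ∈ F,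
        p (s x (a * b)) = p (s x a) + p (s x b) + p z * eps (s x a) b := fun a ha b hb => by
      rw [s_mul, hpmul _ (hDn _ ha.2 b hb.1).1 _ hb.2, (hDn _ ha.2 b hb.1).2]
      ring
    have hDx : ∀ d ∈ D, x⁻¹ * d * x ∈ D ∧ p (x⁻¹ * d * x) = p d := fun d hd => by
      have e : g⁻¹ * (x⁻¹ * d * x) * g = (g⁻¹ * x * g)⁻¹ * (g⁻¹ * d * g) * (g⁻¹ * x * g) := by group
      refine ⟨⟨hEn x hxH d hd.1, e ▸ mul_mem (mul_mem (inv_mem hxg) hd.2) hxg⟩, ?_⟩
      simp only [p]
      rw [e, par_mul _ (mul_mem (inv_mem hxg) hd.2) _ hxg, par_mul _ (inv_mem hxg) _ hd.2,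
        par_inv _ hxg, add_comm (par (g⁻¹ * x * g)), add_assoc, CharTwo.add_self_eq_zero, add_zero]
    have hsD : ∀ a ∈ D, s x a ∈ D ∧ p (s x a) = 0 := fun a ha => by
      refine ⟨mul_mem (inv_mem ha) (hDx a ha).1, ?_⟩
      rw [s, hpmul _ (inv_mem ha) _ (hDx a ha).1, (hDx a ha).2, hpinv a ha, CharTwo.add_self_eq_zero]
    have hDF : ∀ a ∈ D, a ∈ F := fun a ha => ⟨ha.1, (hsD a ha).1⟩
    -- `D` is the centraliser of `w`, and never has index two
    have hD_of_w : ∀ u ∈ E, w⁻¹ * u * w ∈ D → u ∈ D := fun u _ h => by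
      have h1 := hwD _ h
      rw [show w⁻¹ * (w⁻¹ * u * w) * w = (w * w)⁻¹ * u * (w * w) by group, hww, inv_one, one_mul,
        mul_one] at h1
      exact h1 ▸ h
    have hrel : ∀ u ∈ E, u⁻¹ * (w⁻¹ * u * w) ∈ E ∧
        ∀ a ∈ D, eps (u⁻¹ * (w⁻¹ * u * w)) a = 0 := by
      intro u hu
      have hwu := hEn w hwH u hu
      refine ⟨mul_mem (inv_mem hu) hwu, fun a ha => ?_⟩
      have h1 : eps (w⁻¹ * u * w) a = eps u a := by
        conv_lhs => rw [← hwD a ha]
        exact eps_conj w u a
      have h2 := eps_mul_left S hu (mul_mem (inv_mem hu) hwu) ha.1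
      rw [mul_inv_cancel_left, h1] at h2
      exact left_eq_add.1 h2
    have hnot2 : ∀ t ∈ E, (∀ y ∈ E, y ∈ D ∨ t⁻¹ * y ∈ D) → False := by
      intro t ht hcov
      apply hwE
      obtain ⟨hrE, hr⟩ := hrel t ht
      set r := t⁻¹ * (w⁻¹ * t * w) with hrdef
      have htw : w⁻¹ * t * w = t * r := by rw [hrdef, mul_inv_cancel_left]
      refine mem_of_trivial S hcent hext w (fun u hu => hEn w hwH u hu) fun u hu => ?_
      by_cases htD : t ∈ D
      · left
        rcases hcov u hu with h | h
        · exact hwD u h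
        · exact hwD u (by simpa using mul_mem htD h)
      have hrD : r ∈ D := by
        refine (hcov r hrE).resolve_right fun h => htD (hD_of_w t ht ?_)
        have : w⁻¹ * t * w = (t * t) * (t⁻¹ * r) := by rw [htw]; group
        rw [this]
        rcases S.sq t ht with h' | h' <;> rw [h']
        · simpa using h
        · exact mul_mem hzD h
      have hr2 : r * r = 1 := by
        have h1 : t = t * r * r := by
          calc t = (w * w)⁻¹ * t * (w * w) := by rw [hww]; group
            _ = w⁻¹ * (w⁻¹ * t * w) * w := by group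
            _ = w⁻¹ * (t * r) * w := by rw [htw]
            _ = (w⁻¹ * t * w) * (w⁻¹ * r * w) := by group
            _ = t * r * r := by rw [htw, hwD r hrD]
        rw [mul_assoc] at h1
        exact left_eq_mul.1 h1
      have hrt : eps r t = 0 := by
        have h1 : (t * r) * (t * r) = t * t := by
          rw [← htw, ← conj_mul']
          rcases S.sq t ht with h | h <;> rw [h]
          · simp
          · exact hwD z hzD
        refine eps_eq_zero.2 ?_
        calc r * t = r * t * (r * r) := by rw [hr2, mul_one]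
          _ = t⁻¹ * ((t * r) * (t * r)) * r := by group
          _ = t * r := by rw [h1]; group
      have hrc : r = 1 ∨ r = z := S.center r hrE fun y hy => eps_eq_zero.1 (by
        rcases hcov y hy with h | h
        · exact hr y h
        · rw [← mul_inv_cancel_left t y, eps_mul S hrE ht h.1, hrt, hr _ h, add_zero])
      rcases hcov u hu with h | h
      · exact Or.inl (hwD u h)
      · have e : w⁻¹ * u * w = (t * r) * (t⁻¹ * u) := by
          rw [← htw]
          conv_lhs => rw [← mul_inv_cancel_left t u, conj_mul', hwD _ h]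
        rcases hrc with h' | h' <;> rw [e, h']
        · exact Or.inl (by group)
        · right
          rw [mul_assoc, S.central _ h.1, ← mul_assoc, mul_inv_cancel_left]
    -- parity of the number of fixed points
    have hnotone : ∃ y ∈ E, y ∉ D := by
      by_contra hcon
      push Not at hcon
      exact hnot2 1 (one_mem _) fun y hy => Or.inl (hcon y hy)
    letI : MulAction (Subgroup.zpowers x) {c' // c' ∈ O} :=
      { smul := fun t c' => ⟨(t : G) • c'.1, by
          obtain ⟨e, he, hc'⟩ := (hmemO _).1 c'.2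
          rw [hc']
          refine (hmemO _).2 ⟨(t : G) * e * (t : G)⁻¹, ?_, ?_⟩
          · have := hEn _ (inv_mem (Subgroup.zpowers_le.2 hxH t.2)) e he
            rwa [inv_inv] at this
          · have hfix : x • (g : G ⧸ H) = g := (TwoGroups.Yoshida.smul_eq_self_iff x g).2 hxg
            have ht : (t : G) • (g : G ⧸ H) = g :=
              (Subgroup.zpowers_le.2 (show x ∈ stabilizer G (g : G ⧸ H) from hfix)) t.2
            rw [← smul_eq_mul, ← smul_eq_mul, ← MulAction.Quotient.smul_coe,
              ← MulAction.Quotient.smul_coe]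
            conv_rhs => rw [← ht]
            simp only [smul_smul, smul_eq_mul]
            congr 1
            group⟩
        one_smul := fun c' => Subtype.ext (one_smul G c'.1)
        mul_smul := fun a b c' => Subtype.ext (mul_smul (a : G) (b : G) c'.1) }
    have hfixeven : 2 ∣ (O.filter fun c' => x • c' = c').card := by
      have hxp : IsPGroup 2 (Subgroup.zpowers x) :=
        IsPGroup.of_card (n := kx) (by rw [Nat.card_zpowers, hkx])
      have hcount := hxp.card_modEq_card_fixedPoints {c' // c' ∈ O}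
      have h1 : Nat.card {c' // c' ∈ O} = O.card := by simp
      have h2 : Nat.card (fixedPoints (Subgroup.zpowers x) {c' // c' ∈ O}) =
          (O.filter fun c' => x • c' = c').card := by
        rw [← Nat.card_eq_finsetCard]
        exact Nat.card_congr
          { toFun := fun c' => ⟨c'.1.1, Finset.mem_filter.2 ⟨c'.1.2,
              congrArg Subtype.val (c'.2 ⟨x, Subgroup.mem_zpowers x⟩)⟩⟩
            invFun := fun c' => ⟨⟨c'.1, (Finset.mem_filter.1 c'.2).1⟩, fun t => Subtype.ext
              ((Subgroup.zpowers_le.2 (show x ∈ stabilizer G c'.1 from (Finset.mem_filter.1 c'.2).2)) t.2)⟩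
            left_inv := fun c' => rfl
            right_inv := fun c' => rfl }
      rw [h1, h2] at hcount
      have h3 : Nat.card (orbit E c) = O.card := by
        rw [Nat.card_eq_fintype_card, hO, ← Fintype.card_subtype]
      have hd : Nat.card (orbit E c) ∣ Nat.card E := by
        rw [Nat.card_coe_set_eq, ← MulAction.index_stabilizer]
        exact Subgroup.index_dvd_card _
      obtain ⟨j, hj⟩ := S.two.exists_card_eq
      rw [hj] at hd
      obtain ⟨i, -, hi⟩ := (Nat.dvd_prime_pow Nat.prime_two).1 hd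
      have hi0 : i ≠ 0 := by
        rintro rfl
        obtain ⟨y, hy, hyD⟩ := hnotone
        rw [pow_zero, horb, Nat.card_eq_one_iff_unique] at hi
        haveI := hi.1
        have h4 : ((y * g : G) : G ⧸ H) = ((1 * g : G) : G ⧸ H) := by
          rw [one_mul]
          exact congrArg Subtype.val (Subsingleton.elim
            (⟨_, mem_orbit (g : G ⧸ H) (⟨y, hy⟩ : E)⟩ : orbit E (g : G ⧸ H)) ⟨_, mem_orbit_self _⟩)
        refine hyD ((hcos 1 (one_mem _) y hy).1 ?_)
        rwa [one_mul]
      have h5 : 2 ∣ O.card := by rw [← h3, hi]; exact dvd_pow_self 2 hi0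
      unfold Nat.ModEq at hcount
      omega
    have hmv : ∀ u ∈ E, ∀ e ∈ E, u • ((e * g : G) : G ⧸ H) = ((e * u * g : G) : G ⧸ H) := by
      intro u hu e he
      rw [MulAction.Quotient.smul_coe, smul_eq_mul, ← mul_assoc u e g]
      rcases S.comm u hu e he with h | h <;> rw [h]
      have := (hcos (e * u) (mul_mem he hu) z S.zE).2 hzD
      rwa [← S.central (e * u) (mul_mem he hu)] at this
    have hFmem : ∀ e, e ∈ E → ∀ u ∈ F, (e * u ∈ F ↔ e ∈ F) := fun e _ u hu =>
      ⟨fun h => by simpa using mul_mem h (inv_mem hu), fun h => mul_mem h hu⟩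
    have hvshift : ∀ e ∈ E, ∀ u ∈ F, v ((e * u * g : G) : G ⧸ H) =
        v ((e * g : G) : G ⧸ H) + (if e ∈ F then p (s x u) + p z * eps (s x e) u else 0) := by
      intro e he u hu
      by_cases heF : e ∈ F
      · rw [if_pos heF, (hval _ (mul_mem he hu.1)).1 (mul_mem heF hu).2, (hval e he).1 heF.2,
          hpsi e heF u hu]
        ring
      · rw [if_neg heF, (hval _ (mul_mem he hu.1)).2 (fun h => heF
          ((hFmem e he u hu).1 ⟨mul_mem he hu.1, h⟩)), (hval e he).2 (fun h => heF ⟨he, h⟩), add_zero]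
    -- four cosets at a time
    have hfour : ∀ u ∈ F, ∀ u' ∈ F, u ∉ D → u' ∉ D → u * u' ∉ D → p z * eps (s x u) u' = 0 →
        ∑ c' ∈ O, v c' = 0 := by
      intro u hu u' hu' huD hu'D huu' hB
      have hinv : ∀ t ∈ E, ∀ c' ∈ O, t • t • c' = c' := by
        intro t ht c' hc'
        obtain ⟨e, he, rfl⟩ := (hmemO c').1 hc'
        rw [hmv t ht e he, hmv t ht _ (mul_mem he ht), mul_assoc e t t]
        rcases S.sq t ht with h | h <;> rw [h]
        · rw [mul_one]
        · exact (hcos e he z S.zE).2 hzD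
      have hclosed : ∀ t ∈ E, ∀ c' ∈ O, t • c' ∈ O := by
        intro t ht c' hc'
        obtain ⟨e, he, rfl⟩ := (hmemO c').1 hc'
        exact (hmemO _).2 ⟨e * t, mul_mem he ht, hmv t ht e he⟩
      have hcm : ∀ c' ∈ O, u • u' • c' = u' • u • c' := by
        intro c' hc'
        obtain ⟨e, he, rfl⟩ := (hmemO c').1 hc'
        rw [hmv u' hu'.1 e he, hmv u hu.1 _ (mul_mem he hu'.1), hmv u hu.1 e he,
          hmv u' hu'.1 _ (mul_mem he hu.1), mul_assoc e u' u, mul_assoc e u u']
        rcases S.comm u' hu'.1 u hu.1 with h | h <;> rw [h]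
        rw [S.central _ (mul_mem hu.1 hu'.1), ← mul_assoc e]
        exact (hcos (e * (u * u')) (mul_mem he (mul_mem hu.1 hu'.1)) z S.zE).2 hzD
      refine sum_four O v (fun c' => u • c') (fun c' => u' • c') (hclosed u hu.1) (hclosed u' hu'.1)
        (hinv u hu.1) (hinv u' hu'.1) hcm fun c' hc' => ?_
      obtain ⟨e, he, rfl⟩ := (hmemO c').1 hc'
      have he1 := hmv u hu.1 e he
      have he2 := hmv u' hu'.1 e he
      have he3 : u • u' • ((e * g : G) : G ⧸ H) = ((e * u' * u * g : G) : G ⧸ H) := by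
        rw [he2, hmv u hu.1 _ (mul_mem he hu'.1)]
      have hu'u : u' * u ∉ D := fun h => huu' (by
        rcases S.comm u hu.1 u' hu'.1 with h' | h' <;> rw [h']
        · exact h
        · exact mul_mem hzD h)
      have hne : ∀ a ∈ E, ∀ b ∈ E, a⁻¹ * b ∉ D →
          ((e * a * g : G) : G ⧸ H) ≠ ((e * b * g : G) : G ⧸ H) := by
        intro a ha b hb hab h
        refine hab ((hcos (e * a) (mul_mem he ha) (a⁻¹ * b) (mul_mem (inv_mem ha) hb)).1 ?_)
        rw [h, mul_assoc e a, mul_inv_cancel_left]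
      rw [he1, he2, hmv u hu.1 _ (mul_mem he hu'.1)]
      have d1 : ((e * g : G) : G ⧸ H) ≠ ((e * u * g : G) : G ⧸ H) :=
        fun h => huD ((hcos e he u hu.1).1 h.symm)
      have d2 : ((e * g : G) : G ⧸ H) ≠ ((e * u' * g : G) : G ⧸ H) :=
        fun h => hu'D ((hcos e he u' hu'.1).1 h.symm)
      have d3 : ((e * g : G) : G ⧸ H) ≠ ((e * u' * u * g : G) : G ⧸ H) := fun h => hu'u
        ((hcos e he (u' * u) (mul_mem hu'.1 hu.1)).1 (by rw [← mul_assoc e]; exact h.symm))
      have d4 : ((e * u * g : G) : G ⧸ H) ≠ ((e * u' * g : G) : G ⧸ H) := hne u hu.1 u' hu'.1 fun h => by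
        refine huu' ?_
        rw [show u * u' = (u * u) * (u⁻¹ * u') by group]
        rcases S.sq u hu.1 with h' | h' <;> rw [h']
        · simpa using h
        · exact mul_mem hzD h
      have d5 : ((e * u * g : G) : G ⧸ H) ≠ ((e * u' * u * g : G) : G ⧸ H) := by
        rw [mul_assoc e u' u]
        refine hne u hu.1 (u' * u) (mul_mem hu'.1 hu.1) fun h => hu'D ?_
        have := (hDn _ h u⁻¹ (inv_mem hu.1)).1
        rwa [show u⁻¹⁻¹ * (u⁻¹ * (u' * u)) * u⁻¹ = u' by group] at this
      have d6 : ((e * u' * g : G) : G ⧸ H) ≠ ((e * u' * u * g : G) : G ⧸ H) :=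
        fun h => huD ((hcos (e * u') (mul_mem he hu'.1) u hu.1).1 h.symm)
      rw [Finset.sum_insert (by simp [d1, d2, d3]), Finset.sum_insert (by simp [d4, d5]),
        Finset.sum_insert (by simp [d6]), Finset.sum_singleton, hvshift e he u hu,
        hvshift _ (mul_mem he hu'.1) u hu, hvshift e he u' hu']
      by_cases heF : e ∈ F
      · rw [if_pos heF, if_pos heF, if_pos (mul_mem heF hu')]
        have h1 : eps (s x (e * u')) u = eps (s x e) u + eps (s x u') u := by
          rw [s_mul, eps_mul_left S (hDn _ heF.2 u' hu'.1).1.1 hu'.2.1 hu.1]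
          congr 1
          rcases S.comm (s x e) heF.2.1 u' hu'.1 with h | h
          · rw [mul_assoc, h, inv_mul_cancel_left]
          · rw [mul_assoc, h, ← mul_assoc z, S.central u' hu'.1, mul_assoc, inv_mul_cancel_left,
              eps_mul_left S S.zE heF.2.1 hu.1, eps_comm z, eps_z S hu.1, zero_add]
        have h2 : p z * eps (s x u') u = 0 := by
          -- the two ways of evaluating `p (s (u u'))`
          have e1 := hpsi u hu u' hu'
          have e2 := hpsi u' hu' u hu
          have e3 : p (s x (u * u')) = p (s x (u' * u)) := by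
            rcases S.comm u hu.1 u' hu'.1 with h | h <;> rw [h]
            rw [hsz _ (mul_mem hu'.1 hu.1)]
          rw [e1, e2, hB] at e3
          linear_combination -e3
        rw [h1, mul_add, h2]
        have h2' : ∀ a : ZMod 2, a + a = 0 := CharTwo.add_self_eq_zero
        linear_combination h2' (v ((e * g : G) : G ⧸ H)) + h2' (v ((e * g : G) : G ⧸ H)) +
          h2' (p (s x u)) + h2' (p z * eps (s x e) u) + h2' (p (s x u') + p z * eps (s x e) u')
      · rw [if_neg heF, if_neg heF, if_neg (fun h => heF ((hFmem e he u' hu').1 h))]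
        have h2' : ∀ a : ZMod 2, a + a = 0 := CharTwo.add_self_eq_zero
        linear_combination h2' (v ((e * g : G) : G ⧸ H)) + h2' (v ((e * g : G) : G ⧸ H))
    have hord : x * x = 1 ∨ (p z = 0 ∧ ∀ a ∈ D, a * a = 1 → p a = 0) := by
      by_cases h2 : orderOf x ≤ 2
      · left
        rw [← pow_two]
        refine orderOf_dvd_iff_pow_eq_one.1 ?_
        rw [hkx] at h2 ⊢
        calc 2 ^ kx ∣ 2 ^ 1 := Nat.pow_dvd_pow _ (by
              by_contra hlt
              have := Nat.pow_le_pow_right (show 0 < 2 by norm_num) (show 2 ≤ kx by omega)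
              omega)
          _ = 2 := pow_one 2
      · right
        have hinvol : ∀ a ∈ D, a * a = 1 → p a = 0 := fun a ha h => by
          have hd : (g⁻¹ * a * g) ^ 2 = 1 := by
            rw [pow_two, ← conj_mul', h]; simp
          have hle := Nat.le_of_dvd (by norm_num) (orderOf_dvd_of_pow_eq_one hd)
          obtain ⟨j, -, hj⟩ := (Nat.dvd_prime_pow Nat.prime_two).1
            (show orderOf (g⁻¹ * a * g) ∣ 2 ^ 1 from orderOf_dvd_of_pow_eq_one hd)
          exact hmin _ ha.2 ⟨j, hj⟩ (by omega)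
        exact ⟨hinvol z hzD S.zz, hinvol⟩
    have hs_invol : x * x = 1 → ∀ q ∈ E, s x q ∈ F ∧ s x (s x q) ∈ D ∧
        (s x (s x q) = 1 ∨ s x (s x q) = z) := by
      intro hxx q hq
      have h1 : s x (s x q) = 1 ∨ s x (s x q) = z := by
        have h2 : x⁻¹ * s x q * x = (s x q)⁻¹ := by
          simp only [s]
          have hxi : x⁻¹ = x := inv_eq_of_mul_eq_one_right hxx
          calc x⁻¹ * (q⁻¹ * (x⁻¹ * q * x)) * x = x⁻¹ * q⁻¹ * x⁻¹ * q * (x * x) := by group
            _ = x * q⁻¹ * x * q := by rw [hxx, hxi, mul_one]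
            _ = (q⁻¹ * (x⁻¹ * q * x))⁻¹ := by
                simp only [mul_inv_rev, inv_inv, hxi, mul_assoc]
        have h3 : s x (s x q) = (s x q * s x q)⁻¹ := by
          rw [show s x (s x q) = (s x q)⁻¹ * (x⁻¹ * s x q * x) from rfl, h2, mul_inv_rev]
        rcases S.sq _ (hsE q hq) with h | h <;> rw [h3, h]
        · simp
        · exact Or.inr (inv_eq_of_mul_eq_one_right S.zz)
      have h4 : s x (s x q) ∈ D := by rcases h1 with h | h <;> rw [h]; exacts [one_mem _, hzD]
      exact ⟨⟨hsE q hq, h4⟩, h4, h1⟩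
    by_cases hpz : p z = 0
    case neg =>
      -- here `x` is an involution and `D` is abelian
      have hxx : x * x = 1 := hord.resolve_right fun h => hpz h.1
      have hDab : ∀ a ∈ D, ∀ b ∈ D, a * b = b * a := by
        intro a ha b hb
        refine (S.comm a ha.1 b hb.1).resolve_right fun h => hpz ?_
        have := congrArg p h
        rw [hpmul a ha b hb, hpmul z hzD _ (mul_mem hb ha), hpmul b hb a ha, add_comm (p b)] at this
        exact right_eq_add.1 this
      have hDE : D ≤ E := fun a ha => ha.1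
      by_cases hEF : E ≤ F
      · obtain ⟨u, hu, huD⟩ := hnotone
        have hsu : s x u ∈ D := (hEF hu).2
        by_cases hex' : ∃ u' ∈ E, u' ∉ D ∧ u * u' ∉ D ∧ eps (s x u) u' = 0
        · obtain ⟨u', hu', h1, h2, h3⟩ := hex'
          exact hfour u (hEF hu) u' (hEF hu') huD h1 h2 (by rw [h3, mul_zero])
        · exfalso
          push Not at hex'
          have hmem : ∀ y ∈ E, eps (s x u) y = 0 → y ∈ D ∨ u⁻¹ * y ∈ D := by
            intro y hy h0
            by_contra hcon
            push Not at hcon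
            refine hex' y hy hcon.1 (fun hm => hcon.2 ?_) h0
            rw [show u⁻¹ * y = (u * u)⁻¹ * (u * y) by group]
            rcases S.sq u hu with h' | h' <;> rw [h']
            · simpa using hm
            · exact mul_mem (inv_mem hzD) hm
          by_cases ht : ∃ t ∈ E, eps (s x u) t = 1
          · obtain ⟨t, htE, ht1⟩ := ht
            have := card_le_thirty_two S D hDE hDab t u htE hu (fun y hy => by
              rcases two_cases (eps (s x u) y) with h0 | h0
              · rcases hmem y hy h0 with h' | h'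
                · exact Or.inl h'
                · exact Or.inr (Or.inr (Or.inl h'))
              · have h0' : eps (s x u) (t⁻¹ * y) = 0 := by
                  have := eps_mul S hsu.1 htE (mul_mem (inv_mem htE) hy)
                  rw [mul_inv_cancel_left, ht1, h0] at this
                  exact left_eq_add.1 this
                rcases hmem _ (mul_mem (inv_mem htE) hy) h0' with h' | h'
                · exact Or.inr (Or.inl h')
                · refine Or.inr (Or.inr (Or.inr ?_))
                  rw [mul_inv_rev, mul_assoc]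
                  exact h')
            omega
          · push Not at ht
            exact hnot2 u hu fun y hy =>
              hmem y hy ((two_cases _).resolve_right (ht y hy))
      · obtain ⟨q, hqE, hqF⟩ := SetLike.not_le_iff_exists.1 hEF
        obtain ⟨huF, -, hu2⟩ := hs_invol hxx q hqE
        set u := s x q with hu
        have huD : u ∉ D := fun h => hqF ⟨hqE, h⟩
        have hB : ∀ u' ∈ E, eps (s x u) u' = 0 := fun u' hu' => by
          rw [eps_comm]
          rcases hu2 with h | h <;> rw [h]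
          · exact eps_eq_zero.2 (by simp)
          · exact eps_z S hu'
        by_cases hex' : ∃ u' ∈ F, u' ∉ D ∧ u * u' ∉ D
        · obtain ⟨u', hu', h1, h2⟩ := hex'
          exact hfour u huF u' hu' huD h1 h2 (by rw [hB u' hu'.1, mul_zero])
        · exfalso
          push Not at hex'
          have hcase : ∀ y ∈ F, y ∈ D ∨ u⁻¹ * y ∈ D := fun y hy => by
            by_cases h : y ∈ D
            · exact Or.inl h
            · right
              rw [show u⁻¹ * y = (u * u)⁻¹ * (u * y) by group]
              rcases S.sq u huF.1 with h' | h' <;> rw [h']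
              · simpa using hex' y hy h
              · exact mul_mem (inv_mem hzD) (hex' y hy h)
          have := card_le_thirty_two S D hDE hDab q u hqE huF.1 (fun y hy => by
            by_cases hyF : y ∈ F
            · rcases hcase y hyF with h' | h'
              · exact Or.inl h'
              · exact Or.inr (Or.inr (Or.inl h'))
            · -- modulo `D` the map `s` sends `y` and `q` to `u`
              obtain ⟨hsyF, -, -⟩ := hs_invol hxx y hy
              have hsyD : s x y ∉ D := fun h => hyF ⟨hy, h⟩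
              have hys : s x y⁻¹ ∉ D := fun h => hyF (by
                have := inv_mem (show y⁻¹ ∈ F from ⟨inv_mem hy, h⟩)
                simpa using this)
              have hmemF : q⁻¹ * y ∈ F := by
                refine ⟨mul_mem (inv_mem hqE) hy, ?_⟩
                have h1 : u⁻¹ * s x y ∈ D := (hcase _ hsyF).resolve_left hsyD
                have h2 : s x (q⁻¹ * y) = y⁻¹ * q * u⁻¹ * q⁻¹ * y * s x y := by
                  rw [s_mul]
                  have : s x q⁻¹ = q * u⁻¹ * q⁻¹ := by simp only [hu, s]; group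
                  rw [this]; group
                rw [h2]
                set k := q⁻¹ * y with hk
                have hkE : k ∈ E := mul_mem (inv_mem hqE) hy
                have : y⁻¹ * q * u⁻¹ * q⁻¹ * y * s x y = (k⁻¹ * u⁻¹ * k * u) * (u⁻¹ * s x y) := by
                  simp only [hk]; group
                rw [this]
                refine mul_mem ?_ h1
                rcases S.comm u⁻¹ (inv_mem huF.1) k hkE with h' | h'
                · rw [mul_assoc k⁻¹ u⁻¹ k, h']
                  simp
                · rw [mul_assoc k⁻¹ u⁻¹ k, h', ← mul_assoc z, S.central k hkE, mul_assoc k z,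
                    inv_mul_cancel_left, mul_assoc, inv_mul_cancel, mul_one]
                  exact hzD
              rcases hcase _ hmemF with h' | h'
              · exact Or.inr (Or.inl h')
              · refine Or.inr (Or.inr (Or.inr ?_))
                rw [mul_inv_rev, mul_assoc]
                exact h')
          omega
    -- now `p ∘ s` is a homomorphism on `F`
    by_cases hu : ∃ u ∈ F, u ∉ D ∧ p (s x u) = 0
    · obtain ⟨u, huF, huD, hu0⟩ := hu
      refine Finset.sum_involution (fun c' _ => u • c') ?_ ?_ ?_ ?_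
      · intro c' hc'
        obtain ⟨e, he, rfl⟩ := (hmemO c').1 hc'
        rw [hmv u huF.1 e he, hvshift e he u huF, hpz, hu0]
        simp only [zero_mul, add_zero, ite_self, CharTwo.add_self_eq_zero]
      · intro c' hc' _ hcc
        obtain ⟨e, he, rfl⟩ := (hmemO c').1 hc'
        rw [hmv u huF.1 e he] at hcc
        exact huD ((hcos e he u huF.1).1 hcc)
      · intro c' hc'
        obtain ⟨e, he, rfl⟩ := (hmemO c').1 hc'
        exact (hmemO _).2 ⟨e * u, mul_mem he huF.1, hmv u huF.1 e he⟩
      · intro c' hc'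
        obtain ⟨e, he, rfl⟩ := (hmemO c').1 hc'
        rw [hmv u huF.1 e he, hmv u huF.1 _ (mul_mem he huF.1), mul_assoc e u u]
        rcases S.sq u huF.1 with h | h <;> rw [h]
        · rw [mul_one]
        · exact (hcos e he z S.zE).2 hzD
    push Not at hu
    exfalso
    obtain ⟨e₀, he₀, he₀D⟩ : ∃ e ∈ F, e ∉ D := by
      by_contra hcon
      push Not at hcon
      have : O.filter (fun c' => x • c' = c') = {(g : G ⧸ H)} := by
        ext c'
        rw [Finset.mem_filter, Finset.mem_singleton]
        constructor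
        · rintro ⟨h1, h2⟩
          obtain ⟨e, he, rfl⟩ := (hmemO c').1 h1
          have := hcon e ⟨he, (hfixiff e he).1 h2⟩
          refine (QuotientGroup.eq.2 ?_).symm
          rw [← mul_assoc]
          exact this.2
        · rintro rfl
          exact ⟨(hmemO _).2 ⟨1, one_mem _, by rw [one_mul]⟩,
            (TwoGroups.Yoshida.smul_eq_self_iff x g).2 hxg⟩
      rw [this, Finset.card_singleton] at hfixeven
      omega
    have hps : ∀ u ∈ F, u ∉ D → p (s x u) = 1 := fun u h1 h2 => zmod_two_eq _ (hu u h1 h2)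
    have hFD : ∀ u ∈ F, ∀ u' ∈ F, u ∉ D → u' ∉ D → u⁻¹ * u' ∈ D := by
      intro a ha b hb h1 h2
      by_contra h
      have := hpsi a ha (a⁻¹ * b) (mul_mem (inv_mem ha) hb)
      rw [mul_inv_cancel_left, hps b hb h2, hps a ha h1, hps _ (mul_mem (inv_mem ha) hb) h, hpz,
        zero_mul, add_zero] at this
      exact one_ne_double this
    have hEF : ¬ E ≤ F := fun hle => hnot2 e₀ he₀.1 fun y hy => by
      by_cases h : y ∈ D
      · exact Or.inl h
      · exact Or.inr (hFD e₀ he₀ y (hle hy) he₀D h)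
    obtain ⟨q₀, hq₀E, hq₀F⟩ := SetLike.not_le_iff_exists.1 hEF
    rcases hord with hxx | ⟨-, hinvol⟩
    · obtain ⟨huF, -, hu2⟩ := hs_invol hxx q₀ hq₀E
      refine hu _ huF (fun h => hq₀F ⟨hq₀E, h⟩) ?_
      rcases hu2 with h | h <;> rw [h]
      exacts [hp1, hpz]
    have hsq : ∀ u ∈ F, u ∉ D → s x u * s x u = z := fun u hu1 hu2 =>
      (S.sq _ hu1.2.1).resolve_left fun h => hu u hu1 hu2 (hinvol _ hu1.2 h)
    -- `x` has order four
    have hx4 : x ^ 4 = 1 := by
      have hd := hps e₀ he₀ he₀D
      have hd4 : (g⁻¹ * s x e₀ * g) ^ 4 = 1 := by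
        rw [show g⁻¹ * s x e₀ * g = MulAut.conj g⁻¹ (s x e₀) by simp, ← map_pow,
          show s x e₀ ^ 4 = (s x e₀ * s x e₀) * (s x e₀ * s x e₀) by simp [pow_succ, mul_assoc],
          hsq e₀ he₀ he₀D, S.zz, map_one]
      obtain ⟨j, -, hj⟩ := (Nat.dvd_prime_pow Nat.prime_two).1
        (show orderOf (g⁻¹ * s x e₀ * g) ∣ 2 ^ 2 from orderOf_dvd_of_pow_eq_one hd4)
      have hle : orderOf x ≤ orderOf (g⁻¹ * s x e₀ * g) := by
        by_contra hlt
        have := hmin _ he₀.2.2 ⟨j, hj⟩ (by omega)
        rw [show par (g⁻¹ * s x e₀ * g) = p (s x e₀) from rfl, hd] at this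
        exact one_ne_zero this
      have h4 : orderOf (g⁻¹ * s x e₀ * g) ≤ 4 :=
        Nat.le_of_dvd (by norm_num) (orderOf_dvd_of_pow_eq_one hd4)
      refine orderOf_dvd_iff_pow_eq_one.1 ?_
      rw [hkx] at hle ⊢
      have : 2 ^ kx ≤ 2 ^ 2 := by omega
      exact Nat.pow_dvd_pow 2 ((Nat.pow_le_pow_iff_right (by norm_num)).1 this)
    let θ : E → E := fun u => ⟨x⁻¹ * u * x, hEn x hxH u u.2⟩
    have hθm : ∀ u u', θ (u * u') = θ u * θ u' := fun u u' => Subtype.ext (conj_mul' x u u')
    have hθ4 : ∀ u, θ (θ (θ (θ u))) = u := fun u => Subtype.ext (by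
      show x⁻¹ * (x⁻¹ * (x⁻¹ * (x⁻¹ * u.1 * x) * x) * x) * x = u.1
      calc _ = (x ^ 4)⁻¹ * u.1 * x ^ 4 := by simp [pow_succ, mul_assoc]
        _ = u.1 := by rw [hx4]; group)
    -- the fourth commutator with `x` is central
    have hs4 : ∀ q ∈ E, s x (s x (s x (s x q))) = 1 ∨ s x (s x (s x (s x q))) = z := by
      intro q hq
      let π : E →* E ⧸ Subgroup.center E := QuotientGroup.mk' _
      have hzc : (⟨z, S.zE⟩ : E) ∈ Subgroup.center E :=
        Subgroup.mem_center_iff.2 fun y => Subtype.ext (S.central y y.2).symm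
      have hπ2 : ∀ u : E, π u * π u = 1 := fun u => by
        rw [← map_mul]
        refine (QuotientGroup.eq_one_iff _).2 ?_
        rcases S.sq u u.2 with h | h
        · rw [show u * u = 1 from Subtype.ext h]; exact one_mem _
        · rw [show u * u = ⟨z, S.zE⟩ from Subtype.ext h]; exact hzc
      have hi : ∀ t : E, (π t)⁻¹ = π t := fun t => inv_eq_of_mul_eq_one_right (hπ2 t)
      have hπc : ∀ u u' : E, π u * π u' = π u' * π u := fun u u' => by
        calc π u * π u' = (π (u * u'))⁻¹ := by rw [hi, map_mul]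
          _ = π u' * π u := by rw [map_mul, mul_inv_rev, hi, hi]
      let T : E → E := fun u => u⁻¹ * θ u
      have hT : ∀ u, π (T u) = π u * π (θ u) := fun u => by simp only [T]; rw [map_mul, map_inv, hi]
      have hTθ : ∀ u, θ (T u) = T (θ u) := fun u => Subtype.ext (by
        simp only [T, θ, Subgroup.coe_mul, InvMemClass.coe_inv]; group)
      have hTT : ∀ u, π (T (T u)) = π u * π (θ (θ u)) := fun u => by
        rw [hT, hTθ, hT, hT, mul_assoc, ← mul_assoc (π (θ u)), hπ2, one_mul]
      have h4 : π (T (T (T (T ⟨q, hq⟩)))) = 1 := by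
        rw [hTT, hTθ, hTθ, hTθ, hTθ, hTT, hTT, mul_assoc, ← mul_assoc (π (θ (θ ⟨q, hq⟩))), hπ2,
          one_mul, hθ4, hπ2]
      have hmem := (QuotientGroup.eq_one_iff _).1 h4
      exact S.center _ (hsE _ (hsE _ (hsE _ (hsE q hq))))
        fun y hy => congrArg Subtype.val (Subgroup.mem_center_iff.1 hmem ⟨y, hy⟩).symm
    -- the computation with a chain `f`, `e`
    have chain : ∀ f ∈ E, s x f ∈ F → s x f ∉ D →
        s x (s x (s x f)) * (s x f) = (s x f) * s x (s x (s x f)) ∧
        s x (s x (s x (s x f))) = z ∧ s x (s x (s x f)) * s x (s x (s x f)) = 1 ∧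
        eps (s x (s x f)) (s x (s x (s x f))) = 0 := by
      intro f hf heF heD
      set e := s x f with he
      set d₁ := s x e with hd₁
      set d₀ := s x d₁ with hd₀
      set m := s x d₀ with hm
      have hd₁D : d₁ ∈ D := heF.2
      obtain ⟨hd₀D, -⟩ := hsD d₁ hd₁D
      have hd₁sq : d₁ * d₁ = z := hsq e heF heD
      have hmc : m = 1 ∨ m = z := hs4 f hf
      have hx1e : x⁻¹ * e * x = e * d₁ := conj_eq x e
      have hx1d : x⁻¹ * d₁ * x = d₁ * d₀ := conj_eq x d₁
      have hx1d0 : x⁻¹ * d₀ * x = d₀ * m := conj_eq x d₀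
      have hmE : m ∈ E := hsE _ hd₀D.1
      have hc10 : eps d₁ d₀ = 0 := by
        have h1 := eps_conj x e d₀
        rw [hx1e, hx1d0, eps_mul S (mul_mem heF.1 hd₁D.1) hd₀D.1 hmE,
          eps_mul_left S heF.1 hd₁D.1 hd₀D.1] at h1
        have h2 : eps (e * d₁) m = 0 := by
          rcases hmc with h | h <;> rw [h]
          · exact eps_eq_zero.2 (by simp)
          · exact eps_z S (mul_mem heF.1 hd₁D.1)
        rw [h2, add_zero] at h1
        exact add_eq_left.1 h1
      have hc := eps_eq_zero.1 hc10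
      have hde : d₁ * e = e * (z * d₁) := by
        have h1 : (e * d₁) * (e * d₁) = e * e := by
          rw [← hx1e, ← conj_mul']
          rcases S.sq e heF.1 with h | h <;> rw [h]
          · simp
          · exact hzx
        calc d₁ * e = e⁻¹ * ((e * d₁) * (e * d₁)) * d₁⁻¹ := by group
          _ = e * d₁⁻¹ := by rw [h1]; group
          _ = e * (z * d₁) := by
              congr 1
              rw [inv_eq_iff_mul_eq_one, ← mul_assoc, ← S.central _ hd₁D.1, mul_assoc, hd₁sq, S.zz]
      have hd₀sq : d₀ * d₀ = 1 := by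
        have h1 : (d₁ * d₀) * (d₁ * d₀) = z := by rw [← hx1d, ← conj_mul', hd₁sq, hzx]
        calc d₀ * d₀ = d₁⁻¹ * (d₁ * d₀) * d₀ := by group
          _ = d₁⁻¹ * (d₀ * d₁) * d₀ := by rw [hc]
          _ = (d₁ * d₁)⁻¹ * ((d₁ * d₀) * (d₁ * d₀)) := by
              simp only [mul_inv_rev, mul_assoc, inv_mul_cancel_left]
          _ = 1 := by rw [h1, hd₁sq, inv_mul_cancel]
      have hzm : ∀ a ∈ E, z * a = a * z := S.central
      have hx2e : x⁻¹ * (e * d₁) * x = e * (z * d₀) := by
        rw [conj_mul', hx1e, hx1d]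
        calc e * d₁ * (d₁ * d₀) = e * ((d₁ * d₁) * d₀) := by group
          _ = e * (z * d₀) := by rw [hd₁sq]
      have hed₀ : d₀ * e = e * d₀ := by
        have h1 : (e * (z * d₀)) * (e * (z * d₀)) = e * e := by
          rw [← hx2e, ← conj_mul', ← hx1e, ← conj_mul']
          rcases S.sq e heF.1 with h | h <;> rw [h]
          · simp
          · rw [hzx, hzx]
        have h2 : (z * d₀) * (e * (z * d₀)) = e := by
          rw [mul_assoc e (z * d₀)] at h1
          exact mul_left_cancel h1
        have h3 : d₀ * e * d₀ = e := by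
          calc d₀ * e * d₀ = (z * z) * (d₀ * e) * d₀ := by rw [S.zz, one_mul]
            _ = z * (z * (d₀ * e)) * d₀ := by group
            _ = z * ((d₀ * e) * z) * d₀ := by rw [hzm (d₀ * e) (mul_mem hd₀D.1 heF.1)]
            _ = (z * d₀) * (e * (z * d₀)) := by group
            _ = e := h2
        calc d₀ * e = (d₀ * e * d₀) * d₀⁻¹ := by group
          _ = e * d₀⁻¹ := by rw [h3]
          _ = e * d₀ := by rw [inv_eq_of_mul_eq_one_right hd₀sq]
      have hx3e : x⁻¹ * (e * (z * d₀)) * x = e * d₁ * (z * (d₀ * m)) := by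
        rw [conj_mul', conj_mul', hx1e, hzx, hx1d0]
      have h1f : x⁻¹ * f * x = f * e := conj_eq x f
      have hprod : e * (e * d₁) * (e * (z * d₀)) * (e * d₁ * (z * (d₀ * m))) = 1 := by
        have h4 := congrArg Subtype.val (hθ4 ⟨f, hf⟩)
        change x⁻¹ * (x⁻¹ * (x⁻¹ * (x⁻¹ * f * x) * x) * x) * x = f at h4
        have s2 : x⁻¹ * (f * e) * x = f * e * (e * d₁) := by rw [conj_mul', h1f, hx1e]
        have s3 : x⁻¹ * (f * e * (e * d₁)) * x = f * e * (e * d₁) * (e * (z * d₀)) := by
          rw [conj_mul', s2, hx2e]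
        have s4 : x⁻¹ * (f * e * (e * d₁) * (e * (z * d₀))) * x =
            f * e * (e * d₁) * (e * (z * d₀)) * (e * d₁ * (z * (d₀ * m))) := by
          rw [conj_mul', s3, hx3e]
        rw [h1f, s2, s3, s4] at h4
        simp only [mul_assoc] at h4 ⊢
        exact mul_left_cancel (h4.trans (mul_one _).symm)
      have hee : ∀ a ∈ E, (e * e) * a = a * (e * e) := fun a ha => by
        rcases S.sq e heF.1 with h | h <;> rw [h]
        · simp
        · exact hzm a ha
      have hee2 : (e * e) * (e * e) = 1 := by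
        rcases S.sq e heF.1 with h | h <;> rw [h]
        · simp
        · exact S.zz
      have hzm' : z * m = 1 := by
        calc z * m = (e * e) * (e * e) * ((d₁ * d₁) * m) := by rw [hee2, hd₁sq, one_mul]
          _ = (e * e) * ((e * e) * d₁) * (d₁ * m) := by group
          _ = (e * e) * (d₁ * (e * e)) * (d₁ * m) := by rw [hee d₁ hd₁D.1]
          _ = e * (e * d₁) * e * e * d₁ * ((z * z) * (d₀ * d₀)) * m := by
              rw [S.zz, hd₀sq]; group
          _ = e * (e * d₁) * e * ((e * d₁) * (z * d₀) * (z * d₀)) * m := by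
              rw [show (z * z) * (d₀ * d₀) = (z * d₀) * (z * d₀) by
                rw [show z * d₀ * (z * d₀) = z * (d₀ * z) * d₀ by group, ← hzm d₀ hd₀D.1]; group]
              group
          _ = e * (e * d₁) * e * ((z * d₀) * (e * d₁) * (z * d₀)) * m := by
              have hc' : (z * d₀) * (e * d₁) = (e * d₁) * (z * d₀) := by
                calc z * d₀ * (e * d₁) = z * ((d₀ * e) * d₁) := by group
                  _ = z * (e * (d₀ * d₁)) := by rw [hed₀]; group
                  _ = z * ((e * d₁) * d₀) := by rw [← hc]; group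
                  _ = (e * d₁) * (z * d₀) := by
                      rw [← mul_assoc z, hzm _ (mul_mem heF.1 hd₁D.1), mul_assoc]
              rw [hc']
          _ = e * (e * d₁) * (e * (z * d₀)) * (e * d₁ * (z * (d₀ * m))) := by group
          _ = 1 := hprod
      refine ⟨hed₀, ?_, hd₀sq, hc10⟩
      rw [← one_mul m, ← S.zz, mul_assoc, hzm', mul_one]
    -- two steps of `s` always end in `D`
    have hs2 : ∀ q ∈ E, s x (s x q) ∈ D := by
      intro q hq
      by_contra h2
      have h3E := hsE _ (hsE _ hq)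
      have h4 : s x (s x (s x (s x q))) ∈ D := by
        rcases hs4 q hq with h | h <;> rw [h]; exacts [one_mem _, hzD]
      have h3 : s x (s x (s x q)) ∈ D := by
        by_contra h3
        have := hps _ ⟨hsE _ h3E, h4⟩ h3
        rcases hs4 q hq with h | h <;> rw [h] at this
        · rw [hp1] at this; exact zero_ne_one this
        · rw [hpz] at this; exact zero_ne_one this
      obtain ⟨-, hm, -, -⟩ := chain (s x q) (hsE q hq) ⟨h3E, h3⟩ h2
      rcases hs4 q hq with h | h <;> rw [h] at hm
      · exact S.z1 (hm.symm.trans (by simp [s]))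
      · exact S.z1 (hm.symm.trans (by rw [s, hzx, inv_mul_cancel]))
    obtain ⟨f, hfE, hfF, hfe⟩ : ∃ f ∈ E, f ∉ F ∧ s x f ∈ F :=
      ⟨q₀, hq₀E, hq₀F, hsE q₀ hq₀E, hs2 q₀ hq₀E⟩
    have heD : s x f ∉ D := fun h => hfF ⟨hfE, h⟩
    obtain ⟨hed₀, hmz, hd₀sq, hc10⟩ := chain f hfE hfe heD
    set e := s x f with he
    set d₁ := s x e with hd₁
    set d₀ := s x d₁ with hd₀
    have hd₁D : d₁ ∈ D := hfe.2
    obtain ⟨hd₀D, hpd₀⟩ := hsD d₁ hd₁D
    have hpd₁ : p d₁ = 1 := hps e hfe heD
    have heD' : ∀ y ∈ F, y ∉ D → e⁻¹ * y ∈ D := fun y hy h => hFD e hfe y hy heD h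
    -- `E` is covered by `F` and `f F`
    have hcovF : ∀ q ∈ E, q ∈ F ∨ f⁻¹ * q ∈ F := by
      intro q hq
      by_cases hqF : q ∈ F
      · exact Or.inl hqF
      right
      have hsq' : e⁻¹ * s x q ∈ D :=
        heD' _ ⟨hsE q hq, hs2 q hq⟩ fun h => hqF ⟨hq, h⟩
      refine ⟨mul_mem (inv_mem hfE) hq, ?_⟩
      set k := f⁻¹ * q with hk
      have hkE : k ∈ E := mul_mem (inv_mem hfE) hq
      have h1 : s x q = k⁻¹ * e * k * s x k := by
        conv_lhs => rw [← mul_inv_cancel_left f q, ← hk]
        exact s_mul x f k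
      have h2 : s x k = (k⁻¹ * e * k)⁻¹ * e * (e⁻¹ * s x q) := by rw [h1]; group
      rw [h2]
      refine mul_mem ?_ hsq'
      rcases S.comm e hfe.1 k hkE with h | h
      · rw [mul_assoc k⁻¹, h]; simp
      · rw [mul_assoc k⁻¹, h, ← mul_assoc z, S.central k hkE, mul_assoc k z, inv_mul_cancel_left,
          mul_inv_rev, mul_assoc e⁻¹, inv_eq_of_mul_eq_one_right S.zz, S.central e hfe.1,
          inv_mul_cancel_left]
        exact hzD
    -- `d₀` centralises `D` and `e`
    have hd₀c : ∀ δ ∈ D, eps d₀ δ = 0 := by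
      intro δ hδ
      by_contra hne
      have hkey : ∀ δ' ∈ D, eps d₀ δ' ≠ 0 → p δ' = 0 := by
        intro δ' hδ' h
        rcases S.sq δ' hδ'.1 with h' | h'
        · exact hinvol δ' hδ' h'
        have hcz : d₀ * δ' = z * (δ' * d₀) :=
          (S.comm d₀ hd₀D.1 δ' hδ'.1).resolve_left (fun hh => h (eps_eq_zero.2 hh))
        have h1 : (δ' * d₀) * (δ' * d₀) = 1 := by
          calc δ' * d₀ * (δ' * d₀) = δ' * (d₀ * δ') * d₀ := by group
            _ = δ' * (z * (δ' * d₀)) * d₀ := by rw [hcz]
            _ = (δ' * z) * δ' * (d₀ * d₀) := by group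
            _ = z * (δ' * δ') * (d₀ * d₀) := by rw [← S.central δ' hδ'.1]; group
            _ = 1 := by rw [h', S.zz, hd₀sq, one_mul]
        have := hinvol _ (mul_mem hδ' hd₀D) h1
        rwa [hpmul δ' hδ' d₀ hd₀D, hpd₀, add_zero] at this
      have h1 := hkey δ hδ hne
      have h2 := hkey (δ * d₁) (mul_mem hδ hd₁D) (by
        rwa [eps_mul S hd₀D.1 hδ.1 hd₁D.1, eps_comm d₀ d₁, hc10, add_zero])
      rw [hpmul δ hδ d₁ hd₁D, h1, hpd₁, zero_add] at h2
      exact one_ne_zero h2
    have hd₀e : eps d₀ e = 0 := eps_eq_zero.2 hed₀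
    have hd₀ne : ∀ y, (y = 1 ∨ y = z) → d₀ ≠ y := by
      intro y hy h
      have h1 : s x d₀ = 1 := by
        rcases hy with h' | h' <;> rw [h, h']
        · simp [s]
        · rw [s, hzx, inv_mul_cancel]
      exact S.z1 (hmz.symm.trans h1)
    have hsplit : ∀ r ∈ E, (∀ a ∈ D, eps r a = 0) → eps r e = 0 →
        ∀ y ∈ E, eps r y = 0 ∨ eps r y = eps r f := by
      intro r hr hrD hre y hy
      have hF0 : ∀ u ∈ F, eps r u = 0 := fun u hu' => by
        by_cases h : u ∈ D
        · exact hrD u h
        · rw [← mul_inv_cancel_left e u, eps_mul S hr hfe.1 (mul_mem (inv_mem hfe.1) hu'.1), hre,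
            hrD _ (heD' u hu' h), add_zero]
      rcases hcovF y hy with h | h
      · exact Or.inl (hF0 y h)
      · right
        rw [← mul_inv_cancel_left f y, eps_mul S hr hfE h.1, hF0 _ h, add_zero]
    have hfd₀ : eps d₀ f = 1 := by
      refine (two_cases _).resolve_left fun h => ?_
      refine hd₀ne d₀ (S.center d₀ hd₀D.1 fun y hy => eps_eq_zero.1 ?_) rfl
      rcases hsplit d₀ hd₀D.1 hd₀c hd₀e y hy with h' | h'
      · exact h'
      · exact h'.trans h
    have hclass : ∀ r ∈ E, (∀ a ∈ D, eps r a = 0) → eps r e = 0 →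
        (eps r f = 0 ∧ (r = 1 ∨ r = z)) ∨ (eps r f = 1 ∧ (r = d₀ ∨ r = d₀ * z)) := by
      intro r hr hrD hre
      rcases two_cases (eps r f) with h | h
      · refine Or.inl ⟨h, S.center r hr fun y hy => eps_eq_zero.1 ?_⟩
        rcases hsplit r hr hrD hre y hy with h' | h'
        · exact h'
        · exact h'.trans h
      · refine Or.inr ⟨h, ?_⟩
        have hm := mul_mem (inv_mem hd₀D.1) hr
        have heq : ∀ y ∈ E, eps d₀ y = eps r y → eps (d₀⁻¹ * r) y = 0 := fun y hy hh => by
          have := eps_mul_left S hd₀D.1 hm hy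
          rw [mul_inv_cancel_left, hh] at this
          exact left_eq_add.1 this
        have hF0 : ∀ y ∈ E, eps (d₀⁻¹ * r) y = 0 := by
          intro y hy
          refine heq y hy ?_
          by_cases hyF : y ∈ F
          · by_cases hyD : y ∈ D
            · rw [hd₀c y hyD, hrD y hyD]
            · have hk := heD' y hyF hyD
              rw [← mul_inv_cancel_left e y, eps_mul S hr hfe.1 hk.1,
                eps_mul S hd₀D.1 hfe.1 hk.1, hre, hd₀e, hd₀c _ hk, hrD _ hk]
          · have hk := (hcovF y hy).resolve_left hyF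
            have hy1 : ∀ u ∈ F, eps d₀ u = eps r u := fun u hu' => by
              by_cases hyD : u ∈ D
              · rw [hd₀c u hyD, hrD u hyD]
              · have hk := heD' u hu' hyD
                rw [← mul_inv_cancel_left e u, eps_mul S hr hfe.1 hk.1,
                  eps_mul S hd₀D.1 hfe.1 hk.1, hre, hd₀e, hd₀c _ hk, hrD _ hk]
            rw [← mul_inv_cancel_left f y, eps_mul S hr hfE hk.1, eps_mul S hd₀D.1 hfE hk.1, h,
              hfd₀, hy1 _ hk]
        rcases S.center _ hm (fun y hy => eps_eq_zero.1 (hF0 y hy)) with h' | h' <;>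
          rw [inv_mul_eq_iff_eq_mul] at h'
        · exact Or.inl (h'.trans (mul_one _))
        · exact Or.inr h'
    -- the action of `w` on `e` and `f`
    have hwx : w * x = x * w := by
      have h2 := hzH _ hxg
      calc g * z * g⁻¹ * x = g * (z * (g⁻¹ * x * g)) * g⁻¹ := by group
        _ = g * ((g⁻¹ * x * g) * z) * g⁻¹ := by rw [h2]
        _ = x * (g * z * g⁻¹) := by group
    have hwxc : ∀ a : G, w⁻¹ * (x⁻¹ * a * x) * w = x⁻¹ * (w⁻¹ * a * w) * x := fun a => by
      calc w⁻¹ * (x⁻¹ * a * x) * w = (x * w)⁻¹ * a * (x * w) := by group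
        _ = (w * x)⁻¹ * a * (w * x) := by rw [hwx]
        _ = x⁻¹ * (w⁻¹ * a * w) * x := by group
    have hwF : ∀ u ∈ F, w⁻¹ * u * w ∈ F := fun u hu' => by
      refine ⟨hEn w hwH u hu'.1, ?_⟩
      have : s x (w⁻¹ * u * w) = w⁻¹ * s x u * w := by
        simp only [s]; rw [← hwxc]; group
      rw [this, hwD _ hu'.2]
      exact hu'.2
    obtain ⟨hrE, hrc⟩ := hrel e hfe.1
    obtain ⟨htE, htc⟩ := hrel f hfE
    set r := e⁻¹ * (w⁻¹ * e * w) with hrdef
    set t := f⁻¹ * (w⁻¹ * f * w) with htdef
    have hew : w⁻¹ * e * w = e * r := by rw [hrdef, mul_inv_cancel_left]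
    have hfw : w⁻¹ * f * w = f * t := by rw [htdef, mul_inv_cancel_left]
    have hrD : r ∈ D := heD' _ (hwF e hfe) fun h => heD (hD_of_w e hfe.1 h)
    have hsquare : ∀ u ∈ E, ∀ k ∈ D, w⁻¹ * u * w = u * k → k * k = 1 ∧ eps u k = 0 := by
      intro u hu k hk huk
      have h1 : u = u * k * k := by
        calc u = (w * w)⁻¹ * u * (w * w) := by rw [hww]; group
          _ = w⁻¹ * (w⁻¹ * u * w) * w := by group
          _ = w⁻¹ * (u * k) * w := by rw [huk]
          _ = (w⁻¹ * u * w) * (w⁻¹ * k * w) := by group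
          _ = u * k * k := by rw [huk, hwD k hk]
      rw [mul_assoc] at h1
      have hk2 := left_eq_mul.1 h1
      refine ⟨hk2, eps_eq_zero.2 ?_⟩
      have h2 : (u * k) * (u * k) = u * u := by
        rw [← huk, ← conj_mul']
        rcases S.sq u hu with h | h <;> rw [h]
        · simp
        · exact hwD z hzD
      calc u * k = u⁻¹ * (u * u) * k := by group
        _ = u⁻¹ * ((u * k) * (u * k)) * k := by rw [h2]
        _ = k * u * (k * k) := by group
        _ = k * u := by rw [hk2, mul_one]
    have hre : eps r e = 0 := by rw [eps_comm]; exact (hsquare e hfe.1 r hrD hew).2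
    have hrx : x⁻¹ * r * x = r := by
      have h1 := hwxc e
      rw [conj_eq x e, conj_mul', hew, hwD _ hfe.2, conj_mul', conj_eq x e] at h1
      have h2 : r * d₁ = d₁ * r := eps_eq_zero.1 (hrc d₁ hd₁D)
      rw [mul_assoc e r, h2, ← mul_assoc] at h1
      exact (mul_left_cancel h1).symm
    have hrZ : eps r f = 0 ∧ (r = 1 ∨ r = z) := by
      refine (hclass r hrE hrc hre).resolve_right fun h => ?_
      have h1 : s x r = 1 := by rw [s, hrx, inv_mul_cancel]
      rcases h.2 with h' | h' <;> rw [h'] at h1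
      · exact S.z1 (hmz.symm.trans h1)
      · rw [show d₀ * z = z * d₀ from (S.central d₀ hd₀D.1).symm, hsz d₀ hd₀D.1] at h1
        exact S.z1 (hmz.symm.trans h1)
    have hte : eps t e = 0 := by
      have h1 := eps_conj w f e
      have h3 : eps r t = 0 := by
        rcases hrZ.2 with h | h <;> rw [h]
        · exact eps_eq_zero.2 (by simp)
        · rw [eps_comm]; exact eps_z S htE
      rw [hew, hfw, eps_mul S (mul_mem hfE htE) hfe.1 hrE, eps_mul_left S hfE htE hfe.1,
        eps_mul_left S hfE htE hrE, eps_comm f r, hrZ.1, eps_comm t r, h3, add_zero, add_zero] at h1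
      exact add_eq_left.1 h1
    have htD : t ∈ D := by
      rcases hclass t htE htc hte with ⟨-, h | h⟩ | ⟨-, h | h⟩ <;> rw [h]
      exacts [one_mem _, hzD, hd₀D, mul_mem hd₀D hzD]
    have htZ : t = 1 ∨ t = z := by
      rcases hclass t htE htc hte with h | h
      · exact h.2
      · exfalso
        have h1 := (hsquare f hfE t htD hfw).2
        rw [eps_comm, h.1] at h1
        exact one_ne_zero h1
    refine hwE (mem_of_trivial S hcent hext w (fun u hu' => hEn w hwH u hu') fun u hu' => ?_)
    have hstep : ∀ a k r', w⁻¹ * a * w = a * r' → (r' = 1 ∨ r' = z) → k ∈ E →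
        (w⁻¹ * k * w = k ∨ w⁻¹ * k * w = k * z) →
        (w⁻¹ * (a * k) * w = a * k ∨ w⁻¹ * (a * k) * w = a * k * z) := by
      intro a k r' ha hr' hk hk'
      rw [conj_mul', ha]
      rcases hr' with hr' | hr' <;> rcases hk' with h | h <;> rw [hr', h]
      · left; group
      · right; group
      · right
        rw [mul_assoc a z k, S.central k hk, ← mul_assoc]
      · left
        rw [mul_assoc a z (k * z), ← mul_assoc z k, S.central k hk, mul_assoc k z z, S.zz, mul_one]
    have hF1 : ∀ y ∈ F, w⁻¹ * y * w = y ∨ w⁻¹ * y * w = y * z := fun y hy => by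
      by_cases h : y ∈ D
      · exact Or.inl (hwD y h)
      · have h' := heD' y hy h
        rw [← mul_inv_cancel_left e y]
        exact hstep e _ r hew hrZ.2 h'.1 (Or.inl (hwD _ h'))
    rcases hcovF u hu' with h | h
    · exact hF1 u h
    · rw [← mul_inv_cancel_left f u]
      exact hstep f _ t hfw htZ h.1 (hF1 _ h)
  -- conclude
  have h1H : orbit E ((1 : G) : G ⧸ H) = {((1 : G) : G ⧸ H)} := by
    ext c'
    constructor
    · rintro ⟨⟨e, he⟩, rfl⟩
      exact QuotientGroup.eq.2 (by simpa using hEH he)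
    · rintro rfl; exact mem_orbit_self _
  have hsum' : ∑ c : G ⧸ H, v c = v ((1 : G) : G ⧸ H) := by
    rw [← Finset.sum_fiberwise_of_maps_to (g := fun c => orbit E c)
      (t := Finset.univ.image fun c => orbit E c) (fun c _ => Finset.mem_image_of_mem _ (Finset.mem_univ c)),
      Finset.sum_eq_single (orbit E ((1 : G) : G ⧸ H))]
    · rw [Finset.sum_eq_single ((1 : G) : G ⧸ H)]
      · intro b hb hne
        rw [Finset.mem_filter] at hb
        have : b ∈ orbit E ((1 : G) : G ⧸ H) := hb.2 ▸ mem_orbit_self b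
        rw [h1H] at this
        exact absurd this hne
      · simp
    · intro o ho hne
      obtain ⟨c, -, rfl⟩ := Finset.mem_image.1 ho
      rw [show (Finset.univ.filter fun c' => orbit E c' = orbit E c) =
        Finset.univ.filter (fun c' => c' ∈ orbit E c) from Finset.filter_congr fun c' _ => orbit_eq_iff]
      exact key c fun h => hne (by rw [h])
    · intro h
      exact absurd (Finset.mem_image_of_mem _ (Finset.mem_univ _)) h
  rw [hsum', hv, inv_one, one_mul, mul_one, hx1] at hsum
  exact one_ne_zero hsum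

end Cfsg.Agent.Screen.ExtraFusion
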