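import Cfsg.Agent.Screen.ExtraIndexTwo
import Cfsg.Agent.TwoGroups.YoshidaTransfer

/-!
The abelianisation of the centraliser of an involution whose two-core is extraspecial, in a group
without a quotient of order two, has elementary abelian Sylow two-subgroup.
-/

set_option autoImplicit false
set_option linter.unusedSectionVars false
set_option linter.style.haveILetI false

namespace Cfsg.Agent.Screen.ExtraAbelianization

open MulAction ExtraIndexTwo
open scoped Classical

variable {G : Type*} [Group G]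

/-- `s x u` is the commutator of `u` and `x`. -/
def s (x u : G) : G := u⁻¹ * (x⁻¹ * u * x)

lemma conj_eq (x u : G) : x⁻¹ * u * x = u * s x u := by simp [s]

lemma s_mul (x u v : G) : s x (u * v) = v⁻¹ * s x u * v * s x v := by
  simp only [s]; group

lemma conj_mul' (x u v : G) : x⁻¹ * (u * v) * x = (x⁻¹ * u * x) * (x⁻¹ * v * x) := by group

/-- A homomorphism on `H`, continued by zero. -/
noncomputable def lam {H : Subgroup G} (φ : H →* Multiplicative (ZMod 4)) (y : G) : ZMod 4 :=
  if h : y ∈ H then (φ ⟨y, h⟩).toAdd else 0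

/-- The parity of `lam`. -/
noncomputable def par {H : Subgroup G} (φ : H →* Multiplicative (ZMod 4)) (y : G) : ZMod 2 :=
  ZMod.castHom (show 2 ∣ 4 by norm_num) (ZMod 2) (lam φ y)

section
variable {H : Subgroup G} (φ : H →* Multiplicative (ZMod 4))

lemma lam_mul {a b : G} (ha : a ∈ H) (hb : b ∈ H) : lam φ (a * b) = lam φ a + lam φ b := by
  simp only [lam, dif_pos ha, dif_pos hb, dif_pos (mul_mem ha hb)]
  rw [← toAdd_mul, ← map_mul]
  rfl

lemma lam_one : lam φ 1 = 0 := by
  have := lam_mul φ (one_mem H) (one_mem H)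
  rw [mul_one] at this
  exact left_eq_add.1 this

lemma lam_inv {a : G} (ha : a ∈ H) : lam φ a⁻¹ = - lam φ a := by
  have := lam_mul φ (inv_mem ha) ha
  rw [inv_mul_cancel, lam_one] at this
  exact eq_neg_of_add_eq_zero_left this.symm

lemma par_mul {a b : G} (ha : a ∈ H) (hb : b ∈ H) : par φ (a * b) = par φ a + par φ b := by
  simp only [par, lam_mul φ ha hb, map_add]

lemma par_inv {a : G} (ha : a ∈ H) : par φ a⁻¹ = par φ a := by
  simp only [par, lam_inv φ ha, map_neg, ZMod.neg_eq_self_mod_two]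

end

lemma cast_eq_zero_of_double : ∀ a : ZMod 4, a + a = 0 →
    ZMod.castHom (show 2 ∣ 4 by norm_num) (ZMod 2) a = 0 := by decide

lemma double_ne_zero : ∀ a : ZMod 4,
    ZMod.castHom (show 2 ∣ 4 by norm_num) (ZMod 2) a = 1 → a + a ≠ 0 := by decide

lemma zmod_two_eq : ∀ a : ZMod 2, a ≠ 0 → a = 1 := by decide

lemma one_ne_double : (1 : ZMod 2) ≠ 1 + 1 := by decide

/-- An abelian group with a two-element of order above two maps onto `ℤ/4`. -/
theorem exists_hom_four {A : Type*} [CommGroup A] [Finite A] (q : A) {k : ℕ} (hk : orderOf q = 2 ^ k)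
    (h2 : q ^ 2 ≠ 1) : ∃ ψ : A →* Multiplicative (ZMod 4), ∃ a : A, ψ a = Multiplicative.ofAdd 1 := by
  obtain ⟨ι, _, n, hn, ⟨e⟩⟩ := CommGroup.equiv_prod_multiplicative_zmod_of_finite A
  obtain ⟨i, hi⟩ : ∃ i, (e q i) ^ 2 ≠ 1 := by
    by_contra hcon
    push Not at hcon
    exact h2 (e.injective (by rw [map_pow, map_one]; exact funext hcon))
  have h4 : 4 ∣ n i := by
    have hd : orderOf (e q i) ∣ 2 ^ k := by
      rw [← hk]
      exact orderOf_map_dvd ((Pi.evalMonoidHom (fun i => Multiplicative (ZMod (n i))) i).comp e.toMonoidHom) q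
    obtain ⟨j, -, hj⟩ := (Nat.dvd_prime_pow Nat.prime_two).1 hd
    have hj2 : 2 ≤ j := by
      by_contra hlt
      refine hi (orderOf_dvd_iff_pow_eq_one.1 (hj ▸ ?_))
      calc 2 ^ j ∣ 2 ^ 1 := Nat.pow_dvd_pow _ (by omega)
        _ = 2 := pow_one 2
    haveI : NeZero (n i) := ⟨by have := hn i; omega⟩
    have := orderOf_dvd_natCard (e q i)
    rw [hj, Nat.card_congr Multiplicative.toAdd, Nat.card_zmod] at this
    exact (Nat.pow_dvd_pow 2 hj2).trans this
  refine ⟨(AddMonoidHom.toMultiplicative (ZMod.castHom h4 (ZMod 4)).toAddMonoidHom).comp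
    ((Pi.evalMonoidHom (fun i => Multiplicative (ZMod (n i))) i).comp e.toMonoidHom),
    e.symm (Pi.mulSingle i (Multiplicative.ofAdd 1)), ?_⟩
  simp
  exact ZMod.cast_one h4

variable [Finite G]

theorem no_hom_four (hres : Cfsg.pResidual 2 G = ⊤) {z : G} (hz : orderOf z = 2) {E : Subgroup G}
    (hEH : E ≤ Subgroup.centralizer ({z} : Set G))
    (hEn : ∀ h ∈ Subgroup.centralizer ({z} : Set G), ∀ e ∈ E, h⁻¹ * e * h ∈ E)
    (hext : Cfsg.IsExtraspecial 2 E) (hcent : Subgroup.centralizer (E : Set G) ≤ E)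
    (φ : Subgroup.centralizer ({z} : Set G) →* Multiplicative (ZMod 4))
    (hsur : ∃ a, φ a = Multiplicative.ofAdd 1) : False := by
  have S := setting_of_extraspecial hz hext hEH hcent
  revert φ hsur
  set H := Subgroup.centralizer ({z} : Set G) with hH
  intro φ hsur
  haveI : Fact (Nat.Prime 2) := ⟨Nat.prime_two⟩
  have hzH : ∀ y ∈ H, y * z = z * y := fun y hy => (Subgroup.mem_centralizer_iff.1 hy z rfl).symm
  -- a two-element of least order with odd value
  have hex : ∃ n, ∃ y ∈ H, (∃ k, orderOf y = 2 ^ k) ∧ par φ y = 1 ∧ orderOf y = n := by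
    obtain ⟨a, ha⟩ := hsur
    obtain ⟨k, m, hm, hkm⟩ := Nat.exists_eq_pow_mul_and_not_dvd (orderOf_pos a.1).ne' 2 (by norm_num)
    refine ⟨_, (a ^ m : H).1, (a ^ m).2, ?_, ?_, rfl⟩
    · refine ⟨k, ?_⟩
      rw [SubgroupClass.coe_pow, orderOf_pow' _ (by rintro rfl; simp at hm), hkm,
        Nat.gcd_mul_left_left, Nat.mul_div_cancel _ (Nat.pos_of_ne_zero (by rintro rfl; simp at hm))]
    · have hl : lam φ ((a ^ m : H) : G) = (φ (a ^ m)).toAdd := dif_pos (a ^ m).2
      rw [par, hl, map_pow, ha, toAdd_pow, toAdd_ofAdd, nsmul_one, map_natCast]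
      exact (ZMod.natCast_eq_one_iff_odd).2 (Nat.odd_iff.2 (by omega))
  obtain ⟨x, hxH, ⟨kx, hkx⟩, hx1, hxn⟩ := Nat.find_spec hex
  have hmin : ∀ y ∈ H, (∃ k, orderOf y = 2 ^ k) → orderOf y < orderOf x → par φ y = 0 := by
    intro y hy hk hlt
    by_contra h
    exact Nat.find_min hex (hxn ▸ hlt) ⟨y, hy, hk, zmod_two_eq _ h, rfl⟩
  -- the transfer
  haveI : Fintype (G ⧸ H) := Fintype.ofFinite _
  let μ : H →* Multiplicative (ZMod 2) :=
    (AddMonoidHom.toMultiplicative (ZMod.castHom (show 2 ∣ 4 by norm_num) (ZMod 2)).toAddMonoidHom).comp φ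
  have hchi : ∀ y, TwoGroups.Yoshida.chi μ y = Multiplicative.ofAdd (par φ y) := by
    intro y
    by_cases hy : y ∈ H
    · rw [TwoGroups.Yoshida.chi_of_mem μ hy]
      simp [μ, par, lam, dif_pos hy]
    · rw [TwoGroups.Yoshida.chi_of_not_mem μ hy]
      simp [par, lam, dif_neg hy]
  have htr := TwoGroups.Yoshida.transfer_eq_prod_chi μ x (fun g m hm1 hmd => by
    rw [hchi]
    by_cases hy : g⁻¹ * x ^ m * g ∈ H
    · have ho : orderOf (g⁻¹ * x ^ m * g) = orderOf (x ^ m) := by
        rw [show g⁻¹ * x ^ m * g = MulAut.conj g⁻¹ (x ^ m) by simp, MulEquiv.orderOf_eq]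
      obtain ⟨j, -, hj⟩ := (Nat.dvd_prime_pow Nat.prime_two).1 (hkx ▸ orderOf_pow_dvd (x := x) m)
      rw [hmin _ hy ⟨j, ho.trans hj⟩]
      · rfl
      · rw [ho, orderOf_pow' _ (by omega), Nat.gcd_eq_right hmd]
        exact Nat.div_lt_self (orderOf_pos x) hm1
    · rw [show par φ (g⁻¹ * x ^ m * g) = 0 by simp [par, lam, dif_neg hy]]
      rfl)
  rw [hom_eq_one hres (fun a : Multiplicative (ZMod 2) =>
    Multiplicative.toAdd.injective (CharTwo.add_self_eq_zero _))] at htr
  simp only [hchi, ← ofAdd_sum] at htr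
  let v : G ⧸ H → ZMod 2 := fun c => par φ (c.out⁻¹ * x * c.out)
  have hsum : ∑ c : G ⧸ H, v c = 0 := (Multiplicative.ofAdd.injective (htr.symm.trans rfl) :)
  have hv : ∀ g : G, v (g : G ⧸ H) = par φ (g⁻¹ * x * g) := fun g => by
    have := TwoGroups.Yoshida.chi_coset μ x g ((g : G ⧸ H).out) (QuotientGroup.out_eq' _).symm
    rw [hchi, hchi] at this
    exact Multiplicative.ofAdd.injective this
  have hvne : ∀ g : G, v (g : G ⧸ H) ≠ 0 → g⁻¹ * x * g ∈ H := fun g hg => by
    by_contra h
    rw [hv] at hg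
    exact hg (by simp [par, lam, dif_neg h])
  -- each orbit of `E` other than the trivial one has even sum
  have key : ∀ c : G ⧸ H, c ≠ ((1 : G) : G ⧸ H) →
      ∑ c' ∈ Finset.univ.filter (fun c' => c' ∈ orbit E c), v c' = 0 := by
    intro c hc1
    set O := Finset.univ.filter (fun c' => c' ∈ orbit E c) with hO
    by_cases hall : ∀ c' ∈ O, v c' = 0
    · exact Finset.sum_eq_zero hall
    push Not at hall
    obtain ⟨c₀, hc₀, hne₀⟩ := hall
    obtain ⟨g, rfl⟩ := QuotientGroup.mk_surjective c₀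
    have hxg : g⁻¹ * x * g ∈ H := hvne g hne₀
    have horb : orbit E c = orbit E (g : G ⧸ H) :=
      (orbit_eq_iff.2 (Finset.mem_filter.1 hc₀).2).symm
    have hmemO : ∀ c', c' ∈ O ↔ ∃ e ∈ E, c' = ((e * g : G) : G ⧸ H) := by
      intro c'
      rw [hO, Finset.mem_filter, horb]
      constructor
      · rintro ⟨-, ⟨e, he⟩, rfl⟩; exact ⟨e, he, rfl⟩
      · rintro ⟨e, he, rfl⟩; exact ⟨Finset.mem_univ _, ⟨e, he⟩, rfl⟩
    have hg1 : g ∉ H := by
      intro hg
      apply hc1
      have : c ∈ orbit E (g : G ⧸ H) := horb ▸ mem_orbit_self c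
      obtain ⟨⟨e, he⟩, rfl⟩ := this
      exact (QuotientGroup.eq.2 (by simpa using mul_mem (hEH he) hg)).symm
    -- the part of `E` fixing the coset of `g`
    let D : Subgroup G :=
      { carrier := {d | d ∈ E ∧ g⁻¹ * d * g ∈ H}
        mul_mem' := fun {a b} ha hb => ⟨mul_mem ha.1 hb.1, by
          rw [show g⁻¹ * (a * b) * g = (g⁻¹ * a * g) * (g⁻¹ * b * g) by group]
          exact mul_mem ha.2 hb.2⟩
        one_mem' := ⟨one_mem _, by simp⟩
        inv_mem' := fun {a} ha => ⟨inv_mem ha.1, by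
          rw [show g⁻¹ * a⁻¹ * g = (g⁻¹ * a * g)⁻¹ by group]; exact inv_mem ha.2⟩ }
    let p : G → ZMod 2 := fun d => par φ (g⁻¹ * d * g)
    let l : G → ZMod 4 := fun d => lam φ (g⁻¹ * d * g)
    have hlmul : ∀ a ∈ D, ∀ b ∈ D, l (a * b) = l a + l b := fun a ha b hb => by
      simp only [l]
      rw [show g⁻¹ * (a * b) * g = (g⁻¹ * a * g) * (g⁻¹ * b * g) by group, lam_mul φ ha.2 hb.2]
    have hpl : ∀ a, p a = ZMod.castHom (show 2 ∣ 4 by norm_num) (ZMod 2) (l a) := fun a => rfl
    have hlinv : ∀ a ∈ D, l a⁻¹ = - l a := fun a ha => by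
      simp only [l]
      rw [show g⁻¹ * a⁻¹ * g = (g⁻¹ * a * g)⁻¹ by group, lam_inv φ ha.2]
    have hl1 : l 1 = 0 := by simp only [l]; simp [lam_one]
    have hDx : ∀ d ∈ D, x⁻¹ * d * x ∈ D ∧ l (x⁻¹ * d * x) = l d := fun d hd => by
      have e : g⁻¹ * (x⁻¹ * d * x) * g = (g⁻¹ * x * g)⁻¹ * (g⁻¹ * d * g) * (g⁻¹ * x * g) := by group
      refine ⟨⟨hEn x hxH d hd.1, e ▸ mul_mem (mul_mem (inv_mem hxg) hd.2) hxg⟩, ?_⟩
      simp only [l]
      rw [e, lam_mul φ (mul_mem (inv_mem hxg) hd.2) hxg, lam_mul φ (inv_mem hxg) hd.2,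
        lam_inv φ hxg]
      ring
    have hsE : ∀ u ∈ E, s x u ∈ E := fun u hu => mul_mem (inv_mem hu) (hEn x hxH u hu)
    -- the value at `e g`
    have hval : ∀ e ∈ E, (s x e ∈ D → v ((e * g : G) : G ⧸ H) = p x + p (s x e)) ∧
        (s x e ∉ D → v ((e * g : G) : G ⧸ H) = 0) := by
      intro e he
      have eq1 : (e * g)⁻¹ * x * (e * g) = (g⁻¹ * x * g) * (g⁻¹ * s x e * g)⁻¹ := by
        simp only [s]; group
      constructor
      · intro hs
        rw [hv, eq1, par_mul φ hxg (inv_mem hs.2), par_inv φ hs.2]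
      · intro hs
        by_contra h
        apply hs
        refine ⟨hsE e he, ?_⟩
        have := hvne _ h
        rw [eq1] at this
        exact inv_mem_iff.1 ((Subgroup.mul_mem_cancel_left _ hxg).1 this)
    -- parity of the number of fixed points
    letI : MulAction (Subgroup.zpowers x) {c' // c' ∈ O} :=
      { smul := fun t c' => ⟨(t : G) • c'.1, by
          obtain ⟨e, he, hc'⟩ := (hmemO _).1 c'.2
          rw [hc']
          refine (hmemO _).2 ⟨(t : G) * e * (t : G)⁻¹, ?_, ?_⟩
          · have := hEn _ (inv_mem (Subgroup.zpowers_le.2 hxH t.2)) e he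
            rwa [inv_inv] at this
          · have hfix : x • (g : G ⧸ H) = g := (TwoGroups.Yoshida.smul_eq_self_iff x g).2 hxg
            have ht : (t : G) • (g : G ⧸ H) = g :=
              (Subgroup.zpowers_le.2 (show x ∈ stabilizer G (g : G ⧸ H) from hfix)) t.2
            rw [← smul_eq_mul, ← smul_eq_mul, ← MulAction.Quotient.smul_coe,
              ← MulAction.Quotient.smul_coe]
            conv_rhs => rw [← ht]
            simp only [smul_smul, smul_eq_mul]
            congr 1
            group⟩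
        one_smul := fun c' => Subtype.ext (one_smul G c'.1)
        mul_smul := fun a b c' => Subtype.ext (mul_smul (a : G) (b : G) c'.1) }
    have hxp : IsPGroup 2 (Subgroup.zpowers x) :=
      IsPGroup.of_card (n := kx) (by rw [Nat.card_zpowers, hkx])
    have hcount := hxp.card_modEq_card_fixedPoints {c' // c' ∈ O}
    have hOeven : 2 ∣ O.card := by
      have h1 : Nat.card (orbit E c) = O.card := by
        rw [Nat.card_eq_fintype_card, hO, ← Fintype.card_subtype]
      have hd : Nat.card (orbit E c) ∣ Nat.card E := by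
        rw [Nat.card_coe_set_eq, ← MulAction.index_stabilizer]
        exact Subgroup.index_dvd_card _
      obtain ⟨j, hj⟩ := S.two.exists_card_eq
      rw [hj] at hd
      obtain ⟨i, -, hi⟩ := (Nat.dvd_prime_pow Nat.prime_two).1 hd
      rw [← h1, hi]
      refine dvd_pow_self 2 fun hi0 => ?_
      rw [hi0, pow_zero, horb, Nat.card_eq_one_iff_unique] at hi
      haveI := hi.1
      have hfixall : ∀ e ∈ E, ((e * g : G) : G ⧸ H) = (g : G ⧸ H) := fun e he =>
        congrArg Subtype.val (Subsingleton.elim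
          (⟨_, mem_orbit (g : G ⧸ H) (⟨e, he⟩ : E)⟩ : orbit E (g : G ⧸ H)) ⟨_, mem_orbit_self _⟩)
      have hcomm : ∀ e ∈ E, e * (g * z * g⁻¹) = g * z * g⁻¹ * e := fun e he => by
        have h1 := QuotientGroup.eq.1 (hfixall e he).symm
        have h2 := hzH _ h1
        calc e * (g * z * g⁻¹) = g * ((g⁻¹ * (e * g)) * z) * g⁻¹ := by group
          _ = g * (z * (g⁻¹ * (e * g))) * g⁻¹ := by rw [h2]
          _ = g * z * g⁻¹ * e := by group
      have hin : g * z * g⁻¹ ∈ E := hcent (Subgroup.mem_centralizer_iff.2 hcomm)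
      rcases S.center _ hin (fun y hy => (hcomm y hy).symm) with h | h
      · exact S.z1 (conj_eq_one_iff.1 h)
      · apply hg1
        rw [hH, Subgroup.mem_centralizer_iff]
        intro y hy
        rw [Set.mem_singleton_iff] at hy
        subst hy
        conv_lhs => rw [← h]
        group
    have hfixeven : 2 ∣ (O.filter fun c' => x • c' = c').card := by
      have h1 : Nat.card {c' // c' ∈ O} = O.card := by simp
      have h2 : Nat.card (fixedPoints (Subgroup.zpowers x) {c' // c' ∈ O}) =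
          (O.filter fun c' => x • c' = c').card := by
        rw [← Nat.card_eq_finsetCard]
        exact Nat.card_congr
          { toFun := fun c' => ⟨c'.1.1, Finset.mem_filter.2 ⟨c'.1.2,
              congrArg Subtype.val (c'.2 ⟨x, Subgroup.mem_zpowers x⟩)⟩⟩
            invFun := fun c' => ⟨⟨c'.1, (Finset.mem_filter.1 c'.2).1⟩, fun t => Subtype.ext
              ((Subgroup.zpowers_le.2 (show x ∈ stabilizer G c'.1 from (Finset.mem_filter.1 c'.2).2)) t.2)⟩
            left_inv := fun c' => rfl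
            right_inv := fun c' => rfl }
      rw [h1, h2] at hcount
      unfold Nat.ModEq at hcount
      omega
    have hfixiff : ∀ e ∈ E, (x • ((e * g : G) : G ⧸ H) = ((e * g : G) : G ⧸ H)) ↔ s x e ∈ D := by
      intro e he
      rw [TwoGroups.Yoshida.smul_eq_self_iff,
        show (e * g)⁻¹ * x * (e * g) = (g⁻¹ * x * g) * (g⁻¹ * s x e * g)⁻¹ by simp only [s]; group,
        Subgroup.mul_mem_cancel_left _ hxg, inv_mem_iff]
      exact ⟨fun h => ⟨hsE e he, h⟩, fun h => h.2⟩
    by_cases hgood : ∀ d ∈ D, p d = 0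
    · -- constant on the fixed points
      rw [← Finset.sum_filter_add_sum_filter_not O (fun c' => x • c' = c')]
      rw [Finset.sum_eq_zero (s := O.filter fun c' => ¬ x • c' = c'), add_zero]
      · rw [Finset.sum_congr rfl (g := fun _ => p x), Finset.sum_const]
        · obtain ⟨r, hr⟩ := hfixeven
          rw [hr, mul_nsmul', nsmul_eq_mul, show ((2 : ℕ) : ZMod 2) = 0 from rfl, zero_mul]
        · intro c' hc'
          rw [Finset.mem_filter] at hc'
          obtain ⟨e, he, rfl⟩ := (hmemO c').1 hc'.1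
          have hs := (hfixiff e he).1 hc'.2
          rw [(hval e he).1 hs, hgood _ hs, add_zero]
      · intro c' hc'
        rw [Finset.mem_filter] at hc'
        obtain ⟨e, he, rfl⟩ := (hmemO c').1 hc'.1
        exact (hval e he).2 (fun h => hc'.2 ((hfixiff e he).2 h))
    -- the exceptional orbits
    push Not at hgood
    obtain ⟨d, hd, hpd⟩ := hgood
    have hsq : ∀ a ∈ D, p a ≠ 0 → a * a = z := fun a ha hpa => by
      refine (S.sq a ha.1).resolve_left fun h => hpa ?_
      rw [hpl]
      refine cast_eq_zero_of_double _ ?_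
      rw [← hlmul a ha a ha, h, hl1]
    have hzD : z ∈ D := hsq d hd hpd ▸ mul_mem hd hd
    have hlz : l z ≠ 0 := by
      rw [← hsq d hd hpd, hlmul d hd d hd]
      exact double_ne_zero _ (zmod_two_eq _ hpd)
    have hpz : p z = 0 := by
      rw [hpl, ← hsq d hd hpd, hlmul d hd d hd, map_add, CharTwo.add_self_eq_zero]
    have hDab : ∀ a ∈ D, ∀ b ∈ D, a * b = b * a := by
      intro a ha b hb
      refine (S.comm a ha.1 b hb.1).resolve_right fun h => hlz ?_
      have := congrArg l h
      rw [hlmul a ha b hb, hlmul z hzD _ (mul_mem hb ha), hlmul b hb a ha, add_comm (l b)] at this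
      exact right_eq_add.1 this
    have hDn : ∀ a ∈ D, ∀ u ∈ E, u⁻¹ * a * u ∈ D ∧ p (u⁻¹ * a * u) = p a := by
      intro a ha u hu
      rcases S.comm a ha.1 u hu with h | h
      · rw [mul_assoc, h, inv_mul_cancel_left]; exact ⟨ha, rfl⟩
      · have e : u⁻¹ * a * u = z * a := by
          rw [mul_assoc, h, ← mul_assoc z, S.central u hu, mul_assoc, inv_mul_cancel_left]
        rw [e]
        refine ⟨mul_mem hzD ha, ?_⟩
        rw [hpl, hlmul z hzD a ha, map_add, ← hpl, ← hpl, hpz, zero_add]
    have hpmul : ∀ a ∈ D, ∀ b ∈ D, p (a * b) = p a + p b := fun a ha b hb => by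
      rw [hpl, hlmul a ha b hb, map_add, ← hpl, ← hpl]
    have hpinv : ∀ a ∈ D, p a⁻¹ = p a := fun a ha => by
      rw [hpl, hlinv a ha, map_neg, ZMod.neg_eq_self_mod_two, ← hpl]
    let F : Subgroup G :=
      { carrier := {u | u ∈ E ∧ s x u ∈ D}
        mul_mem' := fun {a b} ha hb => ⟨mul_mem ha.1 hb.1, by
          rw [s_mul]; exact mul_mem (hDn _ ha.2 b hb.1).1 hb.2⟩
        one_mem' := ⟨one_mem _, by simp [s]⟩
        inv_mem' := fun {a} ha => ⟨inv_mem ha.1, by
          have h1 := (hDn _ (inv_mem ha.2) a⁻¹ (inv_mem ha.1)).1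
          rwa [show a⁻¹⁻¹ * (s x a)⁻¹ * a⁻¹ = s x a⁻¹ by simp only [s]; group] at h1⟩ }
    have hpsi : ∀ a ∈ F, ∀ b ∈ F, p (s x (a * b)) = p (s x a) + p (s x b) := fun a ha b hb => by
      rw [s_mul, hpmul _ (hDn _ ha.2 b hb.1).1 _ hb.2, (hDn _ ha.2 b hb.1).2]
    have hsD : ∀ a ∈ D, s x a ∈ D ∧ l (s x a) = 0 := fun a ha => by
      refine ⟨mul_mem (inv_mem ha) (hDx a ha).1, ?_⟩
      rw [s, hlmul _ (inv_mem ha) _ (hDx a ha).1, (hDx a ha).2, hlinv a ha, neg_add_cancel]
    have hzfix : ∀ e ∈ E, ((z * (e * g) : G) : G ⧸ H) = ((e * g : G) : G ⧸ H) := by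
      intro e he
      rw [QuotientGroup.eq]
      have : (z * (e * g))⁻¹ * (e * g) = (g⁻¹ * z * g)⁻¹ := by
        rw [← mul_assoc z e, S.central e he]
        group
      rw [this]
      exact inv_mem hzD.2
    by_cases hu : ∃ u ∈ F, u ∉ D ∧ p (s x u) = 0
    · -- pairing
      obtain ⟨u, huF, huD, hu0⟩ := hu
      have hmv : ∀ e ∈ E, u • ((e * g : G) : G ⧸ H) = ((e * u * g : G) : G ⧸ H) := by
        intro e he
        rw [MulAction.Quotient.smul_coe, smul_eq_mul, ← mul_assoc u e g]
        rcases S.comm u huF.1 e he with h | h <;> rw [h]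
        rw [mul_assoc z, hzfix _ (mul_mem he huF.1)]
      refine Finset.sum_involution (fun c' _ => u • c') ?_ ?_ ?_ ?_
      · intro c' hc'
        obtain ⟨e, he, rfl⟩ := (hmemO c').1 hc'
        have : v (u • ((e * g : G) : G ⧸ H)) = v ((e * g : G) : G ⧸ H) := by
          rw [hmv e he]
          by_cases hs : s x e ∈ D
          · have heF : e ∈ F := ⟨he, hs⟩
            rw [(hval _ (mul_mem he huF.1)).1 (mul_mem heF huF).2, (hval e he).1 hs,
              hpsi e heF u huF, hu0, add_zero]
          · have hs' : s x (e * u) ∉ D := fun h => by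
              have := mul_mem (show e * u ∈ F from ⟨mul_mem he huF.1, h⟩) (inv_mem huF)
              rw [mul_inv_cancel_right] at this
              exact hs this.2
            rw [(hval _ (mul_mem he huF.1)).2 hs', (hval e he).2 hs]
        rw [this, CharTwo.add_self_eq_zero]
      · intro c' hc' _ hcc
        obtain ⟨e, he, rfl⟩ := (hmemO c').1 hc'
        rw [hmv e he, QuotientGroup.eq] at hcc
        refine huD ⟨huF.1, ?_⟩
        have h := inv_mem hcc
        rwa [show ((e * u * g)⁻¹ * (e * g))⁻¹ = g⁻¹ * u * g by group] at h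
      · intro c' hc'
        obtain ⟨e, he, rfl⟩ := (hmemO c').1 hc'
        rw [hmv e he]
        exact (hmemO _).2 ⟨e * u, mul_mem he huF.1, rfl⟩
      · intro c' hc'
        obtain ⟨e, he, rfl⟩ := (hmemO c').1 hc'
        rw [← mul_smul]
        rcases S.sq u huF.1 with h | h <;> rw [h]
        · exact one_smul _ _
        · exact hzfix e he
    -- otherwise a contradiction
    push Not at hu
    exfalso
    obtain ⟨e₀, he₀, he₀D⟩ : ∃ e ∈ F, e ∉ D := by
      by_contra hcon
      push Not at hcon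
      have : O.filter (fun c' => x • c' = c') = {(g : G ⧸ H)} := by
        ext c'
        rw [Finset.mem_filter, Finset.mem_singleton]
        constructor
        · rintro ⟨h1, h2⟩
          obtain ⟨e, he, rfl⟩ := (hmemO c').1 h1
          have := hcon e ⟨he, (hfixiff e he).1 h2⟩
          refine (QuotientGroup.eq.2 ?_).symm
          rw [← mul_assoc]
          exact this.2
        · rintro rfl
          exact ⟨(hmemO _).2 ⟨1, one_mem _, by rw [one_mul]⟩,
            (TwoGroups.Yoshida.smul_eq_self_iff x g).2 hxg⟩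
      rw [this, Finset.card_singleton] at hfixeven
      omega
    -- `x` has order at most four
    have hx4 : x ^ 4 = 1 := by
      have hd4 : (g⁻¹ * d * g) ^ 4 = 1 := by
        rw [show g⁻¹ * d * g = MulAut.conj g⁻¹ d by simp, ← map_pow,
          show d ^ 4 = (d * d) * (d * d) by simp [pow_succ, mul_assoc], hsq d hd hpd, S.zz, map_one]
      obtain ⟨j, -, hj⟩ := (Nat.dvd_prime_pow Nat.prime_two).1
        (show orderOf (g⁻¹ * d * g) ∣ 2 ^ 2 from orderOf_dvd_of_pow_eq_one hd4)
      have hle : orderOf x ≤ orderOf (g⁻¹ * d * g) := by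
        by_contra hlt
        exact hpd (hmin _ hd.2 ⟨j, hj⟩ (by omega))
      have h4 : orderOf (g⁻¹ * d * g) ≤ 4 := Nat.le_of_dvd (by norm_num) (orderOf_dvd_of_pow_eq_one hd4)
      refine orderOf_dvd_iff_pow_eq_one.1 ?_
      rw [hkx] at hle ⊢
      have : 2 ^ kx ≤ 2 ^ 2 := by omega
      exact Nat.pow_dvd_pow 2 ((Nat.pow_le_pow_iff_right (by norm_num)).1 this)
    have hps : ∀ u ∈ F, u ∉ D → p (s x u) = 1 := fun u h1 h2 => zmod_two_eq _ (hu u h1 h2)
    have hDF : ∀ a ∈ D, a ∈ F := fun a ha => ⟨ha.1, (hsD a ha).1⟩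
    have hzx : x⁻¹ * z * x = z := by rw [mul_assoc, ← hzH x hxH, inv_mul_cancel_left]
    have htwist : ∀ u ∈ F, u ∉ D → s x u * u = u * (z * s x u) ∧ s x u * s x u = z := by
      intro u hu1 hu2
      have hss := hsq _ hu1.2 (by rw [hps u hu1 hu2]; exact one_ne_zero)
      refine ⟨?_, hss⟩
      have h1 : (u * s x u) * (u * s x u) = u * u := by
        rw [← conj_eq, ← conj_mul']
        rcases S.sq u hu1.1 with h | h <;> rw [h]
        · simp
        · exact hzx
      calc s x u * u = u⁻¹ * ((u * s x u) * (u * s x u)) * (s x u)⁻¹ := by group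
        _ = u * (s x u)⁻¹ := by rw [h1]; group
        _ = u * (z * s x u) := by
            congr 1
            rw [inv_eq_iff_mul_eq_one, ← mul_assoc, ← S.central _ hu1.2.1, mul_assoc, hss, S.zz]
    by_cases hEF : E ≤ F
    · -- `D` has index two in `E`
      set e := e₀
      set d₁ := s x e with hd₁
      obtain ⟨hde, hd₁sq⟩ : d₁ * e = e * (z * d₁) ∧ d₁ * d₁ = z := htwist e he₀ he₀D
      set w := g * z * g⁻¹ with hw
      have hwH : w ∈ H := by
        rw [hH, Subgroup.mem_centralizer_iff]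
        intro y hy
        rw [Set.mem_singleton_iff] at hy
        subst hy
        have h2 := hzH _ hzD.2
        calc y * (g * y * g⁻¹) = g * ((g⁻¹ * y * g) * y) * g⁻¹ := by group
          _ = g * (y * (g⁻¹ * y * g)) * g⁻¹ := by rw [h2]
          _ = g * y * g⁻¹ * y := by group
      have hwD : ∀ a ∈ D, w * a = a * w := fun a ha => by
        have h2 := hzH _ ha.2
        calc g * z * g⁻¹ * a = g * (z * (g⁻¹ * a * g)) * g⁻¹ := by group
          _ = g * ((g⁻¹ * a * g) * z) * g⁻¹ := by rw [h2]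
          _ = a * (g * z * g⁻¹) := by group
      have hww : w * w = 1 := by
        rw [hw, show g * z * g⁻¹ * (g * z * g⁻¹) = g * (z * z) * g⁻¹ by group, S.zz, mul_one,
          mul_inv_cancel]
      have hwinv : w⁻¹ = w := inv_eq_of_mul_eq_one_right hww
      have hcov : ∀ y ∈ E, y ∈ D ∨ e⁻¹ * y ∈ D := by
        intro y hy
        by_cases h1 : y ∈ D
        · exact Or.inl h1
        by_contra h
        push Not at h
        have hyF := hEF hy
        have hmF : e⁻¹ * y ∈ F := mul_mem (inv_mem he₀) hyF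
        have := hpsi e he₀ (e⁻¹ * y) hmF
        rw [mul_inv_cancel_left, hps y hyF h1, hps e he₀ he₀D, hps _ hmF h.2] at this
        exact one_ne_double this
      have hcentD : ∀ a ∈ D, a * e = e * a → a = 1 ∨ a = z := fun a ha hae => by
        refine S.center a ha.1 fun y hy => ?_
        rcases hcov y hy with h | h
        · exact hDab a ha y h
        · calc a * y = (a * e) * (e⁻¹ * y) := by group
            _ = e * (a * (e⁻¹ * y)) := by rw [hae]; group
            _ = y * a := by rw [hDab a ha _ h]; group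
      set vv := e⁻¹ * (w⁻¹ * e * w) with hvv
      have hvE : vv ∈ E := mul_mem (inv_mem he₀.1) (hEn w hwH e he₀.1)
      have hvcomm : ∀ a ∈ D, vv * a = a * vv := by
        intro a ha
        obtain ⟨hd', -⟩ := hDn a ha e⁻¹ (inv_mem he₀.1)
        rw [inv_inv] at hd'
        have h3 := hwD _ hd'
        have h4 : w⁻¹ * (e * a * e⁻¹) * w = e * a * e⁻¹ := by rw [mul_assoc, ← h3, inv_mul_cancel_left]
        calc vv * a = e⁻¹ * (w⁻¹ * e * (w * a)) := by simp only [hvv]; group
          _ = e⁻¹ * (w⁻¹ * e * (a * w)) := by rw [hwD a ha]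
          _ = e⁻¹ * ((w⁻¹ * (e * a * e⁻¹) * w) * (w⁻¹ * e * w)) := by group
          _ = e⁻¹ * ((e * a * e⁻¹) * (w⁻¹ * e * w)) := by rw [h4]
          _ = a * vv := by simp only [hvv]; group
      have hvD : vv ∈ D := by
        refine (hcov vv hvE).resolve_right fun h => ?_
        have h1 : d₁ * e = e * d₁ := by
          calc d₁ * e = d₁ * vv * (e⁻¹ * vv)⁻¹ := by group
            _ = vv * (d₁ * (e⁻¹ * vv)⁻¹) := by rw [← hvcomm d₁ he₀.2]; group
            _ = e * d₁ := by rw [hDab d₁ he₀.2 _ (inv_mem h)]; group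
        rw [hde] at h1
        exact S.z1 (mul_eq_right.1 (mul_left_cancel h1))
      have hv2 : vv * vv = 1 := by
        have h1 : w⁻¹ * vv * w = vv := by rw [mul_assoc, ← hwD vv hvD, inv_mul_cancel_left]
        have h2 : e = e * vv * vv := by
          calc e = (w * w)⁻¹ * e * (w * w) := by rw [hww]; group
            _ = w⁻¹ * (e * vv) * w := by simp only [hvv]; group
            _ = (w⁻¹ * e * w) * (w⁻¹ * vv * w) := by group
            _ = e * vv * vv := by rw [h1]; simp only [hvv]; group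
        rw [mul_assoc] at h2
        exact left_eq_mul.1 h2
      have hv1 : vv = 1 ∨ vv = z := by
        rcases S.comm vv hvE e he₀.1 with h | h
        · exact hcentD vv hvD h
        · exfalso
          have hm : vv * d₁ ∈ D := mul_mem hvD he₀.2
          have hc : (vv * d₁) * e = e * (vv * d₁) := by
            calc vv * d₁ * e = (vv * e) * (z * d₁) := by rw [mul_assoc, hde]; group
              _ = z * (e * vv) * (z * d₁) := by rw [h]
              _ = (z * z) * (e * (vv * d₁)) := by
                  have h5 : vv * z = z * vv := (S.central vv hvE).symm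
                  calc z * (e * vv) * (z * d₁) = z * (e * (vv * z)) * d₁ := by group
                    _ = z * ((e * z) * vv) * d₁ := by rw [h5]; group
                    _ = (z * z) * (e * (vv * d₁)) := by rw [← S.central e he₀.1]; group
              _ = e * (vv * d₁) := by rw [S.zz, one_mul]
          have hsq1 : vv * d₁ * (vv * d₁) = z := by
            calc vv * d₁ * (vv * d₁) = vv * (d₁ * vv) * d₁ := by group
              _ = vv * vv * (d₁ * d₁) := by rw [hDab d₁ he₀.2 vv hvD]; group
              _ = z := by rw [hv2, hd₁sq, one_mul]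
          rcases hcentD _ hm hc with h' | h' <;> rw [h'] at hsq1
          · rw [one_mul] at hsq1; exact S.z1 hsq1.symm
          · rw [S.zz] at hsq1; exact S.z1 hsq1.symm
      have hw1 : w ≠ 1 := fun h => S.z1 (conj_eq_one_iff.1 h)
      have hwz : w ≠ z := fun h => hg1 (by
        rw [hH, Subgroup.mem_centralizer_iff]
        intro y hy
        rw [Set.mem_singleton_iff] at hy
        subst hy
        conv_lhs => rw [← h, hw]
        group)
      have hall : ∀ b : G, (b ∈ E → ∀ a ∈ D, b * a = a * b) → ∀ t, t * e = e * t →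
          (∀ a ∈ D, t * a = a * t) → t = 1 ∨ t = z := by
        intro _ _ t hte htD
        have hc : ∀ y ∈ E, y * t = t * y := fun y hy => by
          rcases hcov y hy with h | h
          · exact (htD y h).symm
          · calc y * t = e * ((e⁻¹ * y) * t) := by group
              _ = e * (t * (e⁻¹ * y)) := by rw [htD _ h]
              _ = (e * t) * (e⁻¹ * y) := by group
              _ = t * y := by rw [← hte]; group
        exact S.center t (hcent (Subgroup.mem_centralizer_iff.2 hc)) (fun y hy => (hc y hy).symm)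
      rcases hv1 with h | h
      · rcases hall 1 (fun _ a _ => by simp) w (by
          have h' := h
          simp only [hvv] at h'
          rw [inv_mul_eq_one] at h'
          calc w * e = w * (w⁻¹ * e * w) := by rw [← h']
            _ = e * w := by group) (fun a ha => hwD a ha) with h1 | h1
        · exact hw1 h1
        · exact hwz h1
      · have hwe : w * e = e * (z * w) := by
          have h' := h
          simp only [hvv] at h'
          rw [inv_mul_eq_iff_eq_mul] at h'
          calc w * e = (w⁻¹ * e * w) * w⁻¹ := by rw [hwinv]; rw [show w * e * w * w = w * e * (w * w) by group, hww, mul_one]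
            _ = e * z * w := by rw [h', hwinv]
            _ = e * (z * w) := mul_assoc _ _ _
        have hte : (w * d₁) * e = e * (w * d₁) := by
          calc w * d₁ * e = (w * e) * (z * d₁) := by rw [mul_assoc, hde]; group
            _ = e * (z * w) * (z * d₁) := by rw [hwe]
            _ = e * ((z * z) * (w * d₁)) := by
                have h5 : w * z = z * w := hzH w hwH
                calc e * (z * w) * (z * d₁) = e * (z * (w * z) * d₁) := by group
                  _ = e * ((z * z) * (w * d₁)) := by rw [h5]; group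
            _ = e * (w * d₁) := by rw [S.zz, one_mul]
        have htD : ∀ a ∈ D, w * d₁ * a = a * (w * d₁) := fun a ha => by
          rw [mul_assoc, hDab d₁ he₀.2 a ha, ← mul_assoc, hwD a ha, mul_assoc]
        have hsq2 : w * d₁ * (w * d₁) = z := by
          calc w * d₁ * (w * d₁) = w * (d₁ * w) * d₁ := by group
            _ = (w * w) * (d₁ * d₁) := by rw [← hwD d₁ he₀.2]; group
            _ = z := by rw [hww, hd₁sq, one_mul]
        rcases hall 1 (fun _ a _ => by simp) _ hte htD with h' | h' <;> rw [h'] at hsq2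
        · rw [one_mul] at hsq2; exact S.z1 hsq2.symm
        · rw [S.zz] at hsq2; exact S.z1 hsq2.symm
    -- a second fixed point modulo `F`
    obtain ⟨q, hqE, hqF⟩ := SetLike.not_le_iff_exists.1 hEF
    have hsqF : ∀ y ∈ E, y * y ∈ F := fun y hy => by
      rcases S.sq y hy with h | h <;> rw [h]
      · exact one_mem _
      · exact hDF z hzD
    have hFn : ∀ a ∈ F, ∀ y ∈ E, y⁻¹ * a * y ∈ F := fun a ha y hy => by
      rcases S.comm a ha.1 y hy with h | h
      · rw [mul_assoc, h, inv_mul_cancel_left]; exact ha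
      · rw [mul_assoc, h, ← mul_assoc z, S.central y hy, mul_assoc, inv_mul_cancel_left]
        exact mul_mem (hDF z hzD) ha
    haveI : (F.subgroupOf E).Normal := ⟨fun a ha y => by
        rw [Subgroup.mem_subgroupOf] at ha ⊢
        have := hFn _ ha _ (inv_mem y.2)
        simpa using this⟩
    let π : E →* E ⧸ F.subgroupOf E := QuotientGroup.mk' _
    have hπ : ∀ u : E, π u = 1 ↔ (u : G) ∈ F := fun u => by
      show (QuotientGroup.mk u : E ⧸ F.subgroupOf E) = _ ↔ _
      exact (QuotientGroup.eq_one_iff u).trans Subgroup.mem_subgroupOf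
    have hπ2 : ∀ u : E, π u * π u = 1 := fun u => by
      rw [← map_mul, hπ]; exact hsqF u u.2
    have hπc : ∀ u u' : E, π u * π u' = π u' * π u := fun u u' => by
      have hi : ∀ t : E, (π t)⁻¹ = π t := fun t => inv_eq_of_mul_eq_one_right (hπ2 t)
      calc π u * π u' = (π (u * u'))⁻¹ := by rw [hi, map_mul]
        _ = π u' * π u := by rw [map_mul, mul_inv_rev, hi, hi]
    let θ : E → E := fun u => ⟨x⁻¹ * u * x, hEn x hxH u u.2⟩
    have hθm : ∀ u u', θ (u * u') = θ u * θ u' := fun u u' => Subtype.ext (conj_mul' x u u')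
    have hθ4 : ∀ u, θ (θ (θ (θ u))) = u := fun u => Subtype.ext (by
      show x⁻¹ * (x⁻¹ * (x⁻¹ * (x⁻¹ * u.1 * x) * x) * x) * x = u.1
      calc _ = (x ^ 4)⁻¹ * u.1 * x ^ 4 := by simp [pow_succ, mul_assoc]
        _ = u.1 := by rw [hx4]; group)
    obtain ⟨f, hfF, hfix⟩ : ∃ f : E, π f ≠ 1 ∧ π f * π (θ f) = 1 := by
      have hq1 : π ⟨q, hqE⟩ ≠ 1 := fun h => hqF ((hπ _).1 h)
      obtain ⟨r, hr, hr2⟩ : ∃ r : E, π r ≠ 1 ∧ π r * π (θ (θ r)) = 1 := by
        by_cases h0 : π ⟨q, hqE⟩ * π (θ (θ ⟨q, hqE⟩)) = 1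
        · exact ⟨_, hq1, h0⟩
        refine ⟨⟨q, hqE⟩ * θ (θ ⟨q, hqE⟩), by rwa [map_mul], ?_⟩
        rw [hθm, hθm, hθ4, map_mul, map_mul, mul_assoc, ← mul_assoc (π (θ (θ ⟨q, hqE⟩))), hπ2,
          one_mul, hπ2]
      by_cases h1 : π r * π (θ r) = 1
      · exact ⟨r, hr, h1⟩
      refine ⟨r * θ r, by rwa [map_mul], ?_⟩
      rw [hθm, map_mul, map_mul, mul_assoc, ← mul_assoc (π (θ r)), hπ2, one_mul, hr2]
    have hfF' : (f : G) ∉ F := fun h => hfF ((hπ f).2 h)
    set e := s x (f : G) with he
    have heF : e ∈ F := by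
      have h1 : π (f⁻¹ * θ f) = 1 := by
        rw [map_mul, map_inv, inv_eq_of_mul_eq_one_right (hπ2 f), hfix]
      exact (hπ _).1 h1
    have heD : e ∉ D := fun h => hfF' ⟨f.2, h⟩
    set d₁ := s x e with hd₁
    set d₀ := s x d₁ with hd₀
    set m := s x d₀ with hm
    obtain ⟨hde, hd₁sq⟩ : d₁ * e = e * (z * d₁) ∧ d₁ * d₁ = z := htwist e heF heD
    have hd₁D : d₁ ∈ D := heF.2
    obtain ⟨hd₀D, hld₀⟩ := hsD d₁ hd₁D
    obtain ⟨hmD, hlm⟩ := hsD d₀ hd₀D
    have hx1e : x⁻¹ * e * x = e * d₁ := conj_eq x e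
    have hx1d : x⁻¹ * d₁ * x = d₁ * d₀ := conj_eq x d₁
    have hx1d0 : x⁻¹ * d₀ * x = d₀ * m := conj_eq x d₀
    have hd₀sq : d₀ * d₀ = 1 := by
      have h1 : (d₁ * d₀) * (d₁ * d₀) = z := by rw [← hx1d, ← conj_mul', hd₁sq, hzx]
      calc d₀ * d₀ = d₁⁻¹ * (d₁ * d₀) * d₀ := by group
        _ = d₁⁻¹ * (d₀ * d₁) * d₀ := by rw [hDab d₁ hd₁D d₀ hd₀D]
        _ = (d₁ * d₁)⁻¹ * ((d₁ * d₀) * (d₁ * d₀)) := by
            simp only [mul_inv_rev, mul_assoc, inv_mul_cancel_left]
        _ = 1 := by rw [h1, hd₁sq, inv_mul_cancel]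
    have hzm : ∀ a ∈ E, z * a = a * z := S.central
    have hx2e : x⁻¹ * (e * d₁) * x = e * (z * d₀) := by
      rw [conj_mul', hx1e, hx1d]
      calc e * d₁ * (d₁ * d₀) = e * ((d₁ * d₁) * d₀) := by group
        _ = e * (z * d₀) := by rw [hd₁sq]
    have hed₀ : d₀ * e = e * d₀ := by
      have h1 : (e * (z * d₀)) * (e * (z * d₀)) = e * e := by
        rw [← hx2e, ← conj_mul', ← hx1e, ← conj_mul']
        rcases S.sq e heF.1 with h | h <;> rw [h]
        · simp
        · rw [hzx, hzx]
      have h2 : (z * d₀) * (e * (z * d₀)) = e := by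
        rw [mul_assoc e (z * d₀)] at h1
        exact mul_left_cancel h1
      have h3 : d₀ * e * d₀ = e := by
        have h4 : d₀ * z = z * d₀ := (hzm d₀ hd₀D.1).symm
        calc d₀ * e * d₀ = (z * z) * (d₀ * e) * d₀ := by rw [S.zz, one_mul]
          _ = z * (z * (d₀ * e)) * d₀ := by group
          _ = z * ((d₀ * e) * z) * d₀ := by rw [hzm (d₀ * e) (mul_mem hd₀D.1 heF.1)]
          _ = (z * d₀) * (e * (z * d₀)) := by group
          _ = e := h2
      calc d₀ * e = (d₀ * e * d₀) * d₀⁻¹ := by group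
        _ = e * d₀⁻¹ := by rw [h3]
        _ = e * d₀ := by rw [inv_eq_of_mul_eq_one_right hd₀sq]
    have hx3e : x⁻¹ * (e * (z * d₀)) * x = e * d₁ * (z * (d₀ * m)) := by
      rw [conj_mul', conj_mul', hx1e, hzx, hx1d0]
    -- `x ^ 4 = 1` forces `m = z`
    have h1f : x⁻¹ * (f : G) * x = f * e := conj_eq x f
    have hprod : e * (e * d₁) * (e * (z * d₀)) * (e * d₁ * (z * (d₀ * m))) = 1 := by
      have h4 := congrArg Subtype.val (hθ4 f)
      change x⁻¹ * (x⁻¹ * (x⁻¹ * (x⁻¹ * (f : G) * x) * x) * x) * x = f at h4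
      have s2 : x⁻¹ * ((f : G) * e) * x = f * e * (e * d₁) := by rw [conj_mul', h1f, hx1e]
      have s3 : x⁻¹ * ((f : G) * e * (e * d₁)) * x = f * e * (e * d₁) * (e * (z * d₀)) := by
        rw [conj_mul', s2, hx2e]
      have s4 : x⁻¹ * ((f : G) * e * (e * d₁) * (e * (z * d₀))) * x =
          f * e * (e * d₁) * (e * (z * d₀)) * (e * d₁ * (z * (d₀ * m))) := by
        rw [conj_mul', s3, hx3e]
      rw [h1f, s2, s3, s4] at h4
      simp only [mul_assoc] at h4 ⊢
      exact mul_left_cancel (h4.trans (mul_one _).symm)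
    have hee : ∀ a ∈ E, (e * e) * a = a * (e * e) := fun a ha => by
      rcases S.sq e heF.1 with h | h <;> rw [h]
      · simp
      · exact hzm a ha
    have hee2 : (e * e) * (e * e) = 1 := by
      rcases S.sq e heF.1 with h | h <;> rw [h]
      · simp
      · exact S.zz
    have hzm' : z * m = 1 := by
      calc z * m = (e * e) * (e * e) * ((d₁ * d₁) * m) := by rw [hee2, hd₁sq, one_mul]
        _ = (e * e) * ((e * e) * d₁) * (d₁ * m) := by group
        _ = (e * e) * (d₁ * (e * e)) * (d₁ * m) := by rw [hee d₁ hd₁D.1]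
        _ = e * (e * d₁) * e * e * d₁ * m * ((z * z) * (d₀ * d₀)) := by
            rw [S.zz, hd₀sq]; group
        _ = e * (e * d₁) * e * e * d₁ * ((z * z) * (d₀ * d₀)) * m := by
            rw [S.zz, hd₀sq]; group
        _ = e * (e * d₁) * e * ((e * d₁) * (z * d₀) * (z * d₀)) * m := by
            rw [show (z * z) * (d₀ * d₀) = (z * d₀) * (z * d₀) by
              rw [show z * d₀ * (z * d₀) = z * (d₀ * z) * d₀ by group, ← hzm d₀ hd₀D.1]; group]
            group
        _ = e * (e * d₁) * e * ((z * d₀) * (e * d₁) * (z * d₀)) * m := by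
            have hc : (z * d₀) * (e * d₁) = (e * d₁) * (z * d₀) := by
              calc z * d₀ * (e * d₁) = z * ((d₀ * e) * d₁) := by group
                _ = z * (e * (d₀ * d₁)) := by rw [hed₀]; group
                _ = z * ((e * d₁) * d₀) := by rw [hDab d₀ hd₀D d₁ hd₁D]; group
                _ = (e * d₁) * (z * d₀) := by
                    rw [← mul_assoc z, hzm _ (mul_mem heF.1 hd₁D.1), mul_assoc]
            rw [hc]
        _ = e * (e * d₁) * (e * (z * d₀)) * (e * d₁ * (z * (d₀ * m))) := by group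
        _ = 1 := hprod
    have hmz : m = z := by
      rw [← one_mul m, ← S.zz, mul_assoc, hzm', mul_one]
    exact hlz (hmz ▸ hlm)
  -- conclude
  have h1H : orbit E ((1 : G) : G ⧸ H) = {((1 : G) : G ⧸ H)} := by
    ext c'
    constructor
    · rintro ⟨⟨e, he⟩, rfl⟩
      exact QuotientGroup.eq.2 (by simpa using hEH he)
    · rintro rfl; exact mem_orbit_self _
  have hsum' : ∑ c : G ⧸ H, v c = v ((1 : G) : G ⧸ H) := by
    rw [← Finset.sum_fiberwise_of_maps_to (g := fun c => orbit E c)
      (t := Finset.univ.image fun c => orbit E c) (fun c _ => Finset.mem_image_of_mem _ (Finset.mem_univ c)),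
      Finset.sum_eq_single (orbit E ((1 : G) : G ⧸ H))]
    · rw [Finset.sum_eq_single ((1 : G) : G ⧸ H)]
      · intro b hb hne
        rw [Finset.mem_filter] at hb
        have : b ∈ orbit E ((1 : G) : G ⧸ H) := hb.2 ▸ mem_orbit_self b
        rw [h1H] at this
        exact absurd this hne
      · simp
    · intro o ho hne
      obtain ⟨c, -, rfl⟩ := Finset.mem_image.1 ho
      rw [show (Finset.univ.filter fun c' => orbit E c' = orbit E c) =
        Finset.univ.filter (fun c' => c' ∈ orbit E c) from Finset.filter_congr fun c' _ => orbit_eq_iff]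
      exact key c fun h => hne (by rw [h])
    · intro h
      exact absurd (Finset.mem_image_of_mem _ (Finset.mem_univ _)) h
  rw [hsum', hv, inv_one, one_mul, mul_one, hx1] at hsum
  exact one_ne_zero hsum

end Cfsg.Agent.Screen.ExtraAbelianization
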