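import Cfsg.Prelude
import Cfsg.Agent.S0720
import Cfsg.Agent.PermGroups.PrimeDegree

/-!
# No group has exactly 22 Sylow 3-subgroups
-/

set_option autoImplicit false
set_option maxHeartbeats 1000000
open MulAction

namespace Cfsg.Agent.Screen.SylowTwentyTwo

theorem relIndex_sup_normal {G : Type*} [Group G] [Finite G] (L P : Subgroup G) [P.Normal] :
    L.relIndex (L ⊔ P) = L.relIndex P := by
  have h1 := Subgroup.card_mul_index (L.subgroupOf (L ⊔ P))
  have h2 := Subgroup.card_mul_index (P.subgroupOf (L ⊔ P))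
  have h3 := Subgroup.card_mul_index (L.subgroupOf P)
  have h4 := Subgroup.card_mul_index (P.subgroupOf L)
  have e1 : Nat.card (L.subgroupOf P) = Nat.card (P.subgroupOf L) :=
    Nat.card_congr ⟨fun x => ⟨⟨x.1.1, x.2⟩, x.1.2⟩, fun x => ⟨⟨x.1.1, x.2⟩, x.1.2⟩, fun _ => rfl, fun _ => rfl⟩
  rw [Nat.card_congr (Subgroup.subgroupOfEquivOfLe (le_sup_left : L ≤ L ⊔ P)).toEquiv] at h1
  rw [Nat.card_congr (Subgroup.subgroupOfEquivOfLe (le_sup_right : P ≤ L ⊔ P)).toEquiv] at h2
  change Nat.card L * L.relIndex (L ⊔ P) = _ at h1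
  change Nat.card P * P.relIndex (L ⊔ P) = _ at h2
  change _ * L.relIndex P = _ at h3
  change _ * P.relIndex L = _ at h4
  rw [Subgroup.relIndex_sup_right] at h2
  rw [e1] at h3
  refine Nat.eq_of_mul_eq_mul_left (show 0 < Nat.card L from Nat.card_pos) ?_
  rw [h1, ← h2, ← h3, ← h4]; ring

/-- A transitive group of degree `7` of order prime to `3` has order dividing `14`. -/
theorem degree_seven {α : Type*} [Fintype α] [DecidableEq α] (hα : Fintype.card α = 7)
    (X : Subgroup (Equiv.Perm α)) [IsPretransitive X α] (h3 : ¬ 3 ∣ Nat.card X) : Nat.card X ∣ 14 := by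
  haveI : Fact (Nat.Prime 7) := ⟨by norm_num⟩
  obtain ⟨τ, hτX, hτ⟩ := PermGroups.exists_orderOf_eq_degree hα X
  obtain ⟨a⟩ : Nonempty α := Fintype.card_pos_iff.mp (by omega)
  obtain ⟨e, -, he⟩ := PermGroups.exists_coordinates hα hτ a
  rcases PermGroups.prime_degree_affine_or_two_transitive hα X hτX hτ e he with h2 | haff
  · exfalso
    apply h3
    obtain ⟨a₁, b₁, hab⟩ := Fintype.exists_pair_of_one_lt_card (by omega : 1 < Fintype.card α)
    have horb : orbit X ((a₁, b₁) : α × α) = ↑(Finset.univ.offDiag : Finset (α × α)) := by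
      ext ⟨c, d⟩
      simp only [Finset.coe_offDiag, Set.mem_offDiag, Finset.coe_univ, Set.mem_univ, true_and]
      constructor
      · rintro ⟨g, hg⟩ hcd
        simp only [Prod.smul_mk, Prod.mk.injEq] at hg
        exact hab (MulAction.injective g (hg.1.trans (hcd.trans hg.2.symm)))
      · intro hcd
        obtain ⟨g, hg1, hg2⟩ := (is_two_pretransitive_iff (G := X)).1 h2 hab hcd
        exact ⟨g, Prod.ext hg1 hg2⟩
    have h := MulAction.index_stabilizer (G := X) (x := ((a₁, b₁) : α × α))
    rw [horb, Set.ncard_coe_finset, Finset.offDiag_card, Finset.card_univ, hα] at h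
    have h42 := (stabilizer X ((a₁, b₁) : α × α)).index_dvd_card
    rw [h] at h42
    exact (Dvd.intro 14 rfl : 3 ∣ 7 * 7 - 7).trans h42
  · have key : ∀ g : X, ∃! c : ZMod 7, ∃ b, ∀ x, e ((g : Equiv.Perm α) x) = c * e x + b := by
      intro g
      obtain ⟨c, b, hcb⟩ := haff g g.2
      refine ⟨c, ⟨b, hcb⟩, fun c' ⟨b', hcb'⟩ => ?_⟩
      have h0 := (hcb (e.symm 0)).symm.trans (hcb' (e.symm 0))
      have h1 := (hcb (e.symm 1)).symm.trans (hcb' (e.symm 1))
      simp only [e.apply_symm_apply, mul_zero, zero_add, mul_one] at h0 h1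
      rw [h0] at h1
      exact (add_right_cancel h1).symm
    choose c hc using fun g => (key g).exists
    choose b hb using hc
    have huniq : ∀ (g : X) c' b', (∀ x, e ((g : Equiv.Perm α) x) = c' * e x + b') → c' = c g := fun g c' b' h =>
      (key g).unique ⟨b', h⟩ ⟨b g, hb g⟩
    let f : X →* ZMod 7 :=
      { toFun := c
        map_one' := (huniq 1 1 0 (by simp)).symm
        map_mul' := fun g h => (huniq (g * h) (c g * c h) (c g * b h + b g) fun x => by
          show e ((g : Equiv.Perm α) ((h : Equiv.Perm α) x)) = _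
          rw [hb g, hb h]; ring).symm }
    let u : X →* (ZMod 7)ˣ := f.toHomUnits
    have h6 : Nat.card u.range ∣ 6 := by
      have h := Subgroup.card_subgroup_dvd_card u.range
      rwa [Nat.card_eq_fintype_card (α := (ZMod 7)ˣ), ZMod.card_units] at h
    have hker : Nat.card u.ker ≤ 7 := by
      refine (Nat.card_le_card_of_injective (fun g : u.ker => b g.1) fun g h hgh => ?_).trans
        (le_of_eq (by rw [Nat.card_eq_fintype_card, ZMod.card]))
      have hg : c g.1 = 1 := congrArg Units.val (MonoidHom.mem_ker.1 g.2)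
      have hh : c h.1 = 1 := congrArg Units.val (MonoidHom.mem_ker.1 h.2)
      refine Subtype.ext (Subtype.ext (Equiv.ext fun x => e.injective ?_))
      rw [hb g.1, hb h.1, hg, hh]
      exact congrArg _ hgh
    have h7X : 7 ∣ Nat.card X := by
      rw [← hτ, ← Subgroup.orderOf_mk τ hτX]
      exact orderOf_dvd_natCard _
    have hmul : Nat.card X = Nat.card u.ker * Nat.card u.range := by
      rw [← Subgroup.index_ker, Subgroup.card_mul_index]
    have hk0 : 0 < Nat.card u.ker := Nat.card_pos
    generalize Nat.card u.ker = k at hk0 hker hmul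
    generalize Nat.card u.range = r at h6 hmul
    have hr : r ≤ 6 := Nat.le_of_dvd (by norm_num) h6
    rw [hmul] at h3 h7X ⊢
    exact (by decide : ∀ k < 8, ∀ r < 7, r ∣ 6 → ¬ 3 ∣ k * r → 7 ∣ k * r → k * r ∣ 14) k (by omega) r (by omega) h6 h3 h7X

/-- The core statement: no faithful action of degree 22 with point-normal Sylow 3-subgroups fixing one point. -/
theorem no_action {H : Type*} [Group H] [Finite H] {Ω : Type*} [Fintype Ω] [DecidableEq Ω]
    [MulAction H Ω] [FaithfulSMul H Ω] [IsPretransitive H Ω] (hΩ : Fintype.card Ω = 22)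
    (hprim : IsPreprimitive H Ω)
    (P : Ω → Subgroup H) (hP3 : ∀ a, IsPGroup 3 (P a)) (hPle : ∀ a, P a ≤ stabilizer H a)
    (hPmax : ∀ a, ∀ x ∈ stabilizer H a, ∀ k : ℕ, x ^ 3 ^ k = 1 → x ∈ P a)
    (hPfix : ∀ a b, (∀ x ∈ P a, x • b = b) → b = a) : False := by
  classical
  haveI := Fintype.ofFinite H
  haveI : Fact (Nat.Prime 3) := ⟨Nat.prime_three⟩
  haveI h11 : Fact (Nat.Prime 11) := ⟨by norm_num⟩
  haveI : Fact (Nat.Prime 7) := ⟨by norm_num⟩
  have hPn : ∀ a, ∀ g ∈ stabilizer H a, ∀ x ∈ P a, g * x * g⁻¹ ∈ P a := by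
    intro a g hg x hx
    obtain ⟨k, hk⟩ := (hP3 a) ⟨x, hx⟩
    refine hPmax a _ (mul_mem (mul_mem hg (hPle a hx)) (inv_mem hg)) k ?_
    rw [← MulAut.conj_apply, ← map_pow, show x ^ 3 ^ k = 1 from congrArg Subtype.val hk, map_one]
  -- double transitivity
  have h2t : IsMultiplyPretransitive H Ω 2 := by
    let φ := MulAction.toPermHom H Ω
    have hGp : IsPreprimitive φ.range Ω := by
      haveI := hprim
      let f : Ω →ₑ[fun h : H => (⟨φ h, h, rfl⟩ : φ.range)] Ω := ⟨id, fun h x => rfl⟩
      exact IsPreprimitive.of_surjective (f := f) Function.surjective_id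
    obtain ⟨a⟩ : Nonempty Ω := Fintype.card_pos_iff.mp (by omega)
    rcases S0720.result (p := 11) h11.out hΩ φ.range hGp a with h | ⟨-, x, hx0, hx, -⟩
    · refine ⟨fun x y => ?_⟩
      haveI := h
      obtain ⟨⟨g, h, rfl⟩, hg⟩ := MulAction.exists_smul_eq φ.range x y
      exact ⟨h, Function.Embedding.ext fun i => congrFun (congrArg DFunLike.coe hg) i⟩
    · exfalso
      rcases Nat.lt_or_ge x 2 with h | h
      · interval_cases x; omega
      · have := Nat.mul_le_mul h h; rw [pow_two] at hx; omega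
  have h21 : ∀ a b : Ω, b ≠ a → ((stabilizer H b).subgroupOf (stabilizer H a)).index = 21 := by
    intro a b hba
    have horb : orbit (stabilizer H a) b = {c | c ≠ a} := by
      ext c
      constructor
      · rintro ⟨g, rfl⟩ h
        refine hba (MulAction.injective (g : H) ?_)
        show (g : H) • b = (g : H) • a
        rw [mem_stabilizer_iff.1 g.2]
        exact h
      · intro hc
        obtain ⟨g, hg1, hg2⟩ := (is_two_pretransitive_iff (G := H)).1 h2t (Ne.symm hba) (Ne.symm hc)
        exact ⟨⟨g, hg1⟩, hg2⟩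
    have h := MulAction.index_stabilizer (G := stabilizer H a) (x := b)
    rw [horb] at h
    rw [show (stabilizer H b).subgroupOf (stabilizer H a) = stabilizer (stabilizer H a) b from rfl, h,
      Set.ncard_eq_toFinset_card', Set.toFinset_setOf, Finset.filter_ne', Finset.card_erase_of_mem
        (Finset.mem_univ _), Finset.card_univ, hΩ]
  -- orbits of size three
  have hidx : ∀ a b : Ω, b ≠ a → Nat.card (P a) = 3 * Nat.card ↥(P a ⊓ stabilizer H b) := by
    intro a b hba
    set L := (stabilizer H b).subgroupOf (stabilizer H a)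
    set P' := (P a).subgroupOf (stabilizer H a)
    haveI : P'.Normal := ⟨fun x hx g => Subgroup.mem_subgroupOf.2 (hPn a g g.2 _ (Subgroup.mem_subgroupOf.1 hx))⟩
    have hd : L.relIndex P' ∣ 21 := by
      rw [← h21 a b hba, ← relIndex_sup_normal L P']
      exact Subgroup.relIndex_dvd_index_of_le le_sup_left
    have heq : L.relIndex P' = (stabilizer H b).relIndex (P a) := by
      rw [Subgroup.relIndex_subgroupOf (hPle a)]
    have hmul : Nat.card ↥(P a ⊓ stabilizer H b) * (stabilizer H b).relIndex (P a) = Nat.card (P a) := by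
      rw [← Subgroup.inf_relIndex_left, ← Nat.card_congr (Subgroup.subgroupOfEquivOfLe
        (inf_le_left : P a ⊓ stabilizer H b ≤ P a)).toEquiv]
      exact Subgroup.card_mul_index _
    obtain ⟨k, hk⟩ := IsPGroup.iff_card.1 (hP3 a)
    rw [heq] at hd
    have hd' : (stabilizer H b).relIndex (P a) ∣ 3 ^ k := hk ▸ Dvd.intro_left _ hmul
    obtain ⟨i, -, hi⟩ := (Nat.dvd_prime_pow Nat.prime_three).1 hd'
    rcases i with _ | _ | i
    · exfalso
      refine hba (hPfix a b fun x hx => ?_)
      exact Subgroup.relIndex_eq_one.1 hi hx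
    · rw [← hmul, hi, mul_comm]; norm_num
    · exfalso
      rw [hi] at hd
      have : 9 ∣ 21 := (Dvd.intro_left (3 ^ i) (by ring)).trans hd
      norm_num at this
  have hcard : ∀ a b : Ω, Nat.card (P a) = Nat.card (P b) := by
    intro a b
    obtain ⟨g, rfl⟩ := exists_smul_eq H a b
    refine Nat.card_congr ((MulAut.conj g).toEquiv.subtypeEquiv fun x => ?_)
    show x ∈ P a ↔ g * x * g⁻¹ ∈ P (g • a)
    constructor
    · intro hx
      obtain ⟨k, hk⟩ := (hP3 a) ⟨x, hx⟩
      refine hPmax _ _ ?_ k ?_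
      · rw [mem_stabilizer_iff, mul_smul, mul_smul, inv_smul_smul, mem_stabilizer_iff.1 (hPle a hx)]
      · rw [← MulAut.conj_apply, ← map_pow, show x ^ 3 ^ k = 1 from congrArg Subtype.val hk, map_one]
    · intro hx
      obtain ⟨k, hk⟩ := (hP3 _) ⟨_, hx⟩
      refine hPmax _ _ ?_ k ?_
      · have h := mem_stabilizer_iff.1 (hPle _ hx)
        rw [mul_smul, mul_smul, inv_smul_smul] at h
        exact mem_stabilizer_iff.2 (MulAction.injective g h)
      · refine (MulAut.conj g).injective ?_
        rw [map_pow, map_one, MulAut.conj_apply]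
        exact congrArg Subtype.val hk
  -- the intersections
  have hD : ∀ a b : Ω, b ≠ a → ∀ x ∈ P a, x • b = b → x ∈ P b := by
    intro a b hba x hx hxb
    obtain ⟨k, hk⟩ := (hP3 a) ⟨x, hx⟩
    exact hPmax b x hxb k (congrArg Subtype.val hk)
  have hDeq : ∀ a b c : Ω, b ≠ a → c ≠ a → (∀ x ∈ P a, x • b = b → x • c = c) →
      ∀ x ∈ P a, (x • c = c ↔ x • b = b) := by
    intro a b c hba hca h x hx
    have hle : P a ⊓ stabilizer H b ≤ P a ⊓ stabilizer H c := fun y hy => ⟨hy.1, h y hy.1 hy.2⟩
    have heq := Subgroup.eq_of_le_of_card_ge hle (by have := hidx a b hba; have := hidx a c hca; omega)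
    exact ⟨fun hxc => (heq.symm ▸ (⟨hx, hxc⟩ : x ∈ P a ⊓ stabilizer H c) : x ∈ P a ⊓ stabilizer H b).2, h x hx⟩
  have hexp : ∀ a, ∀ x ∈ P a, x ^ 3 = 1 := by
    intro a x hx
    refine eq_of_smul_eq_smul (α := Ω) fun b => ?_
    rw [one_smul]
    by_cases hba : b = a
    · subst hba
      exact mem_stabilizer_iff.1 (pow_mem (hPle _ hx) 3)
    haveI : ((P a ⊓ stabilizer H b).subgroupOf (P a)).Normal := by
      refine Subgroup.normal_of_index_eq_minFac_card ?_
      have h := Subgroup.card_mul_index ((P a ⊓ stabilizer H b).subgroupOf (P a))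
      rw [Nat.card_congr (Subgroup.subgroupOfEquivOfLe (inf_le_left : P a ⊓ stabilizer H b ≤ P a)).toEquiv,
        hidx a b hba, mul_comm] at h
      obtain ⟨k, hk⟩ := IsPGroup.iff_card.1 (hP3 a)
      have hk0 : k ≠ 0 := by
        rintro rfl
        rw [hidx a b hba, pow_zero] at hk
        omega
      rw [Nat.eq_of_mul_eq_mul_right Nat.card_pos h, hk, Nat.pow_minFac hk0, Nat.prime_three.minFac_eq]
    have h := Subgroup.pow_index_mem ((P a ⊓ stabilizer H b).subgroupOf (P a)) (⟨x, hx⟩ : P a)
    have h' := Subgroup.card_mul_index ((P a ⊓ stabilizer H b).subgroupOf (P a))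
    rw [Nat.card_congr (Subgroup.subgroupOfEquivOfLe (inf_le_left : P a ⊓ stabilizer H b ≤ P a)).toEquiv,
      hidx a b hba, mul_comm] at h'
    rw [Nat.eq_of_mul_eq_mul_right Nat.card_pos h'] at h
    exact (Subgroup.mem_subgroupOf.1 h).2
  have hP : ∀ a, Nat.card (P a) = 3 := by
    intro a₀
    obtain ⟨b₀, hb₀⟩ := Fintype.exists_ne_of_one_lt_card (by omega : 1 < Fintype.card Ω) a₀
    have hc0 := hidx a₀ b₀ hb₀
    by_contra hne
    have hd1 : Nat.card ↥(P a₀ ⊓ stabilizer H b₀) ≠ 1 := by omega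
    -- lines
    let F : Ω → Ω → Finset Ω := fun a b => Finset.univ.filter fun c => ∀ x ∈ P a, x • b = b → x • c = c
    have hFa : ∀ a b, a ∈ F a b := fun a b =>
      Finset.mem_filter.2 ⟨Finset.mem_univ _, fun x hx _ => hPle a hx⟩
    have hFb : ∀ a b, b ∈ F a b := fun a b => Finset.mem_filter.2 ⟨Finset.mem_univ _, fun x _ h => h⟩
    have hFeq : ∀ a b, b ≠ a → ∀ c ∈ F a b, ∀ d ∈ F a b, d ≠ c → F c d = F a b := by
      intro a b hba c hc d hd hdc
      have hc' := (Finset.mem_filter.1 hc).2
      have hd' := (Finset.mem_filter.1 hd).2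
      have hsub : ∀ x ∈ P a, x • b = b → x ∈ P c ∧ x • d = d := fun x hx hxb => by
        obtain ⟨k, hk⟩ := (hP3 a) ⟨x, hx⟩
        exact ⟨hPmax c x (hc' x hx hxb) k (congrArg Subtype.val hk), hd' x hx hxb⟩
      have hle : P a ⊓ stabilizer H b ≤ P c ⊓ stabilizer H d := fun y hy => hsub y hy.1 hy.2
      have heq := Subgroup.eq_of_le_of_card_ge hle
        (by have := hidx a b hba; have := hidx c d hdc; have := hcard a c; omega)
      ext e
      simp only [F, Finset.mem_filter, Finset.mem_univ, true_and]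
      constructor
      · intro h x hx hxb
        exact h x (hsub x hx hxb).1 (hsub x hx hxb).2
      · intro h x hx hxd
        have hm : x ∈ P a ⊓ stabilizer H b := heq.symm ▸ (⟨hx, hxd⟩ : x ∈ P c ⊓ stabilizer H d)
        exact h x hm.1 hm.2
    have hFcard : ∀ a b c d, b ≠ a → d ≠ c → (F c d).card = (F a b).card := by
      intro a b c d hba hdc
      obtain ⟨g, hga, hgb⟩ := (is_two_pretransitive_iff (G := H)).1 h2t (Ne.symm hba) (Ne.symm hdc)
      have key : ∀ (g : H) (a b e : Ω), e ∈ F a b → g • e ∈ F (g • a) (g • b) := by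
        intro g a b e he
        refine Finset.mem_filter.2 ⟨Finset.mem_univ _, fun x hx hxb => ?_⟩
        have hx' : g⁻¹ * x * g ∈ P a := by
          obtain ⟨k, hk⟩ := (hP3 _) ⟨x, hx⟩
          refine hPmax a _ ?_ k ?_
          · rw [mem_stabilizer_iff, mul_smul, mul_smul, mem_stabilizer_iff.1 (hPle _ hx), inv_smul_smul]
          · rw [show g⁻¹ * x * g = MulAut.conj g⁻¹ x by simp, ← map_pow,
              show x ^ 3 ^ k = 1 from congrArg Subtype.val hk, map_one]
        have h := (Finset.mem_filter.1 he).2 _ hx' (by rw [mul_smul, mul_smul, hxb, inv_smul_smul])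
        rw [mul_smul, mul_smul, inv_smul_eq_iff] at h
        exact h
      refine le_antisymm ?_ ?_
      · refine Finset.card_le_card_of_injOn (fun e => g⁻¹ • e) (fun e he => ?_) fun x _ y _ h => MulAction.injective _ h
        have := key g⁻¹ c d e he
        rwa [← hga, ← hgb, inv_smul_smul, inv_smul_smul] at this
      · refine Finset.card_le_card_of_injOn (fun e => g • e) (fun e he => ?_) fun x _ y _ h => MulAction.injective _ h
        have := key g a b e he
        rwa [hga, hgb] at this
    set K := (F a₀ b₀).card with hK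
    have hKd : ∀ a : Ω, (Finset.univ.erase a).card = (((Finset.univ.erase a).image (F a)).card) * (K - 1) := by
      intro a
      rw [Finset.card_eq_sum_card_image (F a), Finset.sum_const_nat]
      intro l hl
      obtain ⟨b, hb, rfl⟩ := Finset.mem_image.1 hl
      have hba := (Finset.mem_erase.1 hb).1
      have e : (Finset.univ.erase a).filter (fun c => F a c = F a b) = (F a b).erase a := by
        ext c
        simp only [Finset.mem_filter, Finset.mem_erase, Finset.mem_univ, and_true]
        exact ⟨fun ⟨hca, hc⟩ => ⟨hca, hc ▸ hFb a c⟩, fun ⟨hca, hc⟩ => ⟨hca, hFeq a b hba a (hFa a b) c hc hca⟩⟩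
      rw [e, Finset.card_erase_of_mem (hFa a b), hFcard a₀ b₀ a b hb₀ hba]
    have hk21 : ∀ a : Ω, ((Finset.univ.erase a).image (F a)).card * (K - 1) = 21 := fun a => by
      rw [← hKd a, Finset.card_erase_of_mem (Finset.mem_univ _), Finset.card_univ, hΩ]
    -- a line has at least four points
    have hKge : 4 ≤ K := by
      have hs : (F a₀ b₀).erase a₀ ⊇ Finset.univ.filter (fun c => ∃ x ∈ P a₀, x • b₀ = c) := by
        intro c hc
        obtain ⟨x, hx, rfl⟩ := (Finset.mem_filter.1 hc).2
        refine Finset.mem_erase.2 ⟨fun h => hb₀ (MulAction.injective x ?_), Finset.mem_filter.2 ⟨Finset.mem_univ _, ?_⟩⟩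
        · show x • b₀ = x • a₀
          rw [h, mem_stabilizer_iff.1 (hPle _ hx)]
        intro y hy hyb
        haveI : ((P a₀ ⊓ stabilizer H b₀).subgroupOf (P a₀)).Normal := by
          refine Subgroup.normal_of_index_eq_minFac_card ?_
          have h := Subgroup.card_mul_index ((P a₀ ⊓ stabilizer H b₀).subgroupOf (P a₀))
          rw [Nat.card_congr (Subgroup.subgroupOfEquivOfLe (inf_le_left : P a₀ ⊓ stabilizer H b₀ ≤ P a₀)).toEquiv,
            hc0, mul_comm] at h
          obtain ⟨k, hk⟩ := IsPGroup.iff_card.1 (hP3 a₀)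
          have hk0 : k ≠ 0 := by
            rintro rfl
            rw [hc0, pow_zero] at hk
            omega
          rw [Nat.eq_of_mul_eq_mul_right Nat.card_pos h, hk, Nat.pow_minFac hk0, Nat.prime_three.minFac_eq]
        have h := Subgroup.mem_subgroupOf.1 ((inferInstance : ((P a₀ ⊓ stabilizer H b₀).subgroupOf (P a₀)).Normal).conj_mem
          ⟨y, hy⟩ (Subgroup.mem_subgroupOf.2 ⟨hy, hyb⟩) (⟨x, hx⟩ : P a₀)⁻¹)
        have h' : (x⁻¹ * y * x⁻¹⁻¹) • b₀ = b₀ := h.2
        rw [inv_inv, mul_smul, mul_smul, inv_smul_eq_iff] at h'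
        exact h'
      have hcount : 3 ≤ (Finset.univ.filter (fun c => ∃ x ∈ P a₀, x • b₀ = c)).card := by
        have h := MulAction.index_stabilizer (G := P a₀) (x := b₀)
        have h3 : (stabilizer (P a₀) b₀).index = 3 := by
          have h' := Subgroup.card_mul_index (stabilizer (P a₀) b₀)
          rw [show Nat.card (stabilizer (P a₀) b₀) = Nat.card ↥(P a₀ ⊓ stabilizer H b₀) from
            Nat.card_congr ⟨fun w => ⟨w.1.1, w.1.2, w.2⟩, fun w => ⟨⟨w.1, w.2.1⟩, w.2.2⟩, fun _ => rfl, fun _ => rfl⟩,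
            hc0, mul_comm 3] at h'
          exact Nat.eq_of_mul_eq_mul_left Nat.card_pos h'
        rw [h3] at h
        have e : orbit (P a₀) b₀ = ↑(Finset.univ.filter (fun c => ∃ x ∈ P a₀, x • b₀ = c)) := by
          ext c
          simp only [Finset.coe_filter, Finset.mem_univ, true_and, Set.mem_setOf_eq]
          exact ⟨fun ⟨x, hx⟩ => ⟨x.1, x.2, hx⟩, fun ⟨x, hx, hxc⟩ => ⟨⟨x, hx⟩, hxc⟩⟩
        rw [e, Set.ncard_coe_finset] at h
        omega
      have := Finset.card_le_card hs
      rw [Finset.card_erase_of_mem (hFa a₀ b₀), ← hK] at this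
      omega
    have hKlt : K ≠ 22 := by
      intro h
      have huniv : F a₀ b₀ = Finset.univ := Finset.eq_univ_of_card _ (by rw [← hK, h, hΩ])
      refine hd1 (Subgroup.card_eq_one.2 ?_)
      rw [eq_bot_iff]
      intro x hx
      refine Subgroup.mem_bot.2 (eq_of_smul_eq_smul (α := Ω) fun c => ?_)
      rw [one_smul]
      exact (Finset.mem_filter.1 (huniv.symm ▸ Finset.mem_univ c : c ∈ F a₀ b₀)).2 x hx.1 hx.2
    -- incidences
    set L : Finset (Finset Ω) := Finset.univ.biUnion (fun a => (Finset.univ.erase a).image (F a)) with hL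
    have hinc : ∀ a : Ω, L.filter (fun l => a ∈ l) = (Finset.univ.erase a).image (F a) := by
      intro a
      ext l
      simp only [hL, Finset.mem_filter, Finset.mem_biUnion, Finset.mem_univ, true_and, Finset.mem_image,
        Finset.mem_erase, and_true]
      constructor
      · rintro ⟨⟨c, d, hdc, rfl⟩, hal⟩
        by_cases hca : c = a
        · subst hca; exact ⟨d, hdc, rfl⟩
        · exact ⟨c, hca, hFeq c d hdc a hal c (hFa c d) hca⟩
      · rintro ⟨b, hba, rfl⟩
        exact ⟨⟨a, b, hba, rfl⟩, hFa a b⟩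
    have hdouble := Finset.card_mul_eq_card_mul (fun (a : Ω) (l : Finset Ω) => a ∈ l)
      (s := Finset.univ) (t := L) (m := ((Finset.univ.erase a₀).image (F a₀)).card) (n := K)
      (fun a _ => by
        show (L.filter (fun l => a ∈ l)).card = _
        rw [hinc]
        have h1 := hk21 a
        have h2 := hk21 a₀
        exact Nat.eq_of_mul_eq_mul_right (by omega) (h1.trans h2.symm))
      (fun l hl => by
        simp only [hL, Finset.mem_biUnion, Finset.mem_univ, true_and, Finset.mem_image, Finset.mem_erase,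
          and_true] at hl
        obtain ⟨c, d, hdc, rfl⟩ := hl
        show ((Finset.univ : Finset Ω).filter (fun a => a ∈ F c d)).card = K
        rw [Finset.filter_mem_eq_inter, Finset.univ_inter, hFcard a₀ b₀ c d hb₀ hdc])
    simp only [Finset.card_univ, hΩ] at hdouble
    have hm := hk21 a₀
    have hKd' : K - 1 ∣ 21 := Dvd.intro_left _ hm
    have hKle : K - 1 ≤ 21 := Nat.le_of_dvd (by norm_num) hKd'
    generalize ((Finset.univ.erase a₀).image (F a₀)).card = m at hm hdouble
    generalize L.card = l at hdouble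
    generalize K = K' at hKge hKlt hm hdouble hKd' hKle
    have hK22 : K' ≤ 22 := by omega
    interval_cases K' <;> omega
  -- centralizer of a Sylow subgroup
  obtain ⟨a⟩ : Nonempty Ω := Fintype.card_pos_iff.mp (by omega)
  set S := stabilizer H a with hS
  set C := Subgroup.centralizer ((P a : Subgroup H) : Set H) with hC
  have hCS : C ≤ S := by
    intro c hc
    refine mem_stabilizer_iff.2 (hPfix a _ fun x hx => ?_)
    rw [← mul_smul, Subgroup.mem_centralizer_iff.1 hc x hx, mul_smul, mem_stabilizer_iff.1 (hPle a hx)]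
  have hPC : P a ≤ C := by
    intro x hx
    refine Subgroup.mem_centralizer_iff.2 fun y hy => ?_
    haveI : IsCyclic (P a) := isCyclic_of_prime_card (hP a)
    letI := IsCyclic.commGroup (α := P a)
    exact congrArg Subtype.val (mul_comm (⟨y, hy⟩ : P a) ⟨x, hx⟩)
  have hS2 : Nat.card S ∣ 2 * Nat.card C := by
    haveI : IsCyclic (P a) := isCyclic_of_prime_card (hP a)
    let φ : S →* MulAut (P a) :=
      { toFun := fun g =>
          { toFun := fun x => ⟨g * x * (g : H)⁻¹, hPn a g g.2 x x.2⟩
            invFun := fun x => ⟨(g : H)⁻¹ * x * g, by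
              have := hPn a (g : H)⁻¹ (inv_mem g.2) x x.2
              rwa [inv_inv] at this⟩
            left_inv := fun x => Subtype.ext (by
              show (g : H)⁻¹ * ((g : H) * x * (g : H)⁻¹) * g = x; group)
            right_inv := fun x => Subtype.ext (by
              show (g : H) * ((g : H)⁻¹ * x * g) * (g : H)⁻¹ = x; group)
            map_mul' := fun x y => Subtype.ext (by
              show (g : H) * ((x : H) * y) * (g : H)⁻¹ = ((g : H) * x * (g : H)⁻¹) * ((g : H) * y * (g : H)⁻¹)
              group) }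
        map_one' := MulEquiv.ext fun x => Subtype.ext (by show (1 : H) * x * (1 : H)⁻¹ = x; group)
        map_mul' := fun g k => MulEquiv.ext fun x => Subtype.ext (by
          show ((g : H) * k) * x * ((g : H) * k)⁻¹ = (g : H) * ((k : H) * x * (k : H)⁻¹) * (g : H)⁻¹
          group) }
    have hker : Nat.card φ.ker = Nat.card C := by
      refine Nat.card_congr ⟨fun g => ⟨g.1.1, Subgroup.mem_centralizer_iff.2 fun x hx => ?_⟩,
        fun c => ⟨⟨c.1, hCS c.2⟩, MonoidHom.mem_ker.2 (MulEquiv.ext fun x => Subtype.ext ?_)⟩,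
        fun _ => rfl, fun _ => rfl⟩
      · have h := congrArg Subtype.val (DFunLike.congr_fun (MonoidHom.mem_ker.1 g.2) ⟨x, hx⟩)
        exact (mul_inv_eq_iff_eq_mul.1 h).symm
      · show (c : H) * x * (c : H)⁻¹ = x
        rw [← Subgroup.mem_centralizer_iff.1 c.2 x x.2, mul_inv_cancel_right]
    have h2 : Nat.card φ.range ∣ 2 := by
      have h := Subgroup.card_subgroup_dvd_card φ.range
      rwa [IsCyclic.card_mulAut, hP a, Nat.totient_prime Nat.prime_three] at h
    rw [← φ.ker.card_mul_index, Subgroup.index_ker, hker, mul_comm 2]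
    exact Nat.mul_dvd_mul_left _ h2
  obtain ⟨b, hb⟩ := Fintype.exists_ne_of_one_lt_card (by omega : 1 < Fintype.card Ω) a
  set Cb := (stabilizer H b).subgroupOf C with hCb
  have hCb21 : Cb.index = 21 := by
    have h1 : Cb.index ∣ 21 := by
      haveI : (C.subgroupOf S).Normal := ⟨fun c hc g => Subgroup.mem_subgroupOf.2 (by
        refine Subgroup.mem_centralizer_iff.2 fun x hx => ?_
        have h := Subgroup.mem_centralizer_iff.1 (Subgroup.mem_subgroupOf.1 hc) _
          (hPn a (g : H)⁻¹ (inv_mem g.2) x hx)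
        rw [inv_inv] at h
        show x * ((g : H) * c * (g : H)⁻¹) = (g : H) * c * (g : H)⁻¹ * x
        calc x * ((g : H) * c * (g : H)⁻¹) = (g : H) * (((g : H)⁻¹ * x * g) * c) * (g : H)⁻¹ := by group
          _ = _ := by rw [h]; group)⟩
      rw [← h21 a b hb, hCb]
      show (stabilizer H b).relIndex C ∣ _
      rw [← Subgroup.relIndex_subgroupOf hCS, ← relIndex_sup_normal]
      exact Subgroup.relIndex_dvd_index_of_le le_sup_left
    have h2 : 21 ≤ 2 * Cb.index := by
      have e1 := Subgroup.card_mul_index Cb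
      have e2 := Subgroup.card_mul_index ((stabilizer H b).subgroupOf S)
      rw [h21 a b hb] at e2
      have e3 : Nat.card Cb ≤ Nat.card ((stabilizer H b).subgroupOf S) :=
        Nat.card_le_card_of_injective (fun w => ⟨⟨w.1.1, hCS w.1.2⟩, w.2⟩)
          fun w w' h => Subtype.ext (Subtype.ext (congrArg (fun v => (v.1.1 : H)) h))
      have e4 := Nat.le_of_dvd (by have : 0 < Nat.card C := Nat.card_pos; omega) hS2
      have e5 : 0 < Nat.card ((stabilizer H b).subgroupOf S) := Nat.card_pos
      have e6 : 21 * Nat.card ((stabilizer H b).subgroupOf S) ≤ 2 * Cb.index * Nat.card ((stabilizer H b).subgroupOf S) := by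
        calc 21 * _ = Nat.card S := by rw [mul_comm]; exact e2
          _ ≤ 2 * (Nat.card Cb * Cb.index) := by rw [e1]; exact e4
          _ ≤ _ := by rw [mul_comm (Nat.card Cb), ← mul_assoc]; exact Nat.mul_le_mul_left _ e3
      exact Nat.le_of_mul_le_mul_right e6 e5
    have h3 : Cb.index ≤ 21 := Nat.le_of_dvd (by norm_num) h1
    interval_cases hi : Cb.index <;> omega
  set P' := (P a).subgroupOf C with hP'
  haveI hP'n : P'.Normal := ⟨fun x hx g => Subgroup.mem_subgroupOf.2 (hPn a g (hCS g.2) _ (Subgroup.mem_subgroupOf.1 hx))⟩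
  have hP'3 : Nat.card P' = 3 := by rw [Nat.card_congr (Subgroup.subgroupOfEquivOfLe hPC).toEquiv, hP a]
  set M := P' ⊔ Cb with hM
  have hM7 : M.index = 7 := by
    have h1 : Cb.relIndex M = 3 := by
      rw [hM, sup_comm, relIndex_sup_normal]
      have hle : Cb.relIndex P' ∣ 3 := hP'3 ▸ Subgroup.relIndex_dvd_card Cb P'
      refine ((Nat.dvd_prime Nat.prime_three).1 hle).resolve_left fun h => hb (hPfix a b fun x hx => ?_)
      exact Subgroup.mem_subgroupOf.1 (Subgroup.relIndex_eq_one.1 h
        (Subgroup.mem_subgroupOf.2 (show ((⟨x, hPC hx⟩ : C) : H) ∈ P a from hx)))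
    have := Subgroup.relIndex_mul_index (show Cb ≤ M from le_sup_right)
    rw [h1, hCb21] at this
    omega
  have hcore : M.normalCore = P' := by
    refine le_antisymm (fun r hr => Subgroup.mem_subgroupOf.2 ?_) (Subgroup.normal_le_normalCore.2 le_sup_left)
    refine hPmax a _ (hCS r.2) 1 (eq_of_smul_eq_smul (α := Ω) fun c => ?_)
    rw [pow_one, one_smul]
    by_cases hca : c = a
    · subst hca
      exact mem_stabilizer_iff.1 (pow_mem (hCS r.2) 3)
    obtain ⟨γ, hγ⟩ : ∃ γ : C, γ • b = c := by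
      have h := MulAction.index_stabilizer (G := C) (x := b)
      rw [show stabilizer C b = Cb from rfl, hCb21] at h
      have hsub : orbit C b ⊆ {c | c ≠ a} := by
        rintro _ ⟨γ, rfl⟩ h'
        refine hb (MulAction.injective (γ : H) ?_)
        show (γ : H) • b = (γ : H) • a
        rw [mem_stabilizer_iff.1 (hCS γ.2)]
        exact h'
      have heq : orbit C b = {c | c ≠ a} := by
        refine Set.eq_of_subset_of_ncard_le hsub ?_ (Set.toFinite _)
        rw [← h, Set.ncard_eq_toFinset_card', Set.toFinset_setOf, Finset.filter_ne',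
          Finset.card_erase_of_mem (Finset.mem_univ _), Finset.card_univ, hΩ]
      exact mem_orbit_iff.1 (heq.symm ▸ hca : c ∈ orbit C b)
    have hr' : γ⁻¹ * r * γ⁻¹⁻¹ ∈ M := M.normalCore_le ((M.normalCore_normal).conj_mem r hr γ⁻¹)
    rw [inv_inv] at hr'
    obtain ⟨π, hπ, s, hs, hps⟩ := Subgroup.mem_sup_of_normal_left.1 hr'
    set ρ := γ⁻¹ * r * γ with hρ
    have hρb : ρ • b = π • b := by
      rw [← hps, mul_smul, show s • b = b from Subgroup.mem_subgroupOf.1 hs]
    have hcomm : ρ * π = π * ρ :=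
      Subtype.ext (Subgroup.mem_centralizer_iff.1 ρ.2 (π : H) (Subgroup.mem_subgroupOf.1 hπ)).symm
    have h3b : ρ ^ 3 • b = b := by
      have e1 : ρ • (π • b) = π • (π • b) := by rw [← mul_smul, hcomm, mul_smul, hρb]
      have e2 : ρ • (π • (π • b)) = π • (π • (π • b)) := by rw [← mul_smul, hcomm, mul_smul, e1]
      have e3 : π • (π • (π • b)) = b := by
        rw [← mul_smul, ← mul_smul, show π * π * π = 1 from Subtype.ext (by
          have := hexp a _ (Subgroup.mem_subgroupOf.1 hπ)
          rwa [pow_succ, pow_two] at this), one_smul]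
      rw [pow_succ, pow_two, mul_smul, mul_smul, hρb, e1, e2, e3]
    have h : γ • (ρ ^ 3 • b) = (r ^ 3 : C) • (γ • b) := by
      rw [← mul_smul, ← mul_smul, hρ, show γ⁻¹ * r * γ = MulAut.conj γ⁻¹ r by simp, ← map_pow]
      congr 1
      simp only [MulAut.conj_apply, inv_inv]
      group
    rw [h3b, hγ] at h
    exact h.symm
  have hS84 : Nat.card S ∣ 84 := by
    refine hS2.trans ?_
    let ψ := MulAction.toPermHom C (C ⧸ M)
    have hψk : ψ.ker = P' := by rw [← hcore, Subgroup.normalCore_eq_ker]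
    haveI : IsPretransitive ψ.range (C ⧸ M) := ⟨fun x y => by
      obtain ⟨g, hg⟩ := exists_smul_eq C x y
      exact ⟨⟨ψ g, g, rfl⟩, hg⟩⟩
    have hC3 : Nat.card C = 3 * Nat.card ψ.range := by
      rw [← ψ.ker.card_mul_index, Subgroup.index_ker, hψk, hP'3]
    haveI := Fintype.ofFinite (C ⧸ M)
    have h14 := degree_seven (α := C ⧸ M) (by rw [← Nat.card_eq_fintype_card, ← Subgroup.index_eq_card, hM7])
      ψ.range (fun h => by
        obtain ⟨y, hy⟩ := exists_prime_orderOf_dvd_card' 3 h
        obtain ⟨c, hc⟩ : ∃ c : C, ψ c = y := y.2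
        obtain ⟨k, m, hm, hkm⟩ := Nat.exists_eq_pow_mul_and_not_dvd (orderOf_pos c).ne' 3 (by norm_num)
        have h3 : c ^ m ∈ P' := Subgroup.mem_subgroupOf.2 (hPmax a _ (hCS (c ^ m).2) k (by
          rw [← Subgroup.coe_pow, ← pow_mul, mul_comm, ← hkm, pow_orderOf_eq_one, Subgroup.coe_one]))
        rw [← hψk, MonoidHom.mem_ker, map_pow, hc] at h3
        refine hm (hy ▸ orderOf_dvd_of_pow_eq_one ?_)
        exact Subtype.ext (by rw [Subgroup.coe_pow]; exact h3))
    rw [hC3, show 84 = 2 * (3 * 14) from rfl]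
    exact Nat.mul_dvd_mul_left 2 (Nat.mul_dvd_mul_left 3 h14)
  have hH : Nat.card H = 22 * Nat.card S := by
    rw [← S.card_mul_index, hS, MulAction.index_stabilizer_of_transitive, Nat.card_eq_fintype_card (α := Ω), hΩ, mul_comm]
  -- Sylow 11
  obtain ⟨Q⟩ : Nonempty (Sylow 11 H) := inferInstance
  have hS11 : ¬ 11 ∣ Nat.card S := fun h => by
    have := h.trans hS84; norm_num at this
  have hQ : Nat.card (Q : Subgroup H) = 11 := by
    obtain ⟨n, hn⟩ := IsPGroup.iff_card.1 Q.isPGroup'
    have hd : 11 ^ n ∣ 22 * Nat.card S := hn ▸ hH ▸ Subgroup.card_subgroup_dvd_card _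
    have hn0 : n ≠ 0 := by
      rintro rfl
      have h1 := Q.not_dvd_index
      rw [Subgroup.card_eq_one.1 (hn.trans (pow_zero 11)), Subgroup.index_bot, hH] at h1
      exact h1 ((Dvd.intro 2 rfl : 11 ∣ 22).trans (Dvd.intro _ rfl))
    have hn2 : n < 2 := by
      by_contra hlt
      obtain ⟨i, rfl⟩ : ∃ i, n = 2 + i := ⟨n - 2, by omega⟩
      have h121 : 121 ∣ 22 * Nat.card S := (Dvd.intro _ (by rw [pow_add]; rfl)).trans hd
      omega
    rw [hn, show n = 1 by omega, pow_one]
  set N := Subgroup.normalizer ((Q : Subgroup H) : Set H) with hN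
  set CQ := Subgroup.centralizer ((Q : Subgroup H) : Set H) with hCQ
  have hCQ3 : ¬ 3 ∣ Nat.card CQ := by
    intro h
    obtain ⟨x, hx⟩ := exists_prime_orderOf_dvd_card' 3 h
    have hx3 : (x : H) ^ 3 = 1 := by rw [← Subgroup.coe_pow, ← hx, pow_orderOf_eq_one]; rfl
    have hx1 : (x : H) ≠ 1 := fun h' => by
      rw [show x = 1 from Subtype.ext h', orderOf_one] at hx; omega
    -- `x` fixes exactly one point
    have hfix1 : Nat.card (fixedPoints (Subgroup.zpowers (x : H)) Ω) = 1 := by
      have hpg : IsPGroup 3 (Subgroup.zpowers (x : H)) := IsPGroup.of_card (n := 1)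
        (by rw [Nat.card_zpowers, Subgroup.orderOf_coe, hx, pow_one])
      have hmod := hpg.card_modEq_card_fixedPoints Ω
      rw [Nat.card_eq_fintype_card (α := Ω), hΩ] at hmod
      have hne : Nonempty (fixedPoints (Subgroup.zpowers (x : H)) Ω) := by
        by_contra he
        haveI := not_nonempty_iff.1 he
        rw [Nat.card_of_isEmpty] at hmod
        exact absurd hmod (by decide)
      obtain ⟨⟨u, hu⟩⟩ := hne
      have hu' : ∀ w : Ω, w ∈ fixedPoints (Subgroup.zpowers (x : H)) Ω → w = u := by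
        intro w hw
        by_contra hwu
        have hxu : (x : H) • u = u := hu ⟨_, Subgroup.mem_zpowers _⟩
        have hxP : (x : H) ∈ P u := hPmax u _ hxu 1 (by rw [pow_one]; exact hx3)
        have hgen : ∀ y ∈ P u, y • w = w := by
          intro y hy
          obtain ⟨k, hk⟩ := Subgroup.mem_zpowers_iff.1 (mem_zpowers_of_prime_card (hP u)
            (g := (⟨x, hxP⟩ : P u)) (g' := ⟨y, hy⟩) (fun h' => hx1 (congrArg Subtype.val h')))
          rw [show y = (x : H) ^ k from (congrArg Subtype.val hk).symm]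
          exact hw ⟨_, Subgroup.zpow_mem_zpowers _ k⟩
        exact hwu (hPfix u w hgen)
      exact Nat.card_eq_one_iff_unique.2 ⟨⟨fun p q => Subtype.ext ((hu' _ p.2).trans (hu' _ q.2).symm)⟩, ⟨⟨u, hu⟩⟩⟩
    obtain ⟨hsub, ⟨⟨u, hu⟩⟩⟩ := Nat.card_eq_one_iff_unique.1 hfix1
    have hQS : (Q : Subgroup H) ≤ stabilizer H u := by
      intro q hq
      have hqu : q • u ∈ fixedPoints (Subgroup.zpowers (x : H)) Ω := by
        rintro ⟨y, hy⟩
        obtain ⟨k, rfl⟩ := Subgroup.mem_zpowers_iff.1 hy
        show (x : H) ^ k • q • u = q • u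
        have hc : Commute q (x : H) := Subgroup.mem_centralizer_iff.1 x.2 q hq
        rw [← mul_smul, ← (hc.zpow_right k).eq, mul_smul]
        exact congrArg (q • ·) (hu ⟨_, Subgroup.zpow_mem_zpowers _ k⟩)
      exact congrArg Subtype.val (hsub.elim ⟨_, hqu⟩ ⟨u, hu⟩)
    have hd := Subgroup.card_dvd_of_le hQS
    have hSu : Nat.card (stabilizer H u) = Nat.card S := by
      obtain ⟨g, rfl⟩ := exists_smul_eq H a u
      exact (Nat.card_congr (MulAction.stabilizerEquivStabilizer (rfl : g • a = g • a)).toEquiv).symm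
    rw [hQ, hSu] at hd
    exact hS11 hd
  have hCQ7 : ¬ 7 ∣ Nat.card CQ := by
    intro h
    obtain ⟨y, hy⟩ := exists_prime_orderOf_dvd_card' 7 h
    have hpg : IsPGroup 7 (Subgroup.zpowers (y : H)) := IsPGroup.of_card (n := 1)
      (by rw [Nat.card_zpowers, Subgroup.orderOf_coe, hy, pow_one])
    have hmod := hpg.card_modEq_card_fixedPoints Ω
    rw [Nat.card_eq_fintype_card (α := Ω), hΩ] at hmod
    set X : Set Ω := fixedPoints (Subgroup.zpowers (y : H)) Ω with hX
    have hinv : ∀ q ∈ (Q : Subgroup H), ∀ w ∈ X, q • w ∈ X := by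
      intro q hq w hw
      rintro ⟨z, hz⟩
      obtain ⟨k, rfl⟩ := Subgroup.mem_zpowers_iff.1 hz
      show (y : H) ^ k • q • w = q • w
      have hc : Commute q (y : H) := Subgroup.mem_centralizer_iff.1 y.2 q hq
      rw [← mul_smul, ← (hc.zpow_right k).eq, mul_smul]
      exact congrArg (q • ·) (hw ⟨_, Subgroup.zpow_mem_zpowers _ k⟩)
    let X' : SubMulAction (Q : Subgroup H) Ω := ⟨X, fun q w hw => hinv q q.2 w hw⟩
    have hmod' := Q.isPGroup'.card_modEq_card_fixedPoints X'
    have hfree : Nat.card (fixedPoints (Q : Subgroup H) X') = 0 := by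
      rw [Nat.card_eq_zero]
      left
      refine ⟨fun w => ?_⟩
      have hle : (Q : Subgroup H) ≤ stabilizer H (w.1 : Ω) := fun q hq =>
        congrArg Subtype.val (w.2 ⟨q, hq⟩)
      have hd := Subgroup.card_dvd_of_le hle
      have hSu : Nat.card (stabilizer H (w.1 : Ω)) = Nat.card S := by
        obtain ⟨g, hg⟩ := exists_smul_eq H a (w.1 : Ω)
        exact (Nat.card_congr (MulAction.stabilizerEquivStabilizer hg.symm).toEquiv).symm
      rw [hQ, hSu] at hd
      exact hS11 hd
    rw [hfree] at hmod'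
    have hXle : Nat.card X ≤ 22 := by
      rw [← hΩ, ← Nat.card_eq_fintype_card]; exact Nat.card_le_card_of_injective _ Subtype.val_injective
    have hX' : Nat.card X' = Nat.card X := rfl
    rw [hX'] at hmod'
    have hX22 : Nat.card X = 22 := by
      unfold Nat.ModEq at hmod hmod'
      omega
    have hXu : X = Set.univ := by
      refine Set.eq_of_subset_of_ncard_le (Set.subset_univ _) ?_ (Set.toFinite _)
      rw [Set.ncard_univ, Nat.card_eq_fintype_card, hΩ, ← Nat.card_coe_set_eq, hX22]
    have hy1 : (y : H) = 1 := eq_of_smul_eq_smul (α := Ω) fun w => by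
      rw [one_smul]
      exact (hXu.symm ▸ Set.mem_univ w : w ∈ X) ⟨_, Subgroup.mem_zpowers _⟩
    rw [show y = 1 from Subtype.ext hy1, orderOf_one] at hy
    omega
  have hN10 : Nat.card N ∣ 10 * Nat.card CQ := by
    haveI : IsCyclic (Q : Subgroup H) := isCyclic_of_prime_card hQ
    let φ : N →* MulAut (Q : Subgroup H) := (Subgroup.normalizerMonoidHom (Q : Subgroup H))
    have hker : Nat.card φ.ker ∣ Nat.card CQ := by
      rw [Subgroup.normalizerMonoidHom_ker]
      exact Subgroup.card_comap_dvd_of_injective CQ _ N.subtype_injective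
    have h2 : Nat.card φ.range ∣ 10 := by
      have h := Subgroup.card_subgroup_dvd_card φ.range
      rwa [IsCyclic.card_mulAut, hQ, Nat.totient_prime h11.out] at h
    rw [← φ.ker.card_mul_index, Subgroup.index_ker, mul_comm 10]
    exact Nat.mul_dvd_mul hker h2
  have hn := Subgroup.card_mul_index N
  rw [hH] at hn
  have hmod := card_sylow_modEq_one 11 H
  rw [Q.card_eq_index_normalizer] at hmod
  have hN3 : ¬ 3 ∣ Nat.card N := fun h => by
    rcases (Nat.prime_three.dvd_mul).1 (h.trans hN10) with h' | h'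
    · norm_num at h'
    · exact hCQ3 h'
  have hN7 : ¬ 7 ∣ Nat.card N := fun h => by
    rcases ((Fact.out : Nat.Prime 7).dvd_mul).1 (h.trans hN10) with h' | h'
    · norm_num at h'
    · exact hCQ7 h'
  have hN11 : 11 ∣ Nat.card N := hQ ▸ Subgroup.card_dvd_of_le Subgroup.le_normalizer
  have h21S : 21 ∣ Nat.card S := by
    have := ((stabilizer H b).subgroupOf S).index_dvd_card
    rwa [h21 a b hb] at this
  obtain ⟨s, hs⟩ := h21S
  obtain ⟨w, hw⟩ := hN11
  have hs4 : s ∣ 4 := by
    rw [hs] at hS84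
    exact Nat.dvd_of_mul_dvd_mul_left (by norm_num : 0 < 21) (by simpa using hS84)
  change Nat.ModEq 11 N.index 1 at hmod
  rw [hs, hw] at hn
  have hn' : w * N.index = 42 * s := by
    have : 11 * (w * N.index) = 11 * (42 * s) := by rw [← mul_assoc, hn]; ring
    exact Nat.eq_of_mul_eq_mul_left (by norm_num) this
  have hsle : s ≤ 4 := Nat.le_of_dvd (by norm_num) hs4
  have hs0 : 0 < s := Nat.pos_of_dvd_of_pos hs4 (by norm_num)
  rw [hw] at hN3 hN7
  have hw21 : 21 ∣ N.index := by
    have hdvd : 21 ∣ w * N.index := ⟨2 * s, by rw [hn']; ring⟩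
    refine (Nat.Coprime.dvd_of_dvd_mul_left ?_ hdvd)
    rw [show 21 = 3 * 7 from rfl, Nat.coprime_mul_iff_left, Nat.Prime.coprime_iff_not_dvd Nat.prime_three,
      Nat.Prime.coprime_iff_not_dvd (Fact.out : Nat.Prime 7)]
    exact ⟨fun h => hN3 (h.mul_left 11), fun h => hN7 (h.mul_left 11)⟩
  have hle : N.index ≤ 168 := by
    have hw0 : 0 < w := Nat.pos_of_ne_zero fun h => by rw [h, zero_mul] at hn'; omega
    calc N.index ≤ w * N.index := Nat.le_mul_of_pos_left _ hw0
      _ = 42 * s := hn'
      _ ≤ 168 := by omega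
  obtain ⟨i, hi⟩ := hw21
  have hi' : w * i = 2 * s := by
    refine Nat.eq_of_mul_eq_mul_left (show 0 < 21 by norm_num) ?_
    rw [← mul_assoc 21 w, mul_comm 21 w, mul_assoc w, ← hi, hn']; ring
  have his : i ∣ 8 := (Dvd.intro_left w hi').trans (Nat.mul_dvd_mul_left 2 hs4)
  rw [hi] at hmod hle
  have hile : i ≤ 8 := Nat.le_of_dvd (by norm_num) his
  interval_cases i <;> simp [Nat.ModEq] at hmod his

/-- No group has 22 Sylow 3-subgroups. -/
theorem main {G : Type*} [Group G] [Finite G] : Nat.card (Sylow 3 G) ≠ 22 := by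
  classical
  intro h22
  haveI : Fact (Nat.Prime 3) := ⟨Nat.prime_three⟩
  haveI := Fintype.ofFinite (Sylow 3 G)
  set Ω := Sylow 3 G
  set φ := MulAction.toPermHom G Ω with hφ
  set H := φ.range with hH
  haveI : IsPretransitive H Ω := ⟨fun x y => by
    obtain ⟨g, hg⟩ := exists_smul_eq G x y
    exact ⟨⟨φ g, g, rfl⟩, hg⟩⟩
  have hstab : ∀ (A : Ω) (g : G), g • A = A ↔ g ∈ Subgroup.normalizer ((A : Subgroup G) : Set G) :=
    fun A g => Sylow.smul_eq_iff_mem_normalizer
  have hlift : ∀ (A : Ω) (h : H), h • A = A → ∃ g : G, g • A = A ∧ φ g = h := fun A h hh => by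
    obtain ⟨g, hg⟩ := h.2
    exact ⟨g, (show φ g A = A by rw [hg]; exact hh), hg⟩
  haveI hprim : IsPreprimitive H Ω := by
    obtain ⟨A⟩ : Nonempty Ω := inferInstance
    haveI : Nontrivial Ω := Fintype.one_lt_card_iff_nontrivial.1 (by
      rw [← Nat.card_eq_fintype_card, h22]; norm_num)
    rw [← MulAction.isCoatom_stabilizer_iff_preprimitive (G := H) A]
    refine ⟨fun h => ?_, fun M hM => ?_⟩
    · obtain ⟨B, hB⟩ := exists_ne A
      obtain ⟨g, hg⟩ := exists_smul_eq H A B
      exact hB (hg ▸ mem_stabilizer_iff.1 (h.symm ▸ Subgroup.mem_top g))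
    by_contra htop
    set M' := M.comap φ.rangeRestrict with hM'
    have hNle : Subgroup.normalizer ((A : Subgroup G) : Set G) ≤ M' := fun g hg =>
      hM.le (show φ.rangeRestrict g • A = A from (hstab A g).2 hg)
    have hidx : M'.index = M.index := Subgroup.index_comap_of_surjective _ φ.rangeRestrict_surjective
    have hAM : (A : Subgroup G) ≤ M' := Subgroup.le_normalizer.trans hNle
    have hN22 : (Subgroup.normalizer ((A : Subgroup G) : Set G)).index = 22 := by
      rw [← h22, A.card_eq_index_normalizer]; rfl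
    have hmul := Subgroup.relIndex_mul_index hNle
    rw [hN22] at hmul
    -- the Sylow number of `M'`
    have hsyl : Nat.card (Sylow 3 M') = (Subgroup.normalizer ((A : Subgroup G) : Set G)).relIndex M' := by
      rw [(A.subtype hAM).card_eq_index_normalizer]
      show (Subgroup.normalizer (((A : Subgroup G).subgroupOf M') : Set M')).index = _
      rw [Subgroup.relIndex,
        Subgroup.subgroupOf_normalizer_eq hAM]
    have h3 := card_sylow_modEq_one 3 M'
    rw [hsyl] at h3
    have hne1 : M.index ≠ 1 := fun h => htop (Subgroup.index_eq_one.1 h)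
    set r := (Subgroup.normalizer ((A : Subgroup G) : Set G)).relIndex M'
    have hr : r ∣ 22 := Dvd.intro _ hmul
    have hr22 : r ≠ 22 := fun h => by rw [h] at hmul; omega
    have hr1 : r ≠ 1 := fun h => by
      refine hM.not_ge fun x hx => ?_
      obtain ⟨g, rfl⟩ := φ.rangeRestrict_surjective x
      exact (hstab A g).2 (Subgroup.relIndex_eq_one.1 h hx)
    have : r ∈ Nat.divisors 22 := Nat.mem_divisors.2 ⟨hr, by norm_num⟩
    rw [show Nat.divisors 22 = {1, 2, 11, 22} from by decide] at this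
    simp only [Finset.mem_insert, Finset.mem_singleton] at this
    unfold Nat.ModEq at h3
    omega
  let P : Ω → Subgroup H := fun A => (A : Subgroup G).map φ.rangeRestrict
  refine no_action (H := H) (Ω := Ω) (by rw [← Nat.card_eq_fintype_card, h22]) hprim P
    (fun A => A.isPGroup'.map _) ?_ ?_ ?_
  · rintro A _ ⟨g, hg, rfl⟩
    exact (hstab A g).2 (Subgroup.le_normalizer hg)
  · intro A x hx k hk
    obtain ⟨g, hgA, hgx⟩ := hlift A x hx
    obtain ⟨m, j, hj, hord⟩ := Nat.exists_eq_pow_mul_and_not_dvd (orderOf_pos g).ne' 3 (by norm_num)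
    have hcop : Nat.Coprime j (3 ^ k) :=
      ((Nat.Prime.coprime_iff_not_dvd Nat.prime_three).2 hj).symm.pow_right k
    have hg' : g ^ j ∈ (A : Subgroup G) := by
      have hn := (hstab A g).1 hgA
      have hp : IsPGroup 3 (Subgroup.zpowers (g ^ j)) := by
        intro y
        refine ⟨m, ?_⟩
        obtain ⟨i, hi⟩ := Subgroup.mem_zpowers_iff.1 y.2
        apply Subtype.ext
        rw [Subgroup.coe_pow, ← hi, Subgroup.coe_one, ← zpow_natCast, ← zpow_mul, mul_comm, zpow_mul, zpow_natCast,
          ← pow_mul, mul_comm j, ← hord, pow_orderOf_eq_one, one_zpow]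
      have hsup := A.is_maximal' (hp.to_sup_of_normal_right' A.isPGroup'
        (Subgroup.zpowers_le.2 (pow_mem hn j))) le_sup_right
      exact hsup ▸ Subgroup.mem_sup_left (Subgroup.mem_zpowers _)
    have hxj : x ^ j ∈ P A := ⟨g ^ j, hg', Subtype.ext (by
      rw [map_pow, Subgroup.coe_pow, Subgroup.coe_pow]; exact congrArg (· ^ j) hgx)⟩
    have hxo : orderOf x ∣ 3 ^ k := orderOf_dvd_of_pow_eq_one hk
    have hxji : x ∈ Subgroup.zpowers (x ^ j) := by
      rw [mem_zpowers_pow_iff]
      exact (Nat.Coprime.of_dvd_left hxo hcop.symm).symm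
    exact (Subgroup.zpowers_le.2 hxj) hxji
  · intro A B hB
    -- `A` normalizes `B`, hence equals it
    have hn : (A : Subgroup G) ≤ Subgroup.normalizer ((B : Subgroup G) : Set G) := fun g hg =>
      (hstab B g).1 (congrFun (congrArg (fun h : H => ⇑(h : Equiv.Perm Ω)) rfl) B |>.trans
        (hB (φ.rangeRestrict g) ⟨g, hg, rfl⟩))
    have hsup := B.is_maximal' (A.isPGroup'.to_sup_of_normal_right' B.isPGroup' hn) le_sup_right
    have hle : (A : Subgroup G) ≤ (B : Subgroup G) := hsup ▸ le_sup_left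
    exact Sylow.ext (A.is_maximal' B.isPGroup' hle)

end Cfsg.Agent.Screen.SylowTwentyTwo
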